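import Cfsg.Agent.CharGraph.Palfy.Module
import Cfsg.Agent.CharGraph.Palfy.Degree
import Cfsg.Agent.Cores.Basic
import Cfsg.Agent.Lib.MinimalNormal

/-!
# A minimal counterexample and the action on the linear characters of a normal subgroup
-/

set_option linter.unusedSectionVars false
set_option linter.style.haveILetI false

namespace Cfsg.Agent.CharGraph.Palfy

open Cfsg Subgroup
open Cfsg.Agent.Char (irr_charDegree_spec)

universe u

variable {G : Type u} [Group G] [Finite G]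

/-- A minimal counterexample: `M` is the unique minimal normal subgroup and `p` divides no degree
of `G / M`. -/
structure Base (M : Subgroup G) (s p q r : ℕ) : Prop where
  hs : s.Prime
  hp : p.Prime
  hq : q.Prime
  hr : r.Prime
  npq : p ≠ q
  nqr : q ≠ r
  npr : p ≠ r
  normal : M.Normal
  ne : M ≠ ⊥
  unique : ∀ N : Subgroup G, N.Normal → N ≠ ⊥ → M ≤ N
  comm : ∀ x ∈ M, ∀ y ∈ M, Commute x y
  exp : ∀ x ∈ M, x ^ s = 1
  dvd_over : ∀ χ : IrrCharacter G, (∃ m ∈ M, (χ : G → ℂ) m ≠ (χ : G → ℂ) 1) →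
    p ∣ charDegree (χ : G → ℂ)
  pq : ∀ χ : IrrCharacter G, ¬ p * q ∣ charDegree (χ : G → ℂ)
  qr : ∀ χ : IrrCharacter G, ¬ q * r ∣ charDegree (χ : G → ℂ)
  pr : ∀ χ : IrrCharacter G, ¬ p * r ∣ charDegree (χ : G → ℂ)
  degp : ∃ χ : IrrCharacter G, p ∣ charDegree (χ : G → ℂ)
  degq : ∃ χ : IrrCharacter G, q ∣ charDegree (χ : G → ℂ)
  degr : ∃ χ : IrrCharacter G, r ∣ charDegree (χ : G → ℂ)
  drop : ∀ N : Subgroup G, N.Normal → N ≠ ⊤ → ∃ ℓ, (ℓ = p ∨ ℓ = q ∨ ℓ = r) ∧
    ∀ ψ : IrrCharacter N, ¬ ℓ ∣ charDegree (ψ : N → ℂ)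

theorem eq_one_of_pow_prime {α : Type*} [Monoid α] {x : α} {m n : ℕ} (h : m.Coprime n)
    (hm : x ^ m = 1) (hn : x ^ n = 1) : x = 1 := by
  have := pow_gcd_eq_one.2 ⟨hm, hn⟩
  rwa [h.gcd_eq_one, pow_one] at this

/-- A prime dividing no degree gives a normal abelian subgroup containing a Sylow subgroup. -/
theorem exists_drop [Group.IsSolvable G] {N : Subgroup G} [N.Normal] {ℓ : ℕ} [Fact ℓ.Prime]
    (h : ∀ ψ : IrrCharacter N, ¬ ℓ ∣ charDegree (ψ : N → ℂ)) :
    ∃ L : Subgroup G, L.Normal ∧ L ≤ N ∧ IsPGroup ℓ L ∧ (∀ x ∈ L, ∀ y ∈ L, Commute x y) ∧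
      ¬ ℓ ∣ L.relIndex N := by
  obtain ⟨P⟩ : Nonempty (Sylow ℓ N) := inferInstance
  obtain ⟨hPn, hPc⟩ := sylow_normal_of_not_dvd h P
  haveI := hPn
  haveI : (P : Subgroup N).Characteristic := P.characteristic_of_normal hPn
  refine ⟨(P : Subgroup N).map N.subtype, Cores.normal_map_subtype_of_characteristic _,
    Subgroup.map_subtype_le _, P.2.map N.subtype, ?_, ?_⟩
  · rintro _ ⟨x, hx, rfl⟩ _ ⟨y, hy, rfl⟩
    exact (hPc x hx y hy).map N.subtype
  · rw [Subgroup.relIndex, ← Subgroup.comap_subtype,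
      Subgroup.comap_map_eq_self_of_injective N.subtype_injective]
    exact P.not_dvd_index

/-- The action on the linear characters of a normal subgroup. -/
def dualAct (M : Subgroup G) [M.Normal] : G →* MulAut (M →* ℂˣ) where
  toFun g :=
    { toFun := fun l => l.comp (MulAut.conjNormal g⁻¹ : MulAut M).toMonoidHom
      invFun := fun l => l.comp (MulAut.conjNormal g : MulAut M).toMonoidHom
      left_inv := fun l => MonoidHom.ext fun m => congrArg l (Subtype.ext (by simp [mul_assoc]))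
      right_inv := fun l => MonoidHom.ext fun m => congrArg l (Subtype.ext (by simp [mul_assoc]))
      map_mul' := fun l l' => rfl }
  map_one' := MulEquiv.ext fun l => MonoidHom.ext fun m => congrArg l (Subtype.ext (by simp))
  map_mul' g h := MulEquiv.ext fun l => MonoidHom.ext fun m =>
    congrArg l (Subtype.ext (by simp [mul_assoc]))

theorem dualAct_apply (M : Subgroup G) [M.Normal] (g : G) (l : M →* ℂˣ) (m : M) :
    dualAct M g l m =
      l ⟨g⁻¹ * m * g, by simpa using Subgroup.Normal.conj_mem inferInstance (m : G) m.2 g⁻¹⟩ :=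
  congrArg l (Subtype.ext (by simp))

theorem dualAct_apply' (M : Subgroup G) [M.Normal] (g : G) (l : M →* ℂˣ) (m : M) :
    dualAct M g⁻¹ l m = l ⟨g * m * g⁻¹, Subgroup.Normal.conj_mem inferInstance (m : G) m.2 g⟩ :=
  congrArg l (Subtype.ext (by simp))

theorem mem_fixer_dual {M : Subgroup G} [M.Normal] {l : M →* ℂˣ} {g : G} :
    g ∈ fixer (dualAct M) l ↔
      ∀ m : M, (l ⟨g * m * g⁻¹, Subgroup.Normal.conj_mem inferInstance (m : G) m.2 g⟩ : ℂ) =
        (l m : ℂ) := by
  rw [← Subgroup.inv_mem_iff, mem_fixer]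
  constructor
  · intro h m
    rw [← dualAct_apply', h]
  · intro h
    exact MonoidHom.ext fun m => Units.ext (by rw [dualAct_apply']; exact h m)

theorem le_ker_dual (N : Subgroup G) [N.Normal] : N ≤ (dualAct N).ker := fun x hx =>
  MulEquiv.ext fun l => MonoidHom.ext fun m => by
    rw [dualAct_apply, MulAut.one_apply,
      show (⟨x⁻¹ * m * x, _⟩ : N) = (⟨x, hx⟩ : N)⁻¹ * m * ⟨x, hx⟩ from rfl, map_mul, map_mul,
      map_inv, mul_right_comm, inv_mul_cancel, one_mul]

/-- A character over a nontrivial linear character is nontrivial on `M`. -/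
theorem exists_ne_of_over (M : Subgroup G) [Fintype M] {l : M →* ℂˣ} (hl : l ≠ 1)
    (χ : IrrCharacter G) (h : classInner (fun m : M => (χ : G → ℂ) m) (fun m => (l m : ℂ)) ≠ 0) :
    ∃ m ∈ M, (χ : G → ℂ) m ≠ (χ : G → ℂ) 1 := by
  by_contra hno
  push Not at hno
  apply h
  rw [show (fun m : M => (χ : G → ℂ) m) = (χ : G → ℂ) 1 • (fun _ : M => (1 : ℂ)) from
    funext fun m => by simp [hno m m.2], Char.classInner_smul_left,
    Char.classInner_irr_ne Char.isIrrCharacter_const_one (Char.isIrrCharacter_monoidHom l)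
      (fun h => hl (MonoidHom.ext fun m => Units.ext (congrFun h m).symm)), mul_zero]

namespace Base

variable {M : Subgroup G} {s p q r : ℕ}

theorem symm (B : Base M s p q r) : Base M s p r q :=
  { B with
    hq := B.hr, hr := B.hq, npq := B.npr, npr := B.npq, nqr := B.nqr.symm
    pq := B.pr, pr := B.pq, qr := fun χ h => B.qr χ (by rwa [mul_comm] at h)
    degq := B.degr, degr := B.degq
    drop := fun N hN hne => by
      obtain ⟨ℓ, hℓ, h⟩ := B.drop N hN hne
      exact ⟨ℓ, by tauto, h⟩ }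

variable (B : Base M s p q r)
include B

theorem isPGroup : IsPGroup s M := fun x => ⟨1, Subtype.ext (by simpa using B.exp x x.2)⟩

theorem not_q (χ : IrrCharacter G) (h : ∃ m ∈ M, (χ : G → ℂ) m ≠ (χ : G → ℂ) 1) :
    ¬ q ∣ charDegree (χ : G → ℂ) := fun hq =>
  B.pq χ (((Nat.coprime_primes B.hp B.hq).2 B.npq).mul_dvd_of_dvd_of_dvd (B.dvd_over χ h) hq)

theorem prime_dvd_index {K : Subgroup G} [K.Normal] (hK : ¬ q ∣ Nat.card K) :
    q ∣ Nat.card (G ⧸ K) := by
  obtain ⟨χ, hχ⟩ := B.degq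
  exact (B.hq.dvd_mul.1 ((K.card_eq_card_quotient_mul_card_subgroup) ▸
    hχ.trans (BlkChar.irr_charDegree_dvd_card χ))).resolve_right hK

theorem qr_quotient (K : Subgroup G) [K.Normal] (χ : IrrCharacter (G ⧸ K)) :
    ¬ q * r ∣ charDegree (χ : G ⧸ K → ℂ) := fun h =>
  B.qr (inflate K χ) (by rwa [charDegree_inflate])

/-- A vector is nontrivial. -/
theorem nontrivial_dual : Nontrivial (M →* ℂˣ) := by
  haveI : Nontrivial M := (Subgroup.nontrivial_iff_ne_bot M).2 B.ne
  obtain ⟨x, hx⟩ := exists_ne (1 : M)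
  letI : CommGroup M :=
    { (inferInstance : Group M) with mul_comm := fun a b => Subtype.ext (B.comm a a.2 b b.2) }
  obtain ⟨f, hf⟩ := CommGroup.exists_apply_ne_one_of_hasEnoughRootsOfUnity M ℂ hx
  exact ⟨f, 1, fun h => hf (by rw [h]; rfl)⟩

theorem pow_dual (l : M →* ℂˣ) : l ^ s = 1 := MonoidHom.ext fun m => by
  rw [MonoidHom.pow_apply, ← map_pow, show m ^ s = 1 from Subtype.ext (by simpa using B.exp m m.2),
    map_one, MonoidHom.one_apply]

/-- Elements fixing all linear characters centralise `M`. -/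
theorem commute_of_fix [M.Normal] {g : G} (h : ∀ l, dualAct M g l = l) {m : G} (hm : m ∈ M) :
    Commute g m := by
  letI : CommGroup M :=
    { (inferInstance : Group M) with mul_comm := fun a b => Subtype.ext (B.comm a a.2 b b.2) }
  set d : M := ⟨g⁻¹ * m * g, by simpa using Subgroup.Normal.conj_mem inferInstance m hm g⁻¹⟩
  by_contra hne
  have hd : d * ⟨m, hm⟩⁻¹ ≠ 1 := fun h1 => hne (by
    have h2 : g⁻¹ * m * g = m := congrArg Subtype.val (mul_inv_eq_one.1 h1)
    show g * m = m * g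
    conv_lhs => rw [← h2]
    group)
  obtain ⟨f, hf⟩ := CommGroup.exists_apply_ne_one_of_hasEnoughRootsOfUnity M ℂ hd
  apply hf
  rw [map_mul, map_inv]
  show (f : M →* ℂˣ) d * _ = 1
  rw [← dualAct_apply M g f ⟨m, hm⟩, h, mul_inv_cancel]

end Base

end Cfsg.Agent.CharGraph.Palfy
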