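import Cfsg.Agent.CharGraph.Palfy.OneAux

/-!
# The minimal normal subgroup is a `p`-group
-/

set_option linter.unusedSectionVars false
set_option linter.style.haveILetI false

namespace Cfsg.Agent.CharGraph.Palfy

open Cfsg Subgroup
open Cfsg.Agent.Char (irr_charDegree_spec)
open scoped ComplexConjugate commutatorElement

universe u

variable {G : Type u} [Group G] [Finite G]

/-- The normal Sylow `p`-subgroup `P` with `P' = M` central in `P`, and a complement `K`. -/
structure One (M P K : Subgroup G) (p q r : ℕ) : Prop where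
  base : Base M p p q r
  normalP : P.Normal
  pgroup : IsPGroup p P
  cop : P.index.Coprime (Nat.card P)
  le : M ≤ P
  commut : ⁅P, P⁆ = M
  central : ∀ x ∈ P, ∀ m ∈ M, Commute x m
  fr : ∀ g : G, ∃ x ∈ P, ∃ k ∈ K, g = x * k
  inter : ∀ x, x ∈ P → x ∈ K → x = 1

theorem Base.exists_one [Group.IsSolvable G] {M : Subgroup G} {p q r : ℕ} (B : Base M p p q r)
    [M.Normal] (hM : ∀ β : IrrCharacter (G ⧸ M), ¬ p ∣ charDegree (β : G ⧸ M → ℂ)) :
    ∃ P K : Subgroup G, One M P K p q r := by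
  classical
  haveI := Fact.mk B.hp
  obtain ⟨P⟩ : Nonempty (Sylow p G) := inferInstance
  set π := QuotientGroup.mk' M
  have hπs : Function.Surjective π := QuotientGroup.mk'_surjective M
  obtain ⟨hP', hPc⟩ := sylow_normal_of_not_dvd hM (P.mapSurjective hπs)
  have hMP : M ≤ (P : Subgroup G) := B.isPGroup.le_sylow_of_normal P
  haveI hPn : (P : Subgroup G).Normal := by
    have h1 := hP'.comap π
    rw [show ((P.mapSurjective hπs : Sylow p (G ⧸ M)) : Subgroup (G ⧸ M)) = (P : Subgroup G).map π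
      from rfl, Subgroup.comap_map_eq, QuotientGroup.ker_mk', sup_eq_left.2 hMP] at h1
    exact h1
  have hle : ⁅(P : Subgroup G), (P : Subgroup G)⁆ ≤ M := Subgroup.commutator_le.2 fun x hx y hy => by
    have hc : Commute (π x) (π y) := hPc (π x) ⟨x, hx, rfl⟩ (π y) ⟨y, hy, rfl⟩
    rw [← QuotientGroup.eq_one_iff]
    show π ⁅x, y⁆ = 1
    rw [map_commutatorElement]
    exact commutatorElement_eq_one_iff_commute.2 hc
  have hcomm : ⁅(P : Subgroup G), (P : Subgroup G)⁆ = M := by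
    refine le_antisymm hle (B.unique _ inferInstance fun h => ?_)
    obtain ⟨χ, hχ⟩ := B.degp
    refine P.not_dvd_index (hχ.trans (degree_dvd_index _ (fun x hx y hy => ?_) χ))
    exact (Subgroup.mem_centralizer_iff.1 ((Subgroup.commutator_eq_bot_iff_le_centralizer.1 h) hx)
      y hy).symm
  have hcen : ∀ x ∈ (P : Subgroup G), ∀ m ∈ M, Commute x m := by
    set C := M ⊓ Subgroup.centralizer ((P : Subgroup G) : Set G) with hC
    obtain ⟨x, hx, hx1, hxc⟩ := exists_fixed_of_pgroup M B.isPGroup B.ne P P.2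
    have hMC : M ≤ C := B.unique C inferInstance fun h => hx1 (Subgroup.mem_bot.1
      (h ▸ ⟨hx, Subgroup.mem_centralizer_iff.2 hxc⟩))
    exact fun x hx m hm => Subgroup.mem_centralizer_iff.1 (hMC hm).2 x hx
  have hcop : (P : Subgroup G).index.Coprime (Nat.card (P : Subgroup G)) := P.card_coprime_index.symm
  obtain ⟨K, hK⟩ := Subgroup.exists_right_complement'_of_coprime P.card_coprime_index
  refine ⟨P, K, B, hPn, P.2, hcop, hMP, hcomm, hcen, fun g => ?_, fun x hx hxK => ?_⟩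
  · obtain ⟨x, hx, k, hk, h⟩ := Subgroup.mem_sup_of_normal_left.1
      (hK.sup_eq_top ▸ Subgroup.mem_top g : g ∈ (P : Subgroup G) ⊔ K)
    exact ⟨x, hx, k, hk, h.symm⟩
  · exact Subgroup.disjoint_def.1 hK.disjoint hx hxK

/-- Conditions on a fixer that is an inertia group. -/
theorem hall_fix (P : Subgroup G) [P.Normal] [Fintype P] (hcop : P.index.Coprime (Nat.card P))
    {θ : P → ℂ} (hθ : IsIrrCharacter P θ) {V : Type*} [CommGroup V] [Finite V]
    (σ : G ⧸ P →* MulAut V) (v : V)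
    (he : ∀ g : G, σ (QuotientGroup.mk g) v = v ↔ g ∈ CharExt.inertia P θ) {ℓ : ℕ}
    (h : ∀ χ : IrrCharacter G, classInner (fun n : P => (χ : G → ℂ) n) θ ≠ 0 →
      ¬ ℓ ∣ charDegree (χ : G → ℂ)) :
    ¬ ℓ ∣ (fixer σ v).index ∧
      ∀ β : IrrCharacter (fixer σ v), ¬ ℓ ∣ charDegree (β : fixer σ v → ℂ) := by
  have hF : fixer σ v = (CharExt.inertia P θ).map (QuotientGroup.mk' P) := by
    ext x
    constructor
    · intro hx
      obtain ⟨g, rfl⟩ := QuotientGroup.mk'_surjective P x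
      exact ⟨g, (he g).1 hx, rfl⟩
    · rintro ⟨g, hg, rfl⟩
      exact (he g).2 hg
  rw [hF]
  exact hall_data P hcop hθ h

/-- The action of `G / P` on the dual of `M`. -/
def quotAct (P M : Subgroup G) [P.Normal] [M.Normal] (h : P ≤ (dualAct M).ker) :
    G ⧸ P →* MulAut (M →* ℂˣ) :=
  QuotientGroup.lift P (dualAct M) h

theorem quotAct_mk (P M : Subgroup G) [P.Normal] [M.Normal] (h : P ≤ (dualAct M).ker) (g : G)
    (l : M →* ℂˣ) : quotAct P M h (QuotientGroup.mk g) l = dualAct M g l := rfl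

namespace One

variable {M P K : Subgroup G} {p q r : ℕ} (O : One M P K p q r)
include O

theorem symm : One M P K p r q := { O with base := O.base.symm }

theorem not_dvd_card_P {ℓ : ℕ} (hℓ : ℓ.Prime) (h : p ≠ ℓ) : ¬ ℓ ∣ Nat.card P := fun hd => by
  haveI := Fact.mk O.base.hp
  obtain ⟨n, hn⟩ := IsPGroup.iff_card.1 O.pgroup
  rw [hn] at hd
  exact h ((Nat.prime_dvd_prime_iff_eq hℓ O.base.hp).1 (hℓ.dvd_of_dvd_pow hd)).symm

theorem center_le : M.subgroupOf P ≤ Subgroup.center P := fun m hm =>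
  Subgroup.mem_center_iff.2 fun x =>
    Subtype.ext (O.central x x.2 m (Subgroup.mem_subgroupOf.1 hm)).eq

theorem map_commutator : (commutator P).map P.subtype = M := by
  rw [Subgroup.map_subtype_commutator, O.commut]

theorem hom_eq_one (μ : P →* ℂˣ) (m : M) : μ ⟨m, O.le m.2⟩ = 1 := by
  obtain ⟨x, hx, hxm⟩ := O.map_commutator.ge m.2
  rw [show (⟨(m : G), O.le m.2⟩ : P) = x from Subtype.ext hxm.symm]
  exact Abelianization.commutator_subset_ker μ hx

theorem mem_of_forall_hom {x : P} (h : ∀ μ : P →* ℂˣ, μ x = 1) : (x : G) ∈ M := by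
  have h1 : Abelianization.of x = 1 := by
    by_contra hne
    obtain ⟨f, hf⟩ := CommGroup.exists_apply_ne_one_of_hasEnoughRootsOfUnity (Abelianization P) ℂ hne
    exact hf (h ((f : Abelianization P →* ℂˣ).comp Abelianization.of))
  rw [← MonoidHom.mem_ker, Abelianization.ker_of] at h1
  exact O.map_commutator.le ⟨x, h1, rfl⟩

/-- An element of the complement centralising `M` and `P` modulo `M` is trivial. -/
theorem eq_one_of_fix [P.Normal] [M.Normal] {A : G} (hA : A ∈ K)
    (hV : ∀ m ∈ M, Commute A m) (hU : ∀ μ : P →* ℂˣ, dualAct P A μ = μ) : A = 1 := by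
  classical
  have hord : (orderOf A).Coprime (Nat.card P) := by
    refine Nat.Coprime.coprime_dvd_left ?_ O.cop
    have h1 : A ^ P.index ∈ P ⊓ K := ⟨P.pow_index_mem A, pow_mem hA _⟩
    exact orderOf_dvd_of_pow_eq_one (O.inter _ h1.1 h1.2)
  have hcomm : ∀ x ∈ P, Commute A x := by
    intro x hx
    set c : G := A⁻¹ * x * A * x⁻¹ with hc
    have hx' : A⁻¹ * x * A ∈ P := by
      simpa using Subgroup.Normal.conj_mem (H := P) inferInstance x hx A⁻¹
    have hcM : c ∈ M := by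
      refine O.mem_of_forall_hom (x := ⟨A⁻¹ * x * A, hx'⟩ * ⟨x, hx⟩⁻¹) fun μ => ?_
      rw [map_mul, map_inv, mul_inv_eq_one]
      exact (dualAct_apply P A μ ⟨x, hx⟩).symm.trans (by rw [hU μ])
    have key : ∀ n : ℕ, (A ^ n)⁻¹ * x * A ^ n = c ^ n * x := by
      intro n
      induction n with
      | zero => simp
      | succ n ih =>
        calc (A ^ (n + 1))⁻¹ * x * A ^ (n + 1) = A⁻¹ * ((A ^ n)⁻¹ * x * A ^ n) * A := by
              rw [pow_succ]; group
          _ = A⁻¹ * c ^ n * A * (A⁻¹ * x * A) := by rw [ih]; group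
          _ = c ^ n * (c * x) := by
              rw [mul_assoc A⁻¹, ← ((hV c hcM).pow_right n).eq, inv_mul_cancel_left]
              congr 1
              rw [hc]; group
          _ = c ^ (n + 1) * x := by rw [← mul_assoc, ← pow_succ]
    have h1 := key (orderOf A)
    rw [pow_orderOf_eq_one, inv_one, one_mul, mul_one, eq_comm, mul_eq_right] at h1
    have h2 : c ^ Nat.card P = 1 :=
      congrArg Subtype.val (pow_card_eq_one' (x := (⟨c, O.le hcM⟩ : P)))
    have h3 := eq_one_of_pow_prime hord h1 h2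
    rw [hc, mul_inv_eq_one] at h3
    show A * x = x * A
    conv_lhs => rw [← h3]
    group
  set C := K ⊓ Subgroup.centralizer (P : Set G) with hC
  have hAC : A ∈ C := ⟨hA, Subgroup.mem_centralizer_iff.2 fun x hx => (hcomm x hx).symm.eq⟩
  have hCn : C.Normal := by
    refine ⟨fun c hc g => ?_⟩
    obtain ⟨x, hx, k, hk, rfl⟩ := O.fr g
    have h3 : k * c * k⁻¹ ∈ C := ⟨K.mul_mem (K.mul_mem hk hc.1) (K.inv_mem hk),
      (inferInstance : (Subgroup.centralizer (P : Set G)).Normal).conj_mem c hc.2 k⟩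
    rw [show x * k * c * (x * k)⁻¹ = x * (k * c * k⁻¹) * x⁻¹ by group,
      Subgroup.mem_centralizer_iff.1 h3.2 x hx, mul_inv_cancel_right]
    exact h3
  by_contra hA1
  have hMC : M ≤ C := O.base.unique C hCn fun h => hA1 (Subgroup.mem_bot.1 (h ▸ hAC))
  exact O.base.ne ((Subgroup.eq_bot_iff_forall _).2 fun m hm => O.inter m (O.le hm) (hMC hm).1)

/-- The scalar on `M`. -/
theorem exists_scalar {θ : P → ℂ} (hθ : IsIrrCharacter P θ) :
    ∃ l : M →* ℂˣ, ∀ (m : M) (g : P), θ (⟨m, O.le m.2⟩ * g) = (l m : ℂ) * θ g := by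
  obtain ⟨c, hc⟩ := CharExt.exists_central_hom hθ (M.subgroupOf P) O.center_le
  exact ⟨c.comp (Subgroup.subgroupOfEquivOfLe O.le).symm.toMonoidHom,
    fun m g => hc ((Subgroup.subgroupOfEquivOfLe O.le).symm m) g⟩

theorem inertia_le [P.Normal] [M.Normal] {θ : P → ℂ} (hθ : IsIrrCharacter P θ) {l : M →* ℂˣ}
    (hl : ∀ (m : M) (g : P), θ (⟨m, O.le m.2⟩ * g) = (l m : ℂ) * θ g) :
    CharExt.inertia P θ ≤ fixer (dualAct M) l := by
  intro g hg
  rw [mem_fixer_dual]
  intro m
  refine mul_right_cancel₀ (Char.irr_one_ne_zero hθ) ?_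
  rw [← hl, ← hl, mul_one, mul_one]
  exact congrFun (CharExt.mem_inertia.1 hg) ⟨m, O.le m.2⟩

/-- A character over a character nontrivial on `M` is nontrivial on `M`. -/
theorem not_q_over [Fintype P] {θ : P → ℂ} (hθ : IsIrrCharacter P θ) {l : M →* ℂˣ}
    (hl : ∀ (m : M) (g : P), θ (⟨m, O.le m.2⟩ * g) = (l m : ℂ) * θ g) (hl1 : l ≠ 1)
    (χ : IrrCharacter G) (h : classInner (fun n : P => (χ : G → ℂ) n) θ ≠ 0) :
    ¬ q ∣ charDegree (χ : G → ℂ) := by
  letI := Fintype.ofFinite M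
  have h2 : classInner (fun m : M => θ ⟨m, O.le m.2⟩) (fun m => (l m : ℂ)) ≠ 0 := by
    rw [show (fun m : M => θ ⟨m, O.le m.2⟩) = θ 1 • fun m => (l m : ℂ) from funext fun m => by
      rw [Pi.smul_apply, smul_eq_mul, mul_comm, ← hl, mul_one], Char.classInner_smul_left,
      Char.classInner_irr_self (Char.isIrrCharacter_monoidHom l), mul_one]
    exact Char.irr_one_ne_zero hθ
  refine O.base.not_q χ (exists_ne_of_over M hl1 χ ?_)
  exact CharExt.inner_ne_zero_trans (Subgroup.inclusion O.le)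
    (Char.isCharacter_restrict (Char.isCharacter_of_irr χ.2) P) ⟨θ, hθ⟩
    ⟨_, Char.isIrrCharacter_monoidHom l⟩ h h2

/-- A character over `l` invariant in the stabiliser of `l`. -/
theorem exists_invariant [P.Normal] [M.Normal] (l : M →* ℂˣ) :
    ∃ θ : IrrCharacter P, (∀ (m : M) (g : P), (θ : P → ℂ) (⟨m, O.le m.2⟩ * g) =
      (l m : ℂ) * (θ : P → ℂ) g) ∧ fixer (dualAct M) l ≤ CharExt.inertia P (θ : P → ℂ) := by
  classical
  letI := Fintype.ofFinite P
  set N := M.subgroupOf P with hN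
  letI := Fintype.ofFinite N
  haveI : N.Normal := Subgroup.normal_subgroupOf
  set S := fixer (dualAct M) l ⊓ K with hS
  let φ : S →* MulAut P := (MulAut.conjNormal : G →* MulAut P).comp S.subtype
  let e : N ≃* M := Subgroup.subgroupOfEquivOfLe O.le
  have hφN : ∀ s, ∀ x ∈ N, φ s x ∈ N := fun s x hx =>
    Subgroup.mem_subgroupOf.2 (Subgroup.Normal.conj_mem inferInstance _
      (Subgroup.mem_subgroupOf.1 hx) (s : G))
  let θ₀ : IrrCharacter N := ⟨fun n => (l.comp e.toMonoidHom n : ℂ),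
    Char.isIrrCharacter_monoidHom _⟩
  have hSK : (Nat.card S).Coprime (Nat.card P) := by
    refine Nat.Coprime.coprime_dvd_left ?_ O.cop
    refine (Subgroup.card_dvd_of_le inf_le_right).trans ?_
    have hK : Subgroup.IsComplement' P K := by
      refine Subgroup.isComplement'_of_disjoint_and_mul_eq_univ
        (Subgroup.disjoint_def.2 fun {x} hx hxK => O.inter x hx hxK) ?_
      ext g
      simp only [Set.mem_univ, iff_true]
      obtain ⟨x, hx, k, hk, rfl⟩ := O.fr g
      exact Set.mul_mem_mul hx hk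
    rw [← hK.symm.index_eq_card]
  obtain ⟨θ, hθ, hinv⟩ := CharExt.exists_inv_over_abelian (⊥ : Subgroup S) φ N hφN
    (fun s hs => ⟨1, N.one_mem, fun g => by
      rw [Subgroup.mem_bot.1 hs, map_one, MulAut.one_apply, one_mul, inv_one, mul_one]⟩)
    (fun x hx => Subgroup.mem_subgroupOf.2 (O.map_commutator.le ⟨x, hx, rfl⟩))
    (by rw [Subgroup.index_bot]; exact hSK.coprime_dvd_right N.index_dvd_card) θ₀
    (fun s n => mem_fixer_dual.1 s.2.1 (e n))
  obtain ⟨c, hc⟩ := CharExt.exists_central_hom θ.2 N O.center_le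
  have hcl := CharExt.central_hom_eq_of_constituent N hc hθ
  have hl : ∀ (m : M) (g : P), (θ : P → ℂ) (⟨m, O.le m.2⟩ * g) = (l m : ℂ) * (θ : P → ℂ) g := by
    intro m g
    have h1 := hc (e.symm m) g
    rw [hcl, MonoidHom.comp_apply] at h1
    exact h1.trans (by rw [show e.toMonoidHom (e.symm m) = m from e.apply_symm_apply m])
  have hPI : P ≤ CharExt.inertia P (θ : P → ℂ) :=
    CharExt.le_inertia P (Char.irr_isClassFunction θ.2)
  refine ⟨θ, hl, fun g hg => ?_⟩
  obtain ⟨x, hx, k, hk, rfl⟩ := O.fr g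
  have hxl : x ∈ fixer (dualAct M) l := O.inertia_le θ.2 hl (hPI hx)
  have hkl : k ∈ fixer (dualAct M) l := by
    have := mul_mem (inv_mem hxl) hg
    rwa [inv_mul_cancel_left] at this
  exact mul_mem (hPI hx) (CharExt.mem_inertia.2 (funext fun n => hinv ⟨k, hkl, hk⟩ n))

theorem le_ker [P.Normal] [M.Normal] : P ≤ (dualAct M).ker := fun x hx =>
  MulEquiv.ext fun l => MonoidHom.ext fun m => by
    rw [dualAct_apply, MulAut.one_apply]
    exact congrArg l (Subtype.ext (by
      show x⁻¹ * m * x = m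
      rw [mul_assoc, ← (O.central x hx m m.2).eq, inv_mul_cancel_left]))

theorem fix_data [P.Normal] [M.Normal] [Finite (M →* ℂˣ)] (l : M →* ℂˣ) (hl : l ≠ 1) {ℓ : ℕ}
    (hℓ : ℓ = q ∨ ℓ = r) :
    ¬ ℓ ∣ (fixer (quotAct P M O.le_ker) l).index ∧
      ∀ β : IrrCharacter (fixer (quotAct P M O.le_ker) l),
        ¬ ℓ ∣ charDegree (β : fixer (quotAct P M O.le_ker) l → ℂ) := by
  letI := Fintype.ofFinite P
  obtain ⟨θ, hθl, hle⟩ := O.exists_invariant l
  have h0 := @hall_fix G _ _ P _ _ O.cop (θ : P → ℂ) θ.2 (M →* ℂˣ) _ _ (quotAct P M O.le_ker)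
  have h1 : ∀ g : G, quotAct P M O.le_ker (QuotientGroup.mk g) l = l ↔
      g ∈ CharExt.inertia P (θ : P → ℂ) := fun g => by
    rw [quotAct_mk]
    exact ⟨fun h => hle h, fun h => O.inertia_le θ.2 hθl h⟩
  have h2 : ∀ χ : IrrCharacter G,
      classInner (fun n : P => (χ : G → ℂ) n) (θ : P → ℂ) ≠ 0 →
        ¬ ℓ ∣ charDegree (χ : G → ℂ) := by
    intro χ hχ
    rcases hℓ with rfl | rfl
    · exact O.not_q_over θ.2 hθl hl χ hχ
    · exact O.symm.not_q_over θ.2 hθl hl χ hχ
  exact @h0 l h1 ℓ h2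

theorem max_index [Group.IsSolvable G] [P.Normal] (N : Subgroup (G ⧸ P)) (hN : N.Normal)
    (hNp : N.index.Prime) :
    (N.index = q ∧ ¬ q ∣ Nat.card N) ∨ (N.index = r ∧ ¬ r ∣ Nat.card N) := by
  classical
  have hB := O.base
  set π := QuotientGroup.mk' P
  have hπs : Function.Surjective π := QuotientGroup.mk'_surjective P
  set N' := N.comap π with hN'
  haveI : N'.Normal := hN.comap π
  have hidx : N'.index = N.index := Subgroup.index_comap_of_surjective N hπs
  obtain ⟨ℓ, hℓ, hd⟩ := hB.drop N' inferInstance fun h => hNp.ne_one (by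
    rw [← hidx, h, Subgroup.index_top])
  have hℓp : ℓ.Prime := by rcases hℓ with rfl | rfl | rfl; exacts [hB.hp, hB.hq, hB.hr]
  haveI := Fact.mk hℓp
  obtain ⟨L, hLn, hLN, hLℓ, hLc, hLi⟩ := exists_drop hd
  have hPN : P ≤ N' := QuotientGroup.le_comap_mk' P N
  rcases hℓ with rfl | hℓ
  · exfalso
    have h1 : P ≤ L := by
      haveI := hLn
      intro x hx
      have hpow : ∀ g ∈ N', ∃ n, 0 < n ∧ n ∣ L.relIndex N' ∧ g ^ n ∈ L := by
        intro g hg
        refine ⟨orderOf (QuotientGroup.mk (⟨g, hg⟩ : N') : N' ⧸ L.subgroupOf N'), orderOf_pos _,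
          orderOf_dvd_natCard _, ?_⟩
        have h := pow_orderOf_eq_one (QuotientGroup.mk (⟨g, hg⟩ : N') : N' ⧸ L.subgroupOf N')
        rwa [← QuotientGroup.mk_pow, QuotientGroup.eq_one_iff, Subgroup.mem_subgroupOf] at h
      obtain ⟨n, -, hn, hnL⟩ := hpow x (hPN hx)
      obtain ⟨k, hk⟩ := O.pgroup ⟨x, hx⟩
      have hk' : x ^ ℓ ^ k = 1 := by simpa using congrArg Subtype.val hk
      obtain ⟨m, hm⟩ := exists_pow_eq_self_of_coprime (x := x) (n := n)
        (((hℓp.coprime_iff_not_dvd.2 fun h => hLi (h.trans hn)).pow_left k).symm.coprime_dvd_right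
          (orderOf_dvd_of_pow_eq_one hk'))
      exact hm ▸ pow_mem hnL m
    refine hB.ne (le_bot_iff.1 ?_)
    rw [← O.commut, le_bot_iff, Subgroup.commutator_eq_bot_iff_le_centralizer]
    exact fun x hx => Subgroup.mem_centralizer_iff.2 fun y hy => hLc y (h1 hy) x (h1 hx)
  have hpℓ : p ≠ ℓ := by rcases hℓ with rfl | rfl; exacts [hB.npq, hB.npr]
  have hL : L = ⊥ := by
    by_contra hne
    haveI := Fact.mk hB.hp
    refine hB.ne ((Subgroup.eq_bot_iff_forall _).2 fun x hx => ?_)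
    obtain ⟨k, hk⟩ := hLℓ ⟨x, hB.unique L hLn hne hx⟩
    exact eq_one_of_pow_prime (((Nat.coprime_primes hℓp hB.hp).2 hpℓ.symm).pow_left k)
      (by simpa using congrArg Subtype.val hk) (hB.exp x hx)
  rw [hL, Subgroup.relIndex_bot_left, Cores.card_comap_mk_eq] at hLi
  have hnd : ¬ ℓ ∣ Nat.card N := fun h => hLi (dvd_mul_of_dvd_right h _)
  have hdH : ℓ ∣ Nat.card (G ⧸ P) := by
    rcases hℓ with rfl | rfl
    exacts [hB.prime_dvd_index (O.not_dvd_card_P hℓp hpℓ),
      hB.symm.prime_dvd_index (O.not_dvd_card_P hℓp hpℓ)]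
  have h3 : N.index = ℓ := ((Nat.prime_dvd_prime_iff_eq hℓp hNp).1
    ((hℓp.dvd_mul.1 (N.card_mul_index.symm ▸ hdH)).resolve_left hnd)).symm
  rcases hℓ with rfl | rfl
  exacts [Or.inl ⟨h3, hnd⟩, Or.inr ⟨h3, hnd⟩]

end One

end Cfsg.Agent.CharGraph.Palfy
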