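import Cfsg.Agent.CharGraph.Palfy.CaseOne

/-!
# An element centralising `M` leads to two incompatible counts
-/

set_option linter.unusedSectionVars false
set_option linter.style.haveILetI false

namespace Cfsg.Agent.CharGraph.Palfy

open Cfsg Subgroup
open Cfsg.Agent.Char (irr_charDegree_spec)
open scoped ComplexConjugate

universe u

/-- The count for one module. -/
theorem exists_count {H : Type u} [Group H] [Finite H] {X : Type*} [CommGroup X] [Finite X]
    [Nontrivial X] {σ : H →* MulAut X} {Y : Subgroup H} {b : H} {p n : ℕ} (hp : p.Prime)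
    (hn : n = Nat.card {z : H // ∃ y ∈ Y, y * b * y⁻¹ = z}) (hn1 : n ≠ 1) (hX : IsPGroup p X)
    (E : Part σ Y b) :
    ∃ i j : ℕ, 0 < i ∧ i < j ∧ Nat.card X = p ^ j ∧ n * (p ^ i - 1) + 1 = p ^ j := by
  haveI := Fact.mk hp
  let F : Subgroup X :=
    { carrier := {v | σ b v = v}
      one_mem' := map_one _
      mul_mem' := fun {v w} hv hw => by
        show σ b (v * w) = v * w
        rw [map_mul, hv, hw]
      inv_mem' := fun {v} hv => by
        show σ b v⁻¹ = v⁻¹
        rw [map_inv, hv] }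
  have e := E.card_eq
  have hF : Nat.card {v : X // v ≠ 1 ∧ σ b v = v} + 1 = Nat.card F := card_ne_one F
  have hX' : Nat.card {v : X // v ≠ 1} + 1 = Nat.card X := by
    rw [← Subgroup.card_top (G := X), ← card_ne_one (⊤ : Subgroup X)]
    congr 1
    exact Nat.card_congr (Equiv.subtypeEquivRight fun v => by simp)
  obtain ⟨j, hj⟩ := IsPGroup.iff_card.1 hX
  obtain ⟨i, hi⟩ := IsPGroup.iff_card.1 (hX.to_subgroup F)
  have h1 : n * (p ^ i - 1) + 1 = p ^ j := by
    rw [← hj, ← hX', e, ← hn, ← hi, ← hF, Nat.add_sub_cancel]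
  have hXj : 2 ≤ p ^ j := hj ▸ Finite.one_lt_card
  refine ⟨i, j, Nat.pos_of_ne_zero fun h => ?_, ?_, hj, h1⟩
  · rw [h, pow_zero, Nat.sub_self, mul_zero, zero_add] at h1
    omega
  · refine lt_of_not_ge fun hij => hn1 ?_
    have h2 : p ^ j ≤ p ^ i := Nat.pow_le_pow_right hp.pos hij
    have h4 : p ^ i ≤ p ^ j := hi ▸ hj ▸ Subgroup.card_le_card_group F
    have h3 : p ^ i = p ^ j := le_antisymm h4 h2
    rw [h3] at h1
    obtain ⟨c, hc⟩ : ∃ c, p ^ j = c + 1 := ⟨p ^ j - 1, by omega⟩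
    rw [hc, Nat.add_sub_cancel] at h1
    exact Nat.eq_of_mul_eq_mul_right (by omega : 0 < c) (by omega : n * c = 1 * c)

/-- The counting argument. -/
theorem counting {H : Type u} [Group H] [Finite H] [Group.IsSolvable H] {U V : Type*} [CommGroup U]
    [Finite U] [CommGroup V] [Finite V] [Nontrivial V] (σU : H →* MulAut U) (σV : H →* MulAut V)
    {Y : Subgroup H} {a b : H} {p q r : ℕ} (D : Hall Y a b q r) (hp : p.Prime) (hpq : p ≠ q)
    (hUp : IsPGroup p U) (hVp : IsPGroup p V) (ha : ∀ v, σV a v = v) (hac : ∀ h, Commute h a)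
    (Pb : Part σV Y b)
    (hU : ∀ μ : U, q ∣ (fixer σU μ).index → ¬ r ∣ (fixer σU μ).index ∧
      ∀ β : IrrCharacter (fixer σU μ), ¬ r ∣ charDegree (β : fixer σU μ → ℂ))
    (hfaith : ∀ g : H, (∀ v, σV g v = v) → (∀ μ, σU g μ = μ) → g = 1)
    (hsmall : ∀ W : Subgroup U, (∀ μ, σU a μ * μ⁻¹ ∈ W) → W ≠ ⊥ →
      (∀ w ∈ W, σU a w = w → w = 1) → Nat.card V < Nat.card W) : False := by
  classical
  haveI := Fact.mk hp
  haveI := Fact.mk D.hr
  haveI := D.normal
  let δ : U →* U := MonoidHom.mk' (fun μ => σU a μ * μ⁻¹) fun μ ν => by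
    rw [map_mul, mul_inv, mul_mul_mul_comm]
  set W := δ.range with hWdef
  have hWinv : ∀ h, ∀ w ∈ W, σU h w ∈ W := by
    rintro h _ ⟨μ, rfl⟩
    refine ⟨σU h μ, ?_⟩
    show σU a (σU h μ) * (σU h μ)⁻¹ = σU h (σU a μ * μ⁻¹)
    rw [map_mul, map_inv, ← act_mul, ← act_mul, (hac h).eq]
  have hfpf : ∀ w ∈ W, σU a w = w → w = 1 := by
    rintro _ ⟨μ, rfl⟩ hw
    set w := δ μ with hwd
    have hμ : σU a μ = w * μ := by
      show _ = σU a μ * μ⁻¹ * μ
      rw [inv_mul_cancel_right]
    have key : ∀ n : ℕ, σU (a ^ n) μ = w ^ n * μ := by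
      intro n
      induction n with
      | zero => simp
      | succ n ih => rw [pow_succ', act_mul, ih, map_mul, map_pow, hw, hμ, pow_succ, mul_assoc]
    have h1 := key q
    rw [← D.oa, pow_orderOf_eq_one, act_one, eq_comm, mul_eq_right, D.oa] at h1
    obtain ⟨k, hk⟩ := hUp w
    exact eq_one_of_pow_prime (((Nat.coprime_primes hp D.hq).2 hpq).pow_left k) hk h1
  have hWne : W ≠ ⊥ := by
    intro h
    refine D.hq.ne_one ?_
    rw [← D.oa, hfaith a ha fun μ => ?_, orderOf_one]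
    have h1 : δ μ ∈ W := ⟨μ, rfl⟩
    rw [h, Subgroup.mem_bot] at h1
    exact mul_inv_eq_one.1 h1
  have hnot : ∀ μ ∈ W, μ ≠ 1 → q ∣ (fixer σU μ).index := fun μ hμ hμ1 => by
    by_contra h
    exact hμ1 (hfpf μ hμ (D.mem_of_not_dvd hac _ h))
  let σW : H →* MulAut W :=
    { toFun := fun h =>
        { toFun := fun w => ⟨σU h w, hWinv h w w.2⟩
          invFun := fun w => ⟨σU h⁻¹ w, hWinv h⁻¹ w w.2⟩
          left_inv := fun w => Subtype.ext (by
            show σU h⁻¹ (σU h w) = w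
            rw [← act_mul, inv_mul_cancel, act_one])
          right_inv := fun w => Subtype.ext (by
            show σU h (σU h⁻¹ w) = w
            rw [← act_mul, mul_inv_cancel, act_one])
          map_mul' := fun w w' => Subtype.ext (map_mul (σU h) (w : U) w') }
      map_one' := MulEquiv.ext fun w => Subtype.ext (act_one σU (w : U))
      map_mul' := fun g h => MulEquiv.ext fun w => Subtype.ext (act_mul σU g h (w : U)) }
  have hfixeq : ∀ w : W, fixer σW w = fixer σU (w : U) := fun w => by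
    ext h
    exact ⟨fun hh => congrArg Subtype.val hh, fun hh => Subtype.ext hh⟩
  have PbW : Part σW Y b := D.symm.part σW fun w hw => by
    rw [hfixeq]
    obtain ⟨h1, h2⟩ := hU w (hnot w w.2 fun h => hw (Subtype.ext h))
    exact ⟨h1, fun P => (sylow_normal_of_not_dvd h2 P).1⟩
  -- `b` does not commute with `Y`
  by_cases hbY : ∀ y ∈ Y, Commute y b
  · have hbc : ∀ h, Commute h b := by
      intro h
      obtain ⟨y, hy, i, j, rfl⟩ := D.cover h
      exact ((hbY y hy).mul_left (D.comm.pow_left i)).mul_left ((Commute.refl b).pow_left j)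
    have hb1 : ∀ μ, σU a μ ≠ μ → σU b μ = μ := by
      intro μ hμ
      have h1 : q ∣ (fixer σU μ).index := by
        by_contra h
        exact hμ (D.mem_of_not_dvd hac _ h)
      exact D.symm.mem_of_not_dvd hbc _ (hU μ h1).1
    have hbU : ∀ μ, σU b μ = μ := by
      intro μ
      by_cases hμ : σU a μ = μ
      · obtain ⟨w, hw⟩ := Subgroup.ne_bot_iff_exists_ne_one.1 hWne
        have hw1 : σU a w ≠ w := fun h => hw (Subtype.ext (hfpf w w.2 h))
        have h2 := hb1 (μ * w) (by rw [map_mul, hμ]; exact fun h => hw1 (mul_left_cancel h))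
        rw [map_mul, hb1 w hw1] at h2
        exact mul_right_cancel h2
      · exact hb1 μ hμ
    have hbV : ∀ v, σV b v = v := by
      intro v
      by_cases hv : v = 1
      · rw [hv, map_one]
      obtain ⟨y, -, hfix⟩ := Pb.orbit v hv
      have h1 : σV (b * y) v = σV y v := by rw [act_mul, hfix]
      rw [(hbc y).symm.eq, act_mul] at h1
      exact (σV y).injective h1
    exact D.hr.ne_one (by rw [← D.ob, hfaith b hbV hbU, orderOf_one])
  -- the two counts
  set n := Nat.card {z : H // ∃ y ∈ Y, y * b * y⁻¹ = z} with hn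
  have hn1 : n ≠ 1 := fun h => hbY fun y hy => by
    haveI := (Nat.card_eq_one_iff_unique.1 h).1
    have h1 : (⟨y * b * y⁻¹, y, hy, rfl⟩ : {z : H // ∃ y ∈ Y, y * b * y⁻¹ = z}) =
        ⟨b, 1, one_mem _, by simp⟩ := Subsingleton.elim _ _
    exact mul_inv_eq_iff_eq_mul.1 (congrArg Subtype.val h1)
  haveI : Nontrivial W := (Subgroup.nontrivial_iff_ne_bot W).2 hWne
  obtain ⟨u, m, hu, hum, hVm, h1⟩ := exists_count hp hn hn1 hVp Pb
  obtain ⟨w, d, -, hwd, hWd, h2⟩ := exists_count hp hn hn1 (hUp.to_subgroup W) PbW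
  have hmd : m < d := (Nat.pow_lt_pow_iff_right hp.one_lt).1
    (hVm ▸ hWd ▸ hsmall W (fun μ => ⟨μ, rfl⟩) hWne hfpf)
  exact no_counts hp.two_le hu hum hwd hmd h1 h2

variable {G : Type u} [Group G] [Finite G]

namespace One

variable {M P K : Subgroup G} {p q r : ℕ} (O : One M P K p q r)
include O

/-- `M` is smaller than a group of linear characters of `P` on which `A` acts freely. -/
theorem small [P.Normal] [M.Normal] {A : G} (hAM : ∀ m ∈ M, Commute A m)
    (hθA : ∀ θ : IrrCharacter P, ∀ l : M →* ℂˣ,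
      (∀ (m : M) (g : P), (θ : P → ℂ) (⟨m, O.le m.2⟩ * g) = (l m : ℂ) * (θ : P → ℂ) g) → l ≠ 1 →
      A ∈ CharExt.inertia P (θ : P → ℂ))
    (W : Subgroup (P →* ℂˣ)) (hW : ∀ μ, dualAct P A μ * μ⁻¹ ∈ W) (hne : W ≠ ⊥)
    (hfpf : ∀ w ∈ W, dualAct P A w = w → w = 1) : Nat.card (M →* ℂˣ) < Nat.card W := by
  classical
  letI := Fintype.ofFinite P
  haveI : Finite (P →* ℂˣ) := Char.monoidHom_complex_finite
  let C₀ : Subgroup P :=
    { carrier := {c | ∀ w ∈ W, w c = 1}
      one_mem' := fun w _ => map_one w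
      mul_mem' := fun {c d} hc hd w hw => by rw [map_mul, hc w hw, hd w hw, one_mul]
      inv_mem' := fun {c} hc w hw => by rw [map_inv, hc w hw, inv_one] }
  let T : P → P := fun c =>
    ⟨A⁻¹ * c * A, by simpa using Subgroup.Normal.conj_mem (H := P) inferInstance (c : G) c.2 A⁻¹⟩
  have hT : ∀ μ : P →* ℂˣ, ∀ c, dualAct P A μ c = μ (T c) := fun μ c => dualAct_apply P A μ c
  -- elements fixed modulo `M`
  have hC₀ : ∀ c ∈ C₀, ((T c * c⁻¹ : P) : G) ∈ M := fun c hc =>
    O.mem_of_forall_hom fun μ => by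
      have h1 := hc _ (hW μ)
      rw [MonoidHom.mul_apply, MonoidHom.inv_apply, hT] at h1
      rwa [map_mul, map_inv]
  obtain ⟨y, hy⟩ : ∃ y, T y * y⁻¹ ∉ C₀ := by
    by_contra h
    push Not at h
    refine hne ((Subgroup.eq_bot_iff_forall _).2 fun w hw => hfpf w hw (MonoidHom.ext fun c => ?_))
    have h1 := h c w hw
    rw [map_mul, map_inv, mul_inv_eq_one] at h1
    rw [hT, h1]
  set x := T y * y⁻¹ with hx
  have hcx : ∀ c ∈ C₀, Commute c x := by
    intro c hc
    have hm : ((T c * c⁻¹ : P) : G) ∈ M := hC₀ c hc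
    set k : P := c * y * c⁻¹ * y⁻¹ with hk
    have hkM : (k : G) ∈ M := O.map_commutator.le ⟨k,
      Subgroup.commutator_mem_commutator (Subgroup.mem_top c) (Subgroup.mem_top y), rfl⟩
    have hcen : ∀ z : P, (z : G) ∈ M → ∀ g : P, Commute g z := fun z hz g =>
      Subtype.ext (O.central g g.2 z hz).eq
    have hTk : T k = k := Subtype.ext (by
      show A⁻¹ * (k : G) * A = k
      rw [mul_assoc, ← (hAM _ hkM).eq, inv_mul_cancel_left])
    have hTm : ∀ g g' : P, T (g * g') = T g * T g' := fun g g' => Subtype.ext (by simp [T, mul_assoc])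
    have h1 : T c * T y = T k * (T y * T c) := by
      rw [← hTm, ← hTm, ← hTm]
      congr 1
      rw [hk]; group
    rw [hTk, show T c = (T c * c⁻¹) * c by rw [inv_mul_cancel_right]] at h1
    set m := T c * c⁻¹ with hmdef
    have h2 : c * T y = k * (T y * c) := by
      refine mul_left_cancel (a := m) ?_
      rw [← mul_assoc, h1, ← mul_assoc (T y), (hcen m hm (T y)).eq, mul_assoc m,
        ← mul_assoc k m, (hcen m hm k).eq, mul_assoc]
    show c * (T y * y⁻¹) = T y * y⁻¹ * c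
    have h3 : c * y⁻¹ = y⁻¹ * k⁻¹ * c := by rw [hk]; group
    calc c * (T y * y⁻¹) = k * (T y * (c * y⁻¹)) := by
          rw [← mul_assoc c (T y), h2]; group
      _ = k * (T y * y⁻¹) * k⁻¹ * c := by rw [h3]; group
      _ = T y * y⁻¹ * c := by rw [← (hcen k hkM (T y * y⁻¹)).eq, mul_inv_cancel_right]
  -- the nonlinear characters vanish at `x`
  have hzero : ∀ θ : IrrCharacter P, (θ : P → ℂ) 1 ≠ 1 → (θ : P → ℂ) x = 0 := by
    intro θ hθ1
    obtain ⟨l, hl⟩ := O.exists_scalar θ.2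
    have hl1 : l ≠ 1 := by
      intro h
      apply hθ1
      have hker : ∀ n ∈ commutator P, (θ : P → ℂ) n = (θ : P → ℂ) 1 := fun n hn => by
        have h1 := hl ⟨n, O.map_commutator.le ⟨n, hn, rfl⟩⟩ 1
        rw [h, MonoidHom.one_apply, Units.val_one, one_mul, mul_one] at h1
        exact h1
      obtain ⟨β, hβi, hβ⟩ := Char.irr_exists_descend θ.2 (commutator P) hker
      rw [hβ]
      obtain ⟨f, hf⟩ := Char.irr_exists_monoidHom_of_comm (G := Abelianization P)
        (fun a b => mul_comm a b) (χ := β) hβi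
      exact (hf 1).trans (by rw [map_one, Units.val_one])
    by_contra hθx
    obtain ⟨w, hw, hwx⟩ : ∃ w ∈ W, w x ≠ 1 := by
      by_contra h
      push Not at h
      exact hy h
    have hstab : ∀ μ : P →* ℂˣ, μ (T x) = μ x := by
      intro μ
      let θ' : IrrCharacter P := ⟨_, Char.isIrrCharacter_mul_monoidHom θ.2 μ⟩
      have hval : ∀ g, (θ' : P → ℂ) g = (μ g : ℂ) * (θ : P → ℂ) g := fun g => by
        first
          | rfl
          | exact mul_comm _ _
      have hl' : ∀ (m : M) (g : P), (θ' : P → ℂ) (⟨m, O.le m.2⟩ * g) =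
          (l m : ℂ) * (θ' : P → ℂ) g := fun m g => by
        rw [hval, hval, map_mul, O.hom_eq_one μ m, one_mul, hl]
        ring
      have e1 := congrFun (CharExt.mem_inertia.1 (hθA θ l hl hl1)) (T x)
      have e2 := congrFun (CharExt.mem_inertia.1 (hθA θ' l hl' hl1)) (T x)
      have hTx : ∀ h, (⟨A * (T x : G) * A⁻¹, h⟩ : P) = x := fun h => Subtype.ext (by
        show A * (A⁻¹ * (x : G) * A) * A⁻¹ = x
        group)
      rw [CharInd.conjChar_apply, hTx] at e1 e2
      rw [hval, hval, ← e1] at e2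
      exact (Units.ext (mul_right_cancel₀ hθx e2)).symm
    -- every element of `W` is generated by these differences
    have hker : ∀ μ : P →* ℂˣ, (dualAct P A μ * μ⁻¹) x = 1 := fun μ => by
      rw [MonoidHom.mul_apply, MonoidHom.inv_apply, hT, hstab, mul_inv_cancel]
    let f : W →* W := MonoidHom.mk' (fun w => ⟨dualAct P A w * (w : P →* ℂˣ)⁻¹, hW w⟩) fun v v' =>
      Subtype.ext (by
        show dualAct P A ((v : P →* ℂˣ) * v') * ((v : P →* ℂˣ) * v')⁻¹ = _
        rw [map_mul]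
        refine MonoidHom.ext fun z => ?_
        simp only [MonoidHom.mul_apply, MonoidHom.inv_apply, Subgroup.coe_mul]
        rw [mul_inv, mul_mul_mul_comm])
    have hfi : Function.Injective f := by
      rw [injective_iff_map_eq_one]
      intro v hv
      exact Subtype.ext (hfpf v v.2 (mul_inv_eq_one.1 (congrArg Subtype.val hv)))
    obtain ⟨v, hv⟩ := Finite.injective_iff_surjective.1 hfi ⟨w, hw⟩
    apply hwx
    rw [show w = dualAct P A v * (v : P →* ℂˣ)⁻¹ from (congrArg Subtype.val hv).symm]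
    exact hker _
  -- the centraliser of `x`
  set C := Subgroup.centralizer ({x} : Set P) with hC
  have hlt : Nat.card C₀ < Nat.card C := by
    have hle : C₀ ≤ C := fun c hc => Subgroup.mem_centralizer_singleton_iff.2 (hcx c hc).eq
    refine lt_of_le_of_ne (Subgroup.card_le_of_le hle) fun h => hy ?_
    have : C₀ = C := Subgroup.eq_of_le_of_card_ge hle h.ge
    rw [this]
    exact Subgroup.mem_centralizer_singleton_iff.2 rfl
  have hCcard : Nat.card C = (commutator P).index := by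
    have h1 := Char.sum_irr_mul_conj x x
    rw [if_pos (IsConj.refl x)] at h1
    have h2 : ∀ θ : IrrCharacter P, (θ : P → ℂ) x * conj ((θ : P → ℂ) x) =
        if (θ : P → ℂ) 1 = 1 then 1 else 0 := by
      intro θ
      split_ifs with hθ
      · obtain ⟨f, hf⟩ := Char.exists_monoidHom_of_degree_one (Char.isCharacter_of_irr θ.2) hθ
        rw [← Char.irr_inv θ.2, hf, hf, ← Units.val_mul, ← map_mul, mul_inv_cancel, map_one,
          Units.val_one]
      · rw [hzero θ hθ, zero_mul]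
    rw [Finset.sum_congr rfl fun θ _ => h2 θ, Finset.sum_boole, ← Fintype.card_subtype,
      ← Nat.card_eq_fintype_card, Char.card_linear_irr] at h1
    exact_mod_cast h1.symm
  have hV : Nat.card (M →* ℂˣ) = Nat.card M := by
    letI : CommGroup M :=
      { (inferInstance : Group M) with
        mul_comm := fun a b => Subtype.ext (O.base.comm a a.2 b b.2) }
    exact CommGroup.card_monoidHom_of_hasEnoughRootsOfUnity M ℂ
  have hcomm : Nat.card (commutator P) = Nat.card M := by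
    rw [← Subgroup.card_map_of_injective P.subtype_injective, O.map_commutator]
  -- the index of `C₀` is at most `|W|`
  have hidx : C₀.index ≤ Nat.card W := by
    let E : P →* (W →* ℂˣ) :=
      MonoidHom.mk' (fun c => MonoidHom.mk' (fun w : W => (w : P →* ℂˣ) c) fun v v' => rfl)
        fun c d => MonoidHom.ext fun v => map_mul (v : P →* ℂˣ) c d
    have hker : E.ker = C₀ := by
      ext c
      exact ⟨fun h w hw => DFunLike.congr_fun h (⟨w, hw⟩ : W),
        fun h => MonoidHom.ext fun v => h v v.2⟩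
    haveI : Finite (W →* ℂˣ) := Char.monoidHom_complex_finite
    rw [← CommGroup.card_monoidHom_of_hasEnoughRootsOfUnity W ℂ, ← hker, Subgroup.index_ker]
    exact Subgroup.card_le_card_group _
  rw [hV]
  by_contra h
  push Not at h
  have h4 : Nat.card M * Nat.card C = Nat.card P := by
    rw [hCcard, ← hcomm, Subgroup.card_mul_index]
  have h5 : Nat.card C₀ * C₀.index = Nat.card P := C₀.card_mul_index
  have h6 : Nat.card C₀ * C₀.index ≤ Nat.card C₀ * Nat.card M :=
    Nat.mul_le_mul_left _ (hidx.trans h)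
  have h7 : Nat.card C₀ * Nat.card M < Nat.card C * Nat.card M :=
    Nat.mul_lt_mul_of_pos_right hlt Nat.card_pos
  rw [mul_comm (Nat.card C)] at h7
  omega

theorem special [Group.IsSolvable G] [P.Normal] [M.Normal] [Finite (M →* ℂˣ)] {Y : Subgroup (G ⧸ P)}
    {a b : G ⧸ P} (D : Hall Y a b q r) (ha : ∀ l, quotAct P M O.le_ker a l = l)
    (Pb : Part (V := M →* ℂˣ) (quotAct P M O.le_ker) Y b)
    (hgen : ∀ N : Subgroup (G ⧸ P), N.Normal → N.index.Prime → ¬ (a ∈ N ∧ b ∈ N)) : False := by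
  classical
  letI := Fintype.ofFinite P
  haveI := O.base.nontrivial_dual
  haveI : Finite (P →* ℂˣ) := Char.monoidHom_complex_finite
  haveI := Fact.mk D.hq
  have hac : ∀ h, Commute h a := by
    have hPa := D.part (V := M →* ℂˣ) (quotAct P M O.le_ker) fun l hl => by
      obtain ⟨h1, h2⟩ := O.fix_data l hl (ℓ := q) (Or.inl rfl)
      exact ⟨h1, fun S => (sylow_normal_of_not_dvd h2 S).1⟩
    exact fun h => D.central_of_fix (V := M →* ℂˣ) hgen ha hPa Pb h
  obtain ⟨A, hA, rfl⟩ : ∃ A ∈ K, QuotientGroup.mk A = a := by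
    obtain ⟨g, rfl⟩ := QuotientGroup.mk_surjective a
    obtain ⟨x, hx, k, hk, rfl⟩ := O.fr g
    exact ⟨k, hk, by rw [QuotientGroup.mk_mul, (QuotientGroup.eq_one_iff x).2 hx, one_mul]⟩
  have hAM : ∀ m ∈ M, Commute A m := fun m hm =>
    O.base.commute_of_fix (fun l => (quotAct_mk P M O.le_ker A l).symm.trans (ha l)) hm
  have hθA : ∀ θ : IrrCharacter P, ∀ l : M →* ℂˣ,
      (∀ (m : M) (g : P), (θ : P → ℂ) (⟨m, O.le m.2⟩ * g) = (l m : ℂ) * (θ : P → ℂ) g) → l ≠ 1 →
      A ∈ CharExt.inertia P (θ : P → ℂ) := by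
    intro θ l hl hl1
    have h1 := (hall_data P O.cop θ.2 (ℓ := q) (O.not_q_over θ.2 hl hl1)).1
    obtain ⟨g, hg, hgA⟩ := D.mem_of_not_dvd hac _ h1
    have h2 : g⁻¹ * A ∈ P := QuotientGroup.eq.1 hgA
    have h3 := mul_mem hg (CharExt.le_inertia P (Char.irr_isClassFunction θ.2) h2)
    rwa [mul_inv_cancel_left] at h3
  have hU : ∀ μ : P →* ℂˣ, q ∣ (fixer (quotAct P P (le_ker_dual P)) μ).index →
      ¬ r ∣ (fixer (quotAct P P (le_ker_dual P)) μ).index ∧
        ∀ β : IrrCharacter (fixer (quotAct P P (le_ker_dual P)) μ),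
          ¬ r ∣ charDegree (β : fixer (quotAct P P (le_ker_dual P)) μ → ℂ) := by
    intro μ hq
    have hθ : IsIrrCharacter P (fun n => (μ n : ℂ)) := Char.isIrrCharacter_monoidHom μ
    have h1 : ∀ g : G, quotAct P P (le_ker_dual P) (QuotientGroup.mk g) μ = μ ↔
        g ∈ CharExt.inertia P (fun n => (μ n : ℂ)) := fun g => by
      rw [quotAct_mk, inertia_eq_fixer]
      exact Iff.rfl
    have hidx : (fixer (quotAct P P (le_ker_dual P)) μ).index =
        (CharExt.inertia P (fun n => (μ n : ℂ))).index := by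
      rw [← Subgroup.index_comap_of_surjective (fixer (quotAct P P (le_ker_dual P)) μ)
        (QuotientGroup.mk'_surjective P)]
      congr 1
      ext g
      exact h1 g
    have h2 : ∀ χ : IrrCharacter G,
        classInner (fun n : P => (χ : G → ℂ) n) (fun n => (μ n : ℂ)) ≠ 0 →
          ¬ r ∣ charDegree (χ : G → ℂ) := fun χ hχ hr =>
      O.base.qr χ (((Nat.coprime_primes O.base.hq O.base.hr).2 O.base.nqr).mul_dvd_of_dvd_of_dvd
        ((hidx ▸ hq).trans (index_dvd_degree P hθ χ hχ)) hr)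
    have h0 := @hall_fix G _ _ P _ _ O.cop _ hθ (P →* ℂˣ) _ _ (quotAct P P (le_ker_dual P))
    exact @h0 μ h1 r h2
  have hfaith : ∀ g : G ⧸ P, (∀ l, quotAct P M O.le_ker g l = l) →
      (∀ μ, quotAct P P (le_ker_dual P) g μ = μ) → g = 1 := by
    intro g hV hU
    obtain ⟨g, rfl⟩ := QuotientGroup.mk_surjective g
    obtain ⟨x, hx, k, hk, rfl⟩ := O.fr g
    have e : (QuotientGroup.mk (x * k) : G ⧸ P) = QuotientGroup.mk k := by
      rw [QuotientGroup.mk_mul, (QuotientGroup.eq_one_iff x).2 hx, one_mul]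
    rw [e] at hV hU ⊢
    rw [O.eq_one_of_fix hk
      (fun m hm => O.base.commute_of_fix (fun l => (quotAct_mk P M O.le_ker k l).symm.trans (hV l))
        hm) fun μ => (quotAct_mk P P (le_ker_dual P) k μ).symm.trans (hU μ)]
    rfl
  have hsmall : ∀ W : Subgroup (P →* ℂˣ),
      (∀ μ, quotAct P P (le_ker_dual P) (QuotientGroup.mk A) μ * μ⁻¹ ∈ W) → W ≠ ⊥ →
      (∀ w ∈ W, quotAct P P (le_ker_dual P) (QuotientGroup.mk A) w = w → w = 1) →
      Nat.card (M →* ℂˣ) < Nat.card W := fun W hW hne hfpf =>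
    O.small hAM hθA W hW hne hfpf
  have hUp : IsPGroup p (P →* ℂˣ) := fun μ => by
    haveI := Fact.mk O.base.hp
    obtain ⟨k, hk⟩ := IsPGroup.iff_card.1 O.pgroup
    refine ⟨k, MonoidHom.ext fun x => ?_⟩
    rw [MonoidHom.pow_apply, ← map_pow, ← hk, pow_card_eq_one', map_one, MonoidHom.one_apply]
  have hVp : IsPGroup p (M →* ℂˣ) := fun l => ⟨1, by rw [pow_one]; exact O.base.pow_dual l⟩
  have h0 := counting (U := P →* ℂˣ) (V := M →* ℂˣ) (quotAct P P (le_ker_dual P))
    (quotAct P M O.le_ker) D O.base.hp O.base.npq hUp hVp ha hac Pb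
  exact h0 hU hfaith hsmall

end One

/-- The case `s = p`. -/
theorem Base.case_one [Group.IsSolvable G] {M : Subgroup G} {p q r : ℕ} (B : Base M p p q r)
    [M.Normal] (hM : ∀ β : IrrCharacter (G ⧸ M), ¬ p ∣ charDegree (β : G ⧸ M → ℂ)) : False := by
  classical
  obtain ⟨P, K, O⟩ := B.exists_one hM
  haveI := O.normalP
  haveI : Finite (M →* ℂˣ) := Char.monoidHom_complex_finite
  haveI := B.nontrivial_dual
  haveI := Fact.mk B.hp
  have hqP : ∀ ℓ, (ℓ = q ∨ ℓ = r) → ℓ ∣ Nat.card (G ⧸ P) := by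
    rintro ℓ (rfl | rfl)
    · exact B.prime_dvd_index (O.not_dvd_card_P B.hq B.npq)
    · exact B.symm.prime_dvd_index (O.not_dvd_card_P B.hr B.npr)
  have hpH : ¬ p ∣ Nat.card (G ⧸ P) := by
    intro h
    have h1 : p ∣ Nat.card P := by
      obtain ⟨n, hn⟩ := IsPGroup.iff_card.1 O.pgroup
      rcases n.eq_zero_or_pos with rfl | hn0
      · exact absurd (le_bot_iff.1 ((Subgroup.card_eq_one.1 (by simpa using hn)) ▸ O.le)) B.ne
      · rw [hn]; exact dvd_pow_self _ hn0.ne'
    exact B.hp.ne_one (Nat.eq_one_of_dvd_coprimes O.cop (P.index_eq_card ▸ h) h1)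
  have hfix : ∀ ℓ : ℕ, (ℓ = q ∨ ℓ = r) → ∀ l : M →* ℂˣ, l ≠ 1 →
      ¬ ℓ ∣ (fixer (quotAct P M O.le_ker) l).index ∧
        ∀ β : IrrCharacter (fixer (quotAct P M O.le_ker) l),
          ¬ ℓ ∣ charDegree (β : fixer (quotAct P M O.le_ker) l → ℂ) :=
    fun ℓ hℓ l hl => O.fix_data l hl hℓ
  have hcore : ¬ p ∣ Nat.card (G ⧸ P) ∨ (Function.Injective (quotAct P M O.le_ker) ∧
      ∀ T : Subgroup (G ⧸ P), T.Normal → IsPGroup p T → T = ⊥) := Or.inl hpH
  have h0 := @setting (G ⧸ P) _ _ _ (M →* ℂˣ) _ _ _ (quotAct P M O.le_ker)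
  obtain ⟨Y, a, b, q', r', D, hqr, ha, Pb, hgen⟩ := @h0 p B.hp B.pow_dual q r B.hq B.hr B.nqr
    (hqP q (Or.inl rfl)) (hqP r (Or.inr rfl)) O.max_index hfix (B.qr_quotient P) hcore
  rcases hqr with ⟨rfl, rfl⟩ | ⟨rfl, rfl⟩
  · exact O.special D ha Pb hgen
  · exact O.symm.special D ha Pb hgen

end Cfsg.Agent.CharGraph.Palfy
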