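import Cfsg.Agent.CharGraph.Palfy.Machine
import Cfsg.Agent.Lib.MinimalNormal

/-!
# The group acting on the minimal normal subgroup

All normal subgroups of prime index have index `q` or `r` and are prime to it, and the stabiliser of
each nontrivial vector has index prime to `q r` and normal abelian Sylow subgroups for `q` and `r`.
Then an element of order `q` or `r` acts trivially.
-/

set_option linter.unusedSectionVars false
set_option linter.style.haveILetI false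

namespace Cfsg.Agent.CharGraph.Palfy

open Cfsg Subgroup

universe u

/-- A group with `q` the only index of a normal subgroup of prime index, a Sylow `q`-subgroup of
order `q` commuting with a Sylow `r`-subgroup, is an `r'`-group. -/
theorem single_kind {q r : ℕ} [hq : Fact q.Prime] [hr : Fact r.Prime] (hqr : q ≠ r) :
    ∀ (Z : Type u) [Group Z] [Finite Z] [Group.IsSolvable Z],
      (∀ N : Subgroup Z, N.Normal → N.index.Prime → N.index = q ∧ ¬ q ∣ Nat.card N) →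
      ∀ (Q : Sylow q Z) (R : Sylow r Z), (∀ x ∈ Q, ∀ y ∈ R, Commute x y) →
        ¬ r ∣ Nat.card Z := by
  intro Z _ _ _
  induction hn : Nat.card Z using Nat.strong_induction_on generalizing Z with
  | _ n ih =>
  intro hmax Q R hQR hrZ
  subst hn
  haveI : Nontrivial Z := Finite.one_lt_card_iff_nontrivial.1
    (hr.out.one_lt.trans_le (Nat.le_of_dvd Nat.card_pos hrZ))
  obtain ⟨W, hW, hWne, -, -, t, ht, -, hWp⟩ := MinNormal.exists_elementary_abelian (G := Z)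
  haveI := hW
  haveI := Fact.mk ht
  set π := QuotientGroup.mk' W with hπ
  have hπs : Function.Surjective π := QuotientGroup.mk'_surjective W
  have hlt : Nat.card (Z ⧸ W) < Nat.card Z := by
    conv_rhs => rw [Subgroup.card_eq_card_quotient_mul_card_subgroup W]
    exact lt_mul_of_one_lt_right Nat.card_pos (W.one_lt_card_iff_ne_bot.2 hWne)
  have hq2 : ¬ r ∣ Nat.card (Z ⧸ W) := by
    refine ih _ hlt _ rfl (fun N hN hNp => ?_) (Q.mapSurjective hπs) (R.mapSurjective hπs) ?_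
    · have h1 := hmax (N.comap π) (hN.comap π)
        (by rwa [Subgroup.index_comap_of_surjective N hπs])
      rw [Subgroup.index_comap_of_surjective N hπs, Cores.card_comap_mk_eq] at h1
      exact ⟨h1.1, fun h => h1.2 (dvd_mul_of_dvd_right h _ |>.trans (by rw [mul_comm]))⟩
    · rintro _ ⟨x, hx, rfl⟩ _ ⟨y, hy, rfl⟩
      exact (hQR x hx y hy).map π
  have hcard := Subgroup.card_eq_card_quotient_mul_card_subgroup W
  -- `W` is the Sylow `r`-subgroup
  have htr : t = r := by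
    by_contra h
    obtain ⟨k, hk⟩ := IsPGroup.iff_card.1 hWp
    refine hq2 ((Nat.Coprime.dvd_of_dvd_mul_right ?_ (hcard ▸ hrZ)))
    rw [hk]
    exact Nat.Coprime.pow_right k ((Nat.coprime_primes hr.out ht).2 (Ne.symm h))
  subst htr
  have hRW : (R : Subgroup Z) ≤ W := by
    intro x hx
    rw [← QuotientGroup.eq_one_iff]
    obtain ⟨k, hk⟩ := R.2 ⟨x, hx⟩
    have h1 : (QuotientGroup.mk x : Z ⧸ W) ^ t ^ k = 1 := by
      rw [← QuotientGroup.mk_pow, show x ^ t ^ k = 1 from congrArg Subtype.val hk]; rfl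
    exact orderOf_eq_one_iff.1 (Nat.eq_one_of_dvd_coprimes
      ((hr.out.coprime_iff_not_dvd.2 hq2).pow_left k) (orderOf_dvd_of_pow_eq_one h1)
      (orderOf_dvd_natCard _))
  have hRW' : (R : Subgroup Z) = W := (R.3 hWp hRW).symm
  haveI hRn : (R : Subgroup Z).Normal := hRW' ▸ hW
  set C := Subgroup.centralizer ((R : Subgroup Z) : Set Z) with hC
  by_cases hCtop : C = ⊤
  · -- a normal complement gives a normal subgroup of index a power of `r`
    obtain ⟨L, hL⟩ := Subgroup.exists_right_complement'_of_coprime R.card_coprime_index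
    haveI hLn : L.Normal := by
      refine ⟨fun l hl g => ?_⟩
      have hg : g ∈ ((R : Subgroup Z) ⊔ L : Subgroup Z) := hL.sup_eq_top ▸ Subgroup.mem_top g
      rw [Subgroup.mem_sup_of_normal_left] at hg
      obtain ⟨x, hx, y, hy, rfl⟩ := hg
      have hyl : y * l * y⁻¹ ∈ L := mul_mem (mul_mem hy hl) (inv_mem hy)
      have h1 : x * y * l * (x * y)⁻¹ = x * (y * l * y⁻¹) * x⁻¹ := by group
      have h2 : y * l * y⁻¹ ∈ C := hCtop ▸ Subgroup.mem_top _
      rwa [h1, (Subgroup.mem_centralizer_iff.1 h2 x hx), mul_inv_cancel_right]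
    have hidx : L.index = Nat.card (R : Subgroup Z) := hL.index_eq_card
    have hne : L ≠ ⊤ := by
      intro h
      rw [h, Subgroup.index_top] at hidx
      exact R.ne_bot_of_dvd_card hrZ (Subgroup.card_eq_one.1 hidx.symm)
    obtain ⟨N, hN, hLN, hNp⟩ := exists_prime_index L hne
    obtain ⟨k, hk⟩ := IsPGroup.iff_card.1 R.2
    have h1 : q ∣ t ^ k := by
      rw [← (hmax N hN hNp).1, ← hk, ← hidx]
      exact Subgroup.index_dvd_of_le hLN
    exact hqr ((Nat.prime_dvd_prime_iff_eq hq.out hr.out).1 (hq.out.dvd_of_dvd_pow h1))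
  · obtain ⟨N, hN, hCN, hNp⟩ := exists_prime_index C hCtop
    obtain ⟨hNq, hqN⟩ := hmax N hN hNp
    have hQ : q ∣ Nat.card Q := Sylow.dvd_card_of_dvd_card Q (hNq ▸ N.index_dvd_card)
    refine hqN (hQ.trans (Subgroup.card_dvd_of_le ?_))
    have hQC : (Q : Subgroup Z) ≤ C :=
      fun x hx => Subgroup.mem_centralizer_iff.2 fun y hy => (hQR x hx y hy).symm.eq
    exact hQC.trans hCN

variable {H : Type u} [Group H] [Finite H]

namespace Hall

variable {Y : Subgroup H} {a b : H} {q r : ℕ} (D : Hall Y a b q r)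
include D

theorem index_eq : Y.index = q * r := by
  classical
  haveI := D.normal
  refine le_antisymm ?_ (Nat.le_of_dvd (Nat.pos_of_ne_zero Subgroup.index_ne_zero_of_finite) ?_)
  · rw [Subgroup.index_eq_card]
    refine le_of_le_of_eq (Nat.card_le_card_of_surjective
      (fun p : Fin q × Fin r => (QuotientGroup.mk (a ^ (p.1 : ℕ) * b ^ (p.2 : ℕ)) : H ⧸ Y))
      fun x => ?_) (by simp)
    obtain ⟨h, rfl⟩ := QuotientGroup.mk_surjective x
    obtain ⟨y, hy, i, j, rfl⟩ := D.cover h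
    refine ⟨(⟨i % q, Nat.mod_lt _ D.hq.pos⟩, ⟨j % r, Nat.mod_lt _ D.hr.pos⟩), ?_⟩
    show (QuotientGroup.mk (a ^ (i % q) * b ^ (j % r)) : H ⧸ Y) = _
    rw [← D.oa, ← D.ob, pow_mod_orderOf, pow_mod_orderOf, mul_assoc y, QuotientGroup.mk_mul _ y,
      (QuotientGroup.eq_one_iff y).2 hy, one_mul]
  · have hd : ∀ {ℓ : ℕ} {g : H}, ℓ.Prime → orderOf g = ℓ → ¬ ℓ ∣ Nat.card Y → ℓ ∣ Y.index :=
      fun hℓ ho hc => (hℓ.dvd_mul.1
        (Subgroup.card_mul_index Y ▸ ho ▸ orderOf_dvd_natCard _)).resolve_left hc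
    exact ((Nat.coprime_primes D.hq D.hr).2 D.ne).mul_dvd_of_dvd_of_dvd
      (hd D.hq D.oa D.cop_q) (hd D.hr D.ob D.cop_r)

theorem not_dvd_zpowers_index : ¬ q ∣ (Subgroup.zpowers a).index := by
  intro h
  have h1 : q * q ∣ Nat.card Y * (q * r) := by
    rw [← D.index_eq, Subgroup.card_mul_index, ← (Subgroup.zpowers a).card_mul_index,
      Nat.card_zpowers, D.oa]
    exact mul_dvd_mul_left _ h
  rw [mul_left_comm] at h1
  rcases D.hq.dvd_mul.1 (Nat.dvd_of_mul_dvd_mul_left D.hq.pos h1) with h2 | h2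
  · exact D.cop_q h2
  · exact D.ne ((Nat.prime_dvd_prime_iff_eq D.hq D.hr).1 h2)

/-- Elements of order `q` in a subgroup through `a` and `b` are conjugate to powers of `a` there. -/
theorem exists_conj {K : Subgroup H} (ha : a ∈ K) (hb : b ∈ K) {x : H} (hx : x ∈ K)
    (hxo : orderOf x = q) : ∃ y ∈ Y, y ∈ K ∧ ∃ k : ℕ, x = y * a ^ k * y⁻¹ := by
  classical
  haveI := Fact.mk D.hq
  set A := (Subgroup.zpowers a).subgroupOf K with hA
  have hle : Subgroup.zpowers a ≤ K := Subgroup.zpowers_le.2 ha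
  have hcardA : Nat.card A = q := by
    rw [hA, Nat.card_congr (Subgroup.subgroupOfEquivOfLe hle).toEquiv, Nat.card_zpowers, D.oa]
  have hidx : ¬ q ∣ A.index := fun h => D.not_dvd_zpowers_index
    (h.trans (Subgroup.relIndex_dvd_index_of_le hle))
  let P : Sylow q K := (IsPGroup.of_card (n := 1) (by rw [hcardA, pow_one])).toSylow hidx
  have hxp : IsPGroup q (Subgroup.zpowers (⟨x, hx⟩ : K)) :=
    IsPGroup.of_card (n := 1) (by rw [Nat.card_zpowers, Subgroup.orderOf_mk, hxo, pow_one])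
  obtain ⟨S, hS⟩ := hxp.exists_le_sylow
  obtain ⟨c, hc⟩ := MulAction.exists_smul_eq K P S
  have h1 : (⟨x, hx⟩ : K) ∈ (c • P : Sylow q K) := hc ▸ hS (Subgroup.mem_zpowers _)
  rw [Sylow.smul_def] at h1
  obtain ⟨z, hz, hzx⟩ := h1
  obtain ⟨k, hk⟩ := (mem_powers_iff_mem_zpowers).2 (show (z : H) ∈ Subgroup.zpowers a from hz)
  have hx' : x = (c : H) * a ^ k * (c : H)⁻¹ := by
    rw [show a ^ k = (z : H) from hk]
    exact (congrArg Subtype.val hzx).symm
  obtain ⟨y, hy, i, j, hc'⟩ := D.cover c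
  refine ⟨y, hy, ?_, k, ?_⟩
  · have h2 : y = c * (a ^ i * b ^ j)⁻¹ := by rw [hc']; group
    rw [h2]
    exact mul_mem c.2 (inv_mem (mul_mem (pow_mem ha i) (pow_mem hb j)))
  · have h3 : Commute (a ^ i * b ^ j) (a ^ k) :=
      ((Commute.refl a).pow_pow i k).mul_left (D.comm.symm.pow_pow j k)
    rw [hx', hc', show y * a ^ i * b ^ j * a ^ k * (y * a ^ i * b ^ j)⁻¹ =
      y * ((a ^ i * b ^ j) * a ^ k * (a ^ i * b ^ j)⁻¹) * y⁻¹ by group, h3.eq,
      mul_inv_cancel_right]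

variable [Group.IsSolvable H] {V : Type*} [CommGroup V] [Finite V] (ρ : H →* MulAut V)

/-- A generator of a conjugate of `⟨a⟩` fixes what the conjugate fixes. -/
theorem fix_of_pow {k : ℕ} {v : V} (hk : orderOf (a ^ k) = q) (h : ρ (a ^ k) v = v) :
    ρ a v = v := by
  have hqk : ¬ q ∣ k := fun hd => by
    rw [orderOf_dvd_iff_pow_eq_one.1 (D.oa ▸ hd), orderOf_one] at hk
    exact D.hq.ne_one hk.symm
  obtain ⟨m, hm⟩ := Nat.exists_mul_mod_eq_one_of_coprime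
    ((D.hq.coprime_iff_not_dvd.2 hqk).symm) D.hq.one_lt
  have h3 : (a ^ k) ^ m = a := by rw [← pow_mul, ← pow_mod_orderOf, D.oa, hm.2, pow_one]
  have h4 : (a ^ k) ^ m ∈ fixer ρ v := pow_mem (show a ^ k ∈ fixer ρ v from h) m
  rwa [h3] at h4

/-- `a` is partitioning when stabilisers have index prime to `q` and normal Sylow `q`-subgroups. -/
theorem part (hfix : ∀ v : V, v ≠ 1 → ¬ q ∣ (fixer ρ v).index ∧
      ∀ P : Sylow q (fixer ρ v), (P : Subgroup (fixer ρ v)).Normal) : Part ρ Y a := by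
  classical
  haveI := Fact.mk D.hq
  haveI := D.normal
  refine ⟨D.oa ▸ D.hq, D.oa ▸ D.cop_q, D.normal, fun v hv hav y hy hyv => ?_, fun v hv => ?_⟩
  · set F := fixer ρ v with hF
    set A := (Subgroup.zpowers a).subgroupOf F with hA
    have hle : Subgroup.zpowers a ≤ F := Subgroup.zpowers_le.2 hav
    have hidx : ¬ q ∣ A.index := fun h => D.not_dvd_zpowers_index
      (h.trans (Subgroup.relIndex_dvd_index_of_le hle))
    let P : Sylow q F := (IsPGroup.of_card (n := 1) (by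
      rw [hA, Nat.card_congr (Subgroup.subgroupOfEquivOfLe hle).toEquiv, Nat.card_zpowers, D.oa,
        pow_one]) : IsPGroup q A).toSylow hidx
    have h1 := ((hfix v hv).2 P).conj_mem (⟨a, hav⟩ : F)
      (show a ∈ Subgroup.zpowers a from Subgroup.mem_zpowers a) ⟨y, hyv⟩
    have h2 : y * a * y⁻¹ ∈ Subgroup.zpowers a := h1
    have h3 : y * a * y⁻¹ * a⁻¹ ∈ Subgroup.zpowers a :=
      mul_mem h2 (inv_mem (Subgroup.mem_zpowers a))
    have h4 : y * a * y⁻¹ * a⁻¹ ∈ Y := by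
      rw [mul_assoc, mul_assoc y a, show a * (y⁻¹ * a⁻¹) = a * y⁻¹ * a⁻¹ by group]
      exact mul_mem hy (Subgroup.Normal.conj_mem inferInstance _ (inv_mem hy) a)
    obtain ⟨n, hn⟩ := h3
    have h5 := D.eq_one h4 (by
      rw [← show a ^ n = y * a * y⁻¹ * a⁻¹ from hn, ← zpow_natCast (a ^ n), ← zpow_mul, mul_comm n,
        zpow_mul, zpow_natCast, orderOf_dvd_iff_pow_eq_one.1 (D.oa ▸ Dvd.intro r rfl), one_zpow])
    exact mul_inv_eq_iff_eq_mul.1 (mul_inv_eq_one.1 h5)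
  · have h1 : q ∣ Nat.card (fixer ρ v) := (D.hq.dvd_mul.1
      ((fixer ρ v).card_mul_index.symm ▸ D.oa ▸ orderOf_dvd_natCard a)).resolve_right (hfix v hv).1
    obtain ⟨x, hx⟩ := exists_prime_orderOf_dvd_card' q h1
    rw [← Subgroup.orderOf_coe] at hx
    obtain ⟨y, hy, -, k, hk⟩ := D.exists_conj (Subgroup.mem_top a) (Subgroup.mem_top b)
      (Subgroup.mem_top (x : H)) hx
    refine ⟨y⁻¹, inv_mem hy, D.fix_of_pow ρ (k := k) ?_ ?_⟩
    · rw [← hx, hk]
      exact (SemiconjBy.orderOf_eq _ (SemiconjBy.conj_mk y (a ^ k))).symm ▸ rfl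
    · have hxv : ρ (x : H) v = v := x.2
      conv_rhs => rw [← hxv, hk]
      rw [← act_mul, ← act_mul]
      congr 2
      group

/-- Both are fixed together. -/
theorem orbit_both (hfix : ∀ v : V, v ≠ 1 →
      (¬ q ∣ (fixer ρ v).index ∧ ∀ P : Sylow q (fixer ρ v), (P : Subgroup (fixer ρ v)).Normal) ∧
      (¬ r ∣ (fixer ρ v).index ∧ ∀ P : Sylow r (fixer ρ v), (P : Subgroup (fixer ρ v)).Normal))
    (v : V) (hv : v ≠ 1) : ∃ y ∈ Y, ρ a (ρ y v) = ρ y v ∧ ρ b (ρ y v) = ρ y v := by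
  classical
  haveI := Fact.mk D.hq
  haveI := Fact.mk D.hr
  obtain ⟨y₁, hy₁, hav⟩ := (D.part ρ fun v hv => (hfix v hv).1).orbit v hv
  set v₁ := ρ y₁ v with hv₁
  have hv₁1 : v₁ ≠ 1 := fun h => hv ((ρ y₁).injective (h.trans (map_one _).symm))
  obtain ⟨⟨-, hQn⟩, hr1, hRn⟩ := hfix v₁ hv₁1
  set F := fixer ρ v₁ with hF
  have h1 : r ∣ Nat.card F := (D.hr.dvd_mul.1
      (F.card_mul_index.symm ▸ D.ob ▸ orderOf_dvd_natCard b)).resolve_right hr1
  obtain ⟨x, hx⟩ := exists_prime_orderOf_dvd_card' r h1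
  have haF : a ∈ F := hav
  have hcomm : Commute (⟨a, haF⟩ : F) x := by
    have hpa : IsPGroup q (Subgroup.zpowers (⟨a, haF⟩ : F)) :=
      IsPGroup.of_card (n := 1) (by rw [Nat.card_zpowers, Subgroup.orderOf_mk, D.oa, pow_one])
    have hpx : IsPGroup r (Subgroup.zpowers x) :=
      IsPGroup.of_card (n := 1) (by rw [Nat.card_zpowers, hx, pow_one])
    obtain ⟨P, hP⟩ := hpa.exists_le_sylow
    obtain ⟨R, hR⟩ := hpx.exists_le_sylow
    exact Subgroup.commute_of_normal_of_disjoint _ _ (hQn P) (hRn R)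
      (IsPGroup.disjoint_of_ne q r D.ne _ _ P.2 R.2) _ _ (hP (Subgroup.mem_zpowers _))
      (hR (Subgroup.mem_zpowers _))
  rw [← Subgroup.orderOf_coe] at hx
  have hcomm' : Commute a (x : H) := hcomm.map F.subtype
  obtain ⟨y₂, hy₂, hy₂a, k, hk⟩ := D.symm.exists_conj
    (K := Subgroup.centralizer ({a} : Set H))
    (Subgroup.mem_centralizer_singleton_iff.2 D.comm.symm.eq)
    (Subgroup.mem_centralizer_singleton_iff.2 rfl)
    (Subgroup.mem_centralizer_singleton_iff.2 hcomm'.symm.eq) hx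
  refine ⟨y₂⁻¹ * y₁, mul_mem (inv_mem hy₂) hy₁, ?_, D.symm.fix_of_pow ρ (k := k) ?_ ?_⟩
  · rw [act_mul, ← hv₁, ← act_mul]
    have h2 : Commute a y₂⁻¹ :=
      (show Commute a y₂ from (Subgroup.mem_centralizer_singleton_iff.1 hy₂a).symm).inv_right
    rw [h2.eq, act_mul, hav]
  · rw [← hx, hk]
    exact (SemiconjBy.orderOf_eq _ (SemiconjBy.conj_mk y₂ (b ^ k))).symm ▸ rfl
  · have hxv : ρ (x : H) v₁ = v₁ := x.2
    rw [act_mul, ← hv₁]
    calc ρ (b ^ k) (ρ y₂⁻¹ v₁) = ρ (b ^ k * y₂⁻¹) v₁ := (act_mul ρ _ _ _).symm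
      _ = ρ (y₂⁻¹ * (x : H)) v₁ := by rw [hk]; group
      _ = ρ y₂⁻¹ v₁ := by rw [act_mul, hxv]

end Hall

/-- The conclusion for the acting group. -/
theorem setting [Group.IsSolvable H] {V : Type*} [CommGroup V] [Finite V] [Nontrivial V]
    (ρ : H →* MulAut V) {s : ℕ} (hs : s.Prime) (hexp : ∀ v : V, v ^ s = 1) {q r : ℕ}
    (hq : q.Prime) (hr : r.Prime) (hqr : q ≠ r)
    (hqH : q ∣ Nat.card H) (hrH : r ∣ Nat.card H)
    (hmax : ∀ N : Subgroup H, N.Normal → N.index.Prime →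
      (N.index = q ∧ ¬ q ∣ Nat.card N) ∨ (N.index = r ∧ ¬ r ∣ Nat.card N))
    (hfix : ∀ ℓ : ℕ, (ℓ = q ∨ ℓ = r) → ∀ v : V, v ≠ 1 → ¬ ℓ ∣ (fixer ρ v).index ∧
      ∀ β : IrrCharacter (fixer ρ v), ¬ ℓ ∣ charDegree (β : fixer ρ v → ℂ))
    (hdeg : ∀ χ : IrrCharacter H, ¬ q * r ∣ charDegree (χ : H → ℂ))
    (hcore : ¬ s ∣ Nat.card H ∨
      (Function.Injective ρ ∧ ∀ T : Subgroup H, T.Normal → IsPGroup s T → T = ⊥)) :
    ∃ (Y : Subgroup H) (a b : H) (q' r' : ℕ), Hall Y a b q' r' ∧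
      ((q' = q ∧ r' = r) ∨ (q' = r ∧ r' = q)) ∧ (∀ v, ρ a v = v) ∧ Part ρ Y b ∧
      ∀ N : Subgroup H, N.Normal → N.index.Prime → ¬ (a ∈ N ∧ b ∈ N) := by
  classical
  haveI := Fact.mk hq
  haveI := Fact.mk hr
  obtain ⟨v₀, hv₀⟩ := exists_ne (1 : V)
  have hsyl : ∀ ℓ : ℕ, (ℓ = q ∨ ℓ = r) → ∀ [Fact ℓ.Prime], ∀ v : V, v ≠ 1 →
      ¬ ℓ ∣ (fixer ρ v).index ∧
        ∀ P : Sylow ℓ (fixer ρ v), (P : Subgroup (fixer ρ v)).Normal := fun ℓ hℓ _ v hv =>
    ⟨(hfix ℓ hℓ v hv).1, fun P => (sylow_normal_of_not_dvd (hfix ℓ hℓ v hv).2 P).1⟩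
  set F := fixer ρ v₀ with hF
  -- commuting Sylow subgroups
  obtain ⟨Q, R, hQR⟩ : ∃ (Q : Sylow q H) (R : Sylow r H), ∀ x ∈ Q, ∀ y ∈ R, Commute x y := by
    obtain ⟨Q₀⟩ : Nonempty (Sylow q F) := inferInstance
    obtain ⟨R₀⟩ : Nonempty (Sylow r F) := inferInstance
    obtain ⟨hqi, hQn⟩ := hsyl q (Or.inl rfl) v₀ hv₀
    obtain ⟨hri, hRn⟩ := hsyl r (Or.inr rfl) v₀ hv₀
    have hext : ∀ {ℓ : ℕ} [Fact ℓ.Prime] (P : Sylow ℓ F), ¬ ℓ ∣ F.index →
        ∃ P' : Sylow ℓ H, (P' : Subgroup H) = (P : Subgroup F).map F.subtype := by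
      intro ℓ hℓ P hi
      have hidx : ¬ ℓ ∣ ((P : Subgroup F).map F.subtype).index := by
        rw [Subgroup.index_map_subtype]
        exact fun h => (hℓ.out.dvd_mul.1 h).elim P.not_dvd_index hi
      exact ⟨(P.2.map F.subtype).toSylow hidx, rfl⟩
    obtain ⟨Q, hQ⟩ := hext Q₀ hqi
    obtain ⟨R, hR⟩ := hext R₀ hri
    refine ⟨Q, R, fun x hx y hy => ?_⟩
    replace hx : x ∈ (Q₀ : Subgroup F).map F.subtype := hQ ▸ hx
    replace hy : y ∈ (R₀ : Subgroup F).map F.subtype := hR ▸ hy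
    obtain ⟨x, hx', rfl⟩ := hx
    obtain ⟨y, hy', rfl⟩ := hy
    exact (Subgroup.commute_of_normal_of_disjoint _ _ (hQn Q₀) (hRn R₀)
      (IsPGroup.disjoint_of_ne q r hqr _ _ Q₀.2 R₀.2) x y hx' hy').map F.subtype
  -- both kinds of maximal normal subgroups occur
  obtain ⟨⟨Nq, hNqn, hNq, hqN⟩, ⟨Nr, hNrn, hNr, hrN⟩⟩ :
      (∃ N : Subgroup H, N.Normal ∧ N.index = q ∧ ¬ q ∣ Nat.card N) ∧
        ∃ N : Subgroup H, N.Normal ∧ N.index = r ∧ ¬ r ∣ Nat.card N := by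
    constructor <;> by_contra hno
    · exact single_kind hqr.symm H (fun N hN hNp => (hmax N hN hNp).resolve_left
        fun h => hno ⟨N, hN, h⟩) R Q (fun x hx y hy => (hQR y hy x hx).symm) hqH
    · exact single_kind hqr H (fun N hN hNp => (hmax N hN hNp).resolve_right
        fun h => hno ⟨N, hN, h⟩) Q R hQR hrH
  have hcardQ : ∀ {ℓ : ℕ} [Fact ℓ.Prime] (P : Sylow ℓ H) (N : Subgroup H), N.index = ℓ →
      ¬ ℓ ∣ Nat.card N → Nat.card P = ℓ := by
    intro ℓ hℓ P N hi hN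
    rw [P.card_eq_multiplicity]
    conv_lhs => arg 2; rw [← Subgroup.card_mul_index N, hi]
    rw [Nat.factorization_mul Nat.card_pos.ne' hℓ.out.ne_zero, Finsupp.add_apply,
      Nat.factorization_eq_zero_of_not_dvd hN, hℓ.out.factorization_self, zero_add, pow_one]
  obtain ⟨⟨a, ha⟩, hao⟩ :=
    exists_prime_orderOf_dvd_card' (G := Q) q (by rw [hcardQ Q Nq hNq hqN])
  obtain ⟨⟨b, hb⟩, hbo⟩ :=
    exists_prime_orderOf_dvd_card' (G := R) r (by rw [hcardQ R Nr hNr hrN])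
  rw [Subgroup.orderOf_mk] at hao hbo
  haveI := hNqn; haveI := hNrn
  have hpow : ∀ {ℓ : ℕ} {g : H} {N : Subgroup H} [N.Normal], ℓ.Prime → orderOf g = ℓ →
      N.index = ℓ → ¬ ℓ ∣ Nat.card N → ∀ h : H, ∃ i : ℕ, h * (g ^ i)⁻¹ ∈ N := by
    intro ℓ g N _ hℓ hg hi hN h
    have hgN : g ∉ N := fun h' => hN (hg ▸ Subgroup.orderOf_dvd_natCard N h')
    have h1 : (QuotientGroup.mk g : H ⧸ N) ≠ 1 := fun h' => hgN ((QuotientGroup.eq_one_iff g).1 h')
    haveI := Fact.mk hℓ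
    have h2 : (QuotientGroup.mk h : H ⧸ N) ∈ Subgroup.zpowers (QuotientGroup.mk g : H ⧸ N) :=
      mem_zpowers_of_prime_card ((Subgroup.index_eq_card N).symm.trans hi) h1
    obtain ⟨i, hi'⟩ := (mem_powers_iff_mem_zpowers).2 h2
    refine ⟨i, (QuotientGroup.eq_one_iff _).1 ?_⟩
    rw [QuotientGroup.mk_mul, QuotientGroup.mk_inv, QuotientGroup.mk_pow]
    show _ * ((fun n : ℕ => (QuotientGroup.mk g : H ⧸ N) ^ n) i)⁻¹ = 1
    rw [hi', mul_inv_cancel]
  have hab : Commute a b := hQR a ha b hb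
  have haNr : a ∈ Nr := by
    rw [← QuotientGroup.eq_one_iff]
    have h1 : (QuotientGroup.mk a : H ⧸ Nr) ^ q = 1 := by
      rw [← QuotientGroup.mk_pow, ← hao, pow_orderOf_eq_one]; rfl
    exact orderOf_eq_one_iff.1 (Nat.eq_one_of_dvd_coprimes ((Nat.coprime_primes hq hr).2 hqr)
      (orderOf_dvd_of_pow_eq_one h1) (hNr ▸ Subgroup.index_eq_card Nr ▸ orderOf_dvd_natCard _))
  have hbNq : b ∈ Nq := by
    rw [← QuotientGroup.eq_one_iff]
    have h1 : (QuotientGroup.mk b : H ⧸ Nq) ^ r = 1 := by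
      rw [← QuotientGroup.mk_pow, ← hbo, pow_orderOf_eq_one]; rfl
    exact orderOf_eq_one_iff.1 (Nat.eq_one_of_dvd_coprimes ((Nat.coprime_primes hr hq).2 hqr.symm)
      (orderOf_dvd_of_pow_eq_one h1) (hNq ▸ Subgroup.index_eq_card Nq ▸ orderOf_dvd_natCard _))
  have D : Hall (Nq ⊓ Nr) a b q r := by
    refine ⟨hq, hr, hqr, hao, hbo, hab, fun h => hqN (h.trans (Subgroup.card_dvd_of_le inf_le_left)),
      fun h => hrN (h.trans (Subgroup.card_dvd_of_le inf_le_right)), inferInstance, fun h => ?_⟩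
    obtain ⟨i, hi⟩ := hpow hq hao hNq hqN h
    obtain ⟨j, hj⟩ := hpow hr hbo hNr hrN h
    refine ⟨h * (b ^ j)⁻¹ * (a ^ i)⁻¹, ⟨?_, ?_⟩, i, j, by group⟩
    · have e : h * (b ^ j)⁻¹ * (a ^ i)⁻¹ = h * (a ^ i)⁻¹ * (b ^ j)⁻¹ := by
        rw [mul_assoc, mul_assoc, (hab.pow_pow i j).inv_inv.symm.eq]
      rw [e]
      exact Nq.mul_mem hi (Nq.inv_mem (Nq.pow_mem hbNq j))
    · exact Nr.mul_mem hj (Nr.inv_mem (Nr.pow_mem haNr i))
  have Pa : Part ρ (Nq ⊓ Nr) a := D.part ρ (hsyl q (Or.inl rfl))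
  have Pb : Part ρ (Nq ⊓ Nr) b := D.symm.part ρ (hsyl r (Or.inr rfl))
  have hgen : ∀ N : Subgroup H, N.Normal → N.index.Prime → ¬ (a ∈ N ∧ b ∈ N) := by
    rintro N hN hNp ⟨haN, hbN⟩
    rcases hmax N hN hNp with ⟨-, h⟩ | ⟨-, h⟩
    · exact h (hao ▸ Subgroup.orderOf_dvd_natCard N haN)
    · exact h (hbo ▸ Subgroup.orderOf_dvd_natCard N hbN)
  by_cases hat : ∀ v, ρ a v = v
  · exact ⟨_, a, b, q, r, D, Or.inl ⟨rfl, rfl⟩, hat, Pb, hgen⟩
  by_cases hbt : ∀ v, ρ b v = v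
  · exact ⟨_, b, a, r, q, D.symm, Or.inr ⟨rfl, rfl⟩, hbt, Pa,
      fun N hN hNp h => hgen N hN hNp ⟨h.2, h.1⟩⟩
  push Not at hat hbt
  exact (machine ρ hs hexp D Pa Pb (D.orbit_both ρ fun v hv =>
    ⟨hsyl q (Or.inl rfl) v hv, hsyl r (Or.inr rfl) v hv⟩) hat hbt hgen hdeg hcore).elim

end Cfsg.Agent.CharGraph.Palfy
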