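import Cfsg.Agent.CharGraph.Palfy.Base
import Cfsg.Agent.CharGraph.Palfy.Setting

/-!
# The minimal normal subgroup is not a `p`-group
-/

set_option linter.unusedSectionVars false
set_option linter.style.haveILetI false

namespace Cfsg.Agent.CharGraph.Palfy

open Cfsg Subgroup
open Cfsg.Agent.Char (irr_charDegree_spec)

universe u

variable {G : Type u} [Group G] [Finite G] [Group.IsSolvable G] {M : Subgroup G} {s p q r : ℕ}

/-- `M` has a complement and is self-centralising. -/
theorem Base.exists_complement (B : Base M s p q r) (hsp : s ≠ p) [M.Normal]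
    (hM : ∀ β : IrrCharacter (G ⧸ M), ¬ p ∣ charDegree (β : G ⧸ M → ℂ)) :
    ∃ K : Subgroup G, (∀ g : G, ∃ m ∈ M, ∃ k ∈ K, g = m * k) ∧ (∀ x, x ∈ M → x ∈ K → x = 1) ∧
      (∀ g : G, (∀ m ∈ M, Commute g m) → g ∈ M) := by
  classical
  haveI := Fact.mk B.hp
  haveI := Fact.mk B.hs
  obtain ⟨P⟩ : Nonempty (Sylow p G) := inferInstance
  set π := QuotientGroup.mk' M
  have hπs : Function.Surjective π := QuotientGroup.mk'_surjective M
  have hP' := (sylow_normal_of_not_dvd hM (P.mapSurjective hπs)).1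
  haveI hK₀n : ((P : Subgroup G) ⊔ M).Normal := by
    have h1 := hP'.comap π
    rw [show ((P.mapSurjective hπs : Sylow p (G ⧸ M)) : Subgroup (G ⧸ M)) = (P : Subgroup G).map π
      from rfl, Subgroup.comap_map_eq, QuotientGroup.ker_mk'] at h1
    exact h1
  set K := Subgroup.normalizer ((P : Subgroup G) : Set G) with hK
  set P₀ : Sylow p ((P : Subgroup G) ⊔ M : Subgroup G) := P.subtype le_sup_left
  have hfr : ∀ g : G, ∃ m ∈ M, ∃ k ∈ K, g = m * k := by
    have htop := Sylow.normalizer_sup_eq_top P₀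
    have hmap : (P₀ : Subgroup ((P : Subgroup G) ⊔ M : Subgroup G)).map
        ((P : Subgroup G) ⊔ M : Subgroup G).subtype = (P : Subgroup G) :=
      Subgroup.map_subgroupOf_eq_of_le le_sup_left
    rw [hmap, ← hK] at htop
    have hle : (P : Subgroup G) ≤ K := Subgroup.le_normalizer
    have h2 : M ⊔ K = ⊤ := by
      rw [← htop]
      refine le_antisymm (sup_le (le_trans le_sup_right le_sup_right) le_sup_left) ?_
      exact sup_le le_sup_right (sup_le (hle.trans le_sup_right) le_sup_left)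
    intro g
    obtain ⟨m, hm, k, hk, h⟩ := Subgroup.mem_sup_of_normal_left.1
      (h2 ▸ Subgroup.mem_top g : g ∈ M ⊔ K)
    exact ⟨m, hm, k, hk, h.symm⟩
  have hPne : ¬ p ∣ Nat.card M := fun h => by
    obtain ⟨n, hn⟩ := IsPGroup.iff_card.1 B.isPGroup
    rw [hn] at h
    exact hsp ((Nat.prime_dvd_prime_iff_eq B.hp B.hs).1 (B.hp.dvd_of_dvd_pow h)).symm
  have hdisjP : ∀ x, x ∈ M → x ∈ P → x = 1 := by
    intro x hxM hxP
    obtain ⟨k, hk⟩ := P.2 ⟨x, hxP⟩
    exact eq_one_of_pow_prime (((Nat.coprime_primes B.hp B.hs).2 (Ne.symm hsp)).pow_left k)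
      (by simpa using congrArg Subtype.val hk) (B.exp x hxM)
  -- `C_M(P)` is normal
  have hinter : ∀ x, x ∈ M → x ∈ K → x = 1 := by
    intro x hxM hxK
    set C := M ⊓ Subgroup.centralizer ((P : Subgroup G) : Set G) with hC
    have hxC : x ∈ C := by
      refine ⟨hxM, Subgroup.mem_centralizer_iff.2 fun y hy => ?_⟩
      have h1 : x * y * x⁻¹ * y⁻¹ ∈ P := mul_mem ((Subgroup.mem_normalizer_iff.1 hxK y).1 hy)
        (inv_mem hy)
      have h2 : x * y * x⁻¹ * y⁻¹ ∈ M := by
        rw [show x * y * x⁻¹ * y⁻¹ = x * (y * x⁻¹ * y⁻¹) by group]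
        exact mul_mem hxM (Subgroup.Normal.conj_mem inferInstance _ (inv_mem hxM) y)
      exact (mul_inv_eq_iff_eq_mul.1 (mul_inv_eq_one.1 (hdisjP _ h2 h1))).symm
    have hCn : C.Normal := by
      refine ⟨fun c hc g => ?_⟩
      obtain ⟨m, hm, k, hk, rfl⟩ := hfr g
      have h3 : k * c * k⁻¹ ∈ C := by
        refine ⟨Subgroup.Normal.conj_mem inferInstance c hc.1 k,
          Subgroup.mem_centralizer_iff.2 fun y hy => ?_⟩
        have h4 := Subgroup.mem_centralizer_iff.1 hc.2 (k⁻¹ * y * k) (by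
          have := (Subgroup.mem_normalizer_iff.1 (inv_mem hk) y).1 hy
          rwa [inv_inv] at this)
        calc y * (k * c * k⁻¹) = k * (k⁻¹ * y * k * c) * k⁻¹ := by group
          _ = k * (c * (k⁻¹ * y * k)) * k⁻¹ := by rw [h4]
          _ = k * c * k⁻¹ * y := by group
      rw [show m * k * c * (m * k)⁻¹ = m * (k * c * k⁻¹) * m⁻¹ by group,
        (B.comm m hm _ h3.1).eq, mul_inv_cancel_right]
      exact h3
    by_contra hx1
    have hMC : M ≤ C := B.unique C hCn fun h => hx1 (Subgroup.mem_bot.1 (h ▸ hxC))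
    have hPn : (P : Subgroup G).Normal := by
      refine Subgroup.normalizer_eq_top_iff.1 (eq_top_iff.2 fun g _ => ?_)
      obtain ⟨m, hm, k, hk, rfl⟩ := hfr g
      refine mul_mem (Subgroup.centralizer_le_normalizer _ (hMC hm).2) hk
    rcases eq_or_ne (P : Subgroup G) ⊥ with h | h
    · obtain ⟨χ, hχ⟩ := B.degp
      exact P.ne_bot_of_dvd_card (hχ.trans (BlkChar.irr_charDegree_dvd_card χ)) h
    · exact hx1 (hdisjP x hxM (B.unique _ hPn h hxM))
  refine ⟨K, hfr, hinter, fun g hg => ?_⟩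
  obtain ⟨m, hm, k, hk, rfl⟩ := hfr g
  set C := Subgroup.centralizer (M : Set G) ⊓ K with hC
  have hkC : k ∈ C := ⟨Subgroup.mem_centralizer_iff.2 fun y hy => by
    have h1 := (Commute.mul_left (B.comm m hm y hy).inv_left (hg y hy)).eq
    rw [inv_mul_cancel_left] at h1
    exact h1.symm, hk⟩
  have hCn : C.Normal := by
    refine ⟨fun c hc g => ?_⟩
    obtain ⟨m', hm', k', hk', rfl⟩ := hfr g
    have h3 : k' * c * k'⁻¹ ∈ C := ⟨(inferInstance : (Subgroup.centralizer (M : Set G)).Normal).conj_mem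
      c hc.1 k', K.mul_mem (K.mul_mem hk' hc.2) (K.inv_mem hk')⟩
    rw [show m' * k' * c * (m' * k')⁻¹ = m' * (k' * c * k'⁻¹) * m'⁻¹ by group,
      Subgroup.mem_centralizer_iff.1 h3.1 m' hm', mul_inv_cancel_right]
    exact h3
  have hk1 : k = 1 := by
    by_contra hk1
    have hMC : M ≤ C := B.unique C hCn fun h => hk1 (Subgroup.mem_bot.1 (h ▸ hkC))
    refine B.ne ((Subgroup.eq_bot_iff_forall _).2 fun x hx => ?_)
    exact hinter x hx (hMC hx).2
  rw [hk1, mul_one]
  exact hm

/-- Stabilisers in a normal subgroup inherit the conditions. -/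
theorem fixer_restrict {H : Type u} [Group H] [Finite H] {V : Type*} [CommGroup V] [Finite V]
    (σ : H →* MulAut V) (D : Subgroup H) [D.Normal] (v : V) {ℓ : ℕ}
    (h1 : ¬ ℓ ∣ (fixer σ v).index)
    (h2 : ∀ β : IrrCharacter (fixer σ v), ¬ ℓ ∣ charDegree (β : fixer σ v → ℂ)) :
    ¬ ℓ ∣ (fixer (σ.comp D.subtype) v).index ∧
      ∀ β : IrrCharacter (fixer (σ.comp D.subtype) v),
        ¬ ℓ ∣ charDegree (β : fixer (σ.comp D.subtype) v → ℂ) := by
  classical
  set F := fixer σ v with hF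
  have he : fixer (σ.comp D.subtype) v = F.subgroupOf D := rfl
  refine ⟨fun h => h1 (h.trans ?_), fun β => ?_⟩
  · rw [he]
    obtain ⟨c, hc⟩ := Subgroup.relIndex_dvd_index_of_normal D F
    have h5 : Nat.card F * F.index = Nat.card D * D.index :=
      F.card_mul_index.trans D.card_mul_index.symm
    have h6 : Nat.card (F.subgroupOf D) * (F.subgroupOf D).index = Nat.card D :=
      Subgroup.card_mul_index _
    have h8 : Nat.card (F.subgroupOf D) = Nat.card (D.subgroupOf F) := Nat.card_congr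
      { toFun := fun x => ⟨⟨((x : D) : H), x.2⟩, (x : D).2⟩
        invFun := fun x => ⟨⟨((x : F) : H), x.2⟩, (x : F).2⟩
        left_inv := fun _ => rfl
        right_inv := fun _ => rfl }
    have h7 : Nat.card F = Nat.card (F.subgroupOf D) * D.relIndex F := by
      rw [h8, Subgroup.relIndex, Subgroup.card_mul_index]
    rw [← h6, h7, hc] at h5
    refine ⟨c, Nat.eq_of_mul_eq_mul_left (Nat.mul_pos (Nat.card_pos (α := F.subgroupOf D))
      (Nat.pos_of_ne_zero (Subgroup.index_ne_zero_of_finite (H := D.subgroupOf F)))) ?_⟩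
    rw [← Subgroup.relIndex, h5]
    ring
  · let J : Subgroup F := D.subgroupOf F
    let e : J ≃* fixer (σ.comp D.subtype) v :=
      { toFun := fun x => ⟨⟨((x : F) : H), x.2⟩, (x : F).2⟩
        invFun := fun x => ⟨⟨((x : D) : H), x.2⟩, (x : D).2⟩
        left_inv := fun _ => rfl
        right_inv := fun _ => rfl
        map_mul' := fun _ _ => rfl }
    letI := Fintype.ofFinite J
    letI := Fintype.ofFinite F
    let β' : IrrCharacter J := ⟨_, Char.isIrrCharacter_comp_mulEquiv β.2 e⟩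
    obtain ⟨χ, hχ⟩ := exists_irr_over J β'
    intro hd
    refine h2 χ ((Dvd.dvd.trans ?_ (CharDeep.degree_ratio_dvd_index J χ.2 β'.2 hχ
      (irr_charDegree_spec χ.2).2 (irr_charDegree_spec β'.2).2).1))
    have h8 : charDegree (β' : J → ℂ) = charDegree (β : fixer (σ.comp D.subtype) v → ℂ) := by
      rw [charDegree, charDegree]
      exact congrArg (fun z : ℂ => ⌊z.re⌋₊)
        (congrArg (β : fixer (σ.comp D.subtype) v → ℂ) (map_one e))
    rwa [h8]

/-- The end of the argument, for the quotient acting faithfully. -/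
theorem false_of_faithful {H : Type u} [Group H] [Finite H] [Group.IsSolvable H] {V : Type*}
    [CommGroup V] [Finite V] [Nontrivial V] (σ : H →* MulAut V) (hfaith : Function.Injective σ)
    {s p q r : ℕ} (hs : s.Prime) (hexp : ∀ v : V, v ^ s = 1) (hp : p.Prime) (hq : q.Prime)
    (hr : r.Prime) (npq : p ≠ q) (npr : p ≠ r) (nqr : q ≠ r)
    (hcore : ∀ T : Subgroup H, T.Normal → IsPGroup s T → T = ⊥)
    (hqH : q ∣ Nat.card H) (hrH : r ∣ Nat.card H)
    (hfix : ∀ ℓ : ℕ, (ℓ = q ∨ ℓ = r) → ∀ v : V, v ≠ 1 → ¬ ℓ ∣ (fixer σ v).index ∧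
      ∀ β : IrrCharacter (fixer σ v), ¬ ℓ ∣ charDegree (β : fixer σ v → ℂ))
    (hmax₀ : ∀ N : Subgroup H, N.Normal → N.index.Prime →
      (N.index = p ∨ N.index = q ∨ N.index = r) ∧ ¬ N.index ∣ Nat.card N)
    (hsylow : ∀ P : Sylow p H, (P : Subgroup H).Normal)
    (hdeg : ∀ χ : IrrCharacter H, ¬ q * r ∣ charDegree (χ : H → ℂ)) : False := by
  classical
  haveI := Fact.mk hp
  -- the part prime to `p`
  obtain ⟨D, hDn, hDp, hDmax⟩ : ∃ D : Subgroup H, D.Normal ∧
      (∀ T : Subgroup H, T ≤ D → (∀ d ∈ D, ∀ t ∈ T, d * t * d⁻¹ ∈ T) → T.Normal) ∧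
      (∀ ℓ, ℓ ≠ p → ℓ.Prime → ℓ ∣ Nat.card H → ℓ ∣ Nat.card D) ∧
      ∀ N : Subgroup D, N.Normal → N.index.Prime →
        (N.index = q ∧ ¬ q ∣ Nat.card N) ∨ (N.index = r ∧ ¬ r ∣ Nat.card N) := by
    by_cases hex : ∃ N : Subgroup H, N.Normal ∧ N.index = p
    · obtain ⟨D, hDn, hDi⟩ := hex
      haveI := hDn
      have hpD : ¬ p ∣ Nat.card D := hDi ▸ (hmax₀ D hDn (hDi ▸ hp)).2
      obtain ⟨P⟩ : Nonempty (Sylow p H) := inferInstance
      haveI hPn := hsylow P
      have hdisj : ∀ x, x ∈ (P : Subgroup H) → x ∈ D → x = 1 := by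
        intro x hxP hxD
        obtain ⟨k, hk⟩ := P.2 ⟨x, hxP⟩
        exact eq_one_of_pow_prime ((hp.coprime_iff_not_dvd.2 hpD).pow_left k)
          (by simpa using congrArg Subtype.val hk)
          (congrArg Subtype.val (pow_card_eq_one' (x := (⟨x, hxD⟩ : D))))
      have hcomm : ∀ x ∈ (P : Subgroup H), ∀ d ∈ D, Commute x d := fun x hx d hd =>
        Subgroup.commute_of_normal_of_disjoint _ _ hPn hDn
          (Subgroup.disjoint_def.2 fun h h' => hdisj _ h h') x d hx hd
      have hPD : ∀ h, ∃ x ∈ (P : Subgroup H), ∃ d ∈ D, h = x * d := by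
        intro h
        have htop : (P : Subgroup H) ⊔ D = ⊤ := by
          rcases (Nat.dvd_prime hp).1 (hDi ▸ Subgroup.index_dvd_of_le
            (le_sup_right : D ≤ (P : Subgroup H) ⊔ D)) with h1 | h1
          · exact Subgroup.index_eq_one.1 h1
          · exfalso
            refine P.not_dvd_index ?_
            conv_lhs => rw [← h1]
            exact Subgroup.index_dvd_of_le le_sup_left
        obtain ⟨x, hx, d, hd, e⟩ := Subgroup.mem_sup_of_normal_left.1
          (htop ▸ Subgroup.mem_top h : h ∈ (P : Subgroup H) ⊔ D)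
        exact ⟨x, hx, d, hd, e.symm⟩
      refine ⟨D, hDn, fun T hTD hT => ⟨fun t ht h => ?_⟩, ⟨fun ℓ hℓp hℓ hd => ?_, fun N hN hNp => ?_⟩⟩
      · obtain ⟨x, hx, d, hd, rfl⟩ := hPD h
        rw [show x * d * t * (x * d)⁻¹ = x * (d * t * d⁻¹) * x⁻¹ by group,
          (hcomm x hx _ (hTD (hT d hd t ht))).eq, mul_inv_cancel_right]
        exact hT d hd t ht
      · refine (hℓ.dvd_mul.1 (D.card_mul_index.symm ▸ hd)).resolve_right fun h => hℓp ?_
        rw [hDi] at h
        exact (Nat.prime_dvd_prime_iff_eq hℓ hp).1 h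
      · set N₀ := N.map D.subtype with hN₀
        have hN₀D : N₀ ≤ D := Subgroup.map_subtype_le N
        haveI hN₀n : N₀.Normal := ⟨by
          rintro _ ⟨t, ht, rfl⟩ h
          obtain ⟨x, hx, d, hd, rfl⟩ := hPD h
          have h5 : d * (t : H) * d⁻¹ ∈ N₀ := ⟨⟨d, hd⟩ * t * ⟨d, hd⟩⁻¹, hN.conj_mem t ht _, rfl⟩
          show x * d * (t : H) * (x * d)⁻¹ ∈ N₀
          rw [show x * d * (t : H) * (x * d)⁻¹ = x * (d * t * d⁻¹) * x⁻¹ by group,
            (hcomm x hx _ (hN₀D h5)).eq, mul_inv_cancel_right]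
          exact h5⟩
        set N₁ := (P : Subgroup H) ⊔ N₀ with hN₁
        have hN₁D : D ⊔ N₁ = ⊤ := eq_top_iff.2 fun h _ => by
          obtain ⟨x, hx, d, hd, rfl⟩ := hPD h
          exact mul_mem (Subgroup.mem_sup_right (Subgroup.mem_sup_left hx))
            (Subgroup.mem_sup_left hd)
        have hinf : N₁ ⊓ D = N₀ := by
          refine le_antisymm (fun h hh => ?_) (le_inf le_sup_right hN₀D)
          obtain ⟨x, hx, n, hn, rfl⟩ := Subgroup.mem_sup_of_normal_left.1 hh.1
          have hxD : x ∈ D := by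
            have := D.mul_mem hh.2 (D.inv_mem (hN₀D hn))
            rwa [mul_inv_cancel_right] at this
          rw [hdisj x hx hxD, one_mul]
          exact hn
        have hidx : N₁.index = N.index := by
          rw [← Subgroup.relIndex_top_right, ← hN₁D, Subgroup.relIndex_sup_right,
            ← Subgroup.inf_relIndex_right, hinf, hN₀, Subgroup.relIndex, Subgroup.subgroupOf,
            Subgroup.comap_map_eq_self_of_injective D.subtype_injective]
        obtain ⟨h6, h7⟩ := hmax₀ N₁ inferInstance (hidx ▸ hNp)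
        rw [hidx] at h6 h7
        have hNd : Nat.card N ∣ Nat.card N₁ := by
          rw [← Subgroup.card_map_of_injective D.subtype_injective]
          exact Subgroup.card_dvd_of_le le_sup_right
        rcases h6 with h6 | h6 | h6
        · exact absurd (h6 ▸ Subgroup.index_dvd_card N) hpD
        · exact Or.inl ⟨h6, fun h => h7 (h6 ▸ h.trans hNd)⟩
        · exact Or.inr ⟨h6, fun h => h7 (h6 ▸ h.trans hNd)⟩
    · refine ⟨⊤, inferInstance, fun T _ hT => ⟨fun t ht h => hT h (Subgroup.mem_top h) t ht⟩,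
        fun ℓ _ _ h => by rwa [Subgroup.card_top], fun N hN hNp => ?_⟩
      have h0 := hmax₀ (N.map (⊤ : Subgroup H).subtype) (Subgroup.Normal.map hN _
        fun x => ⟨⟨x, Subgroup.mem_top x⟩, rfl⟩)
      rw [Subgroup.index_map_subtype, Subgroup.index_top, mul_one,
        Subgroup.card_map_of_injective (⊤ : Subgroup H).subtype_injective] at h0
      obtain ⟨h6, h7⟩ := h0 hNp
      rcases h6 with h6 | h6 | h6
      · exact absurd ⟨N.map (⊤ : Subgroup H).subtype, Subgroup.Normal.map hN _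
          fun x => ⟨⟨x, Subgroup.mem_top x⟩, rfl⟩, by
          rw [Subgroup.index_map_subtype, Subgroup.index_top, mul_one, h6]⟩ hex
      · exact Or.inl ⟨h6, h6 ▸ h7⟩
      · exact Or.inr ⟨h6, h6 ▸ h7⟩
  obtain ⟨hDcard, hDmax⟩ := hDmax
  haveI := hDn
  set τ : D →* MulAut V := σ.comp D.subtype
  have hfixD : ∀ ℓ : ℕ, (ℓ = q ∨ ℓ = r) → ∀ l : V, l ≠ 1 → ¬ ℓ ∣ (fixer τ l).index ∧
      ∀ β : IrrCharacter (fixer τ l), ¬ ℓ ∣ charDegree (β : fixer τ l → ℂ) := by
    intro ℓ hℓ l hl
    obtain ⟨h1, h2⟩ := hfix ℓ hℓ l hl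
    exact fixer_restrict σ D l h1 h2
  obtain ⟨Y, a, b, q', r', hH, -, hatriv, -⟩ := setting (V := V) τ hs hexp hq hr nqr
    (hDcard q npq.symm hq hqH)
    (hDcard r npr.symm hr hrH) hDmax
    hfixD
    (fun χ hd => by
      letI := Fintype.ofFinite D
      letI := Fintype.ofFinite H
      obtain ⟨β, hβ⟩ := exists_irr_over D χ
      exact hdeg β (hd.trans (CharDeep.degree_ratio_dvd_index D β.2 χ.2 hβ
        (irr_charDegree_spec β.2).2 (irr_charDegree_spec χ.2).2).1))
    (Or.inr ⟨hfaith.comp D.subtype_injective, fun T hT hTs => by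
      haveI := hT
      have h1 : (T.map D.subtype).Normal := hDp _ (Subgroup.map_subtype_le T) (by
        rintro d hd _ ⟨t, ht, rfl⟩
        exact ⟨⟨d, hd⟩ * t * ⟨d, hd⟩⁻¹, hT.conj_mem t ht _, rfl⟩)
      exact (Subgroup.map_eq_bot_iff_of_injective T D.subtype_injective).1
        (hcore _ h1 (hTs.map _))⟩)
  have h1 : a = 1 := Subtype.ext (hfaith ((MulEquiv.ext hatriv : τ a = 1).trans (map_one σ).symm))
  exact hH.hq.ne_one (hH.oa ▸ h1 ▸ orderOf_one)

/-- The case `s ≠ p`. -/
theorem Base.case_two (B : Base M s p q r) (hsp : s ≠ p) [M.Normal]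
    (hM : ∀ β : IrrCharacter (G ⧸ M), ¬ p ∣ charDegree (β : G ⧸ M → ℂ)) : False := by
  classical
  haveI := Fact.mk B.hp
  haveI := Fact.mk B.hs
  letI := Fintype.ofFinite G
  letI := Fintype.ofFinite M
  obtain ⟨K, hfr, hinter, hcent⟩ := B.exists_complement hsp hM
  set π := QuotientGroup.mk' M with hπ
  have hπs : Function.Surjective π := QuotientGroup.mk'_surjective M
  let σ : G ⧸ M →* MulAut (M →* ℂˣ) := QuotientGroup.lift M (dualAct M) (le_ker_dual M)
  have hσ : ∀ g, σ (π g) = dualAct M g := fun g => rfl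
  haveI : Finite (M →* ℂˣ) := Char.monoidHom_complex_finite
  haveI := B.nontrivial_dual
  have hfaith : Function.Injective σ := by
    rw [injective_iff_map_eq_one]
    intro x hx
    obtain ⟨g, rfl⟩ := hπs x
    exact (QuotientGroup.eq_one_iff g).2 (hcent g fun m hm => B.commute_of_fix
      (fun l => by rw [← hσ, hx]; rfl) hm)
  have hcore : ∀ T : Subgroup (G ⧸ M), T.Normal → IsPGroup s T → T = ⊥ := by
    intro T hT hTs
    set T' := T.comap π with hT'
    haveI : T'.Normal := hT.comap π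
    have hT's : IsPGroup s T' :=
      hTs.comap_of_ker_isPGroup π (by rw [QuotientGroup.ker_mk']; exact B.isPGroup)
    set C := M ⊓ Subgroup.centralizer (T' : Set G) with hC
    have hCn : C.Normal := inferInstance
    have hCne : C ≠ ⊥ := by
      intro hCb
      letI act : MulAction T' M :=
        MulAction.compHom M ((MulAut.conjNormal : G →* MulAut M).comp T'.subtype)
      have hd : s ∣ Nat.card M := by
        obtain ⟨n, hn⟩ := IsPGroup.iff_card.1 B.isPGroup
        rcases n.eq_zero_or_pos with rfl | hn0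
        · exact absurd (Subgroup.card_eq_one.1 (by simpa using hn)) B.ne
        · rw [hn]; exact dvd_pow_self _ hn0.ne'
      obtain ⟨x, hx, hx1⟩ := hT's.exists_fixed_point_of_prime_dvd_card_of_fixed_point M hd
        (a := (1 : M)) (fun t => map_one (MulAut.conjNormal ((t : T') : G) : MulAut M))
      refine hx1 (Subtype.ext (Subgroup.mem_bot.1 (hCb ▸ ⟨x.2, Subgroup.mem_centralizer_iff.2
        fun t ht => ?_⟩))).symm
      exact mul_inv_eq_iff_eq_mul.1 (congrArg Subtype.val (hx ⟨t, ht⟩))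
    have hMC := B.unique C hCn hCne
    rw [← Subgroup.map_comap_eq_self_of_surjective hπs T, Subgroup.map_eq_bot_iff,
      QuotientGroup.ker_mk']
    exact fun t ht => hcent t fun m hm => Subgroup.mem_centralizer_iff.1 (hMC hm).2 t ht
  -- stabilisers
  have hfix : ∀ ℓ : ℕ, (ℓ = q ∨ ℓ = r) → ∀ l : M →* ℂˣ, l ≠ 1 → ¬ ℓ ∣ (fixer σ l).index ∧
      ∀ β : IrrCharacter (fixer σ l), ¬ ℓ ∣ charDegree (β : fixer σ l → ℂ) := by
    intro ℓ hℓ l hl
    set T := fixer (dualAct M) l with hT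
    have hMT : M ≤ T := fun x hx => by
      show dualAct M x l = l
      rw [show dualAct M x = 1 from le_ker_dual M hx, MulAut.one_apply]
    choose mc hmc kc hkc hdec using hfr
    have huniq : ∀ {m k m' k' : G}, m ∈ M → k ∈ K → m' ∈ M → k' ∈ K →
        m * k = m' * k' → m = m' := by
      intro m k m' k' hm hk hm' hk' h
      have h1 : m'⁻¹ * m = k' * k⁻¹ := by
        rw [inv_mul_eq_iff_eq_mul, ← mul_assoc, ← h, mul_inv_cancel_right]
      exact (inv_mul_eq_one.1 (hinter _ (mul_mem (inv_mem hm') hm)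
        (h1 ▸ mul_mem hk' (inv_mem hk)))).symm
    let ξ : T →* ℂˣ := MonoidHom.mk' (fun t => l ⟨mc t, hmc t⟩) (by
      intro t t'
      have hk : kc (t : G) ∈ T := by
        have h1 : kc (t : G) = (mc (t : G))⁻¹ * t := by rw [eq_inv_mul_iff_mul_eq, ← hdec]
        rw [h1]
        exact mul_mem (inv_mem (hMT (hmc _))) t.2
      let z : M := ⟨kc (t : G) * mc t' * (kc (t : G))⁻¹,
        Subgroup.Normal.conj_mem inferInstance _ (hmc _) _⟩
      have h1 : ((t : G) * t') = (mc t * z) * (kc t * kc t') := by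
        conv_lhs => rw [hdec t, hdec t']
        simp [z, mul_assoc]
      have h2 := huniq (hmc ((t : G) * t')) (hkc _) (mul_mem (hmc _) z.2)
        (mul_mem (hkc _) (hkc _)) ((hdec _).symm.trans h1)
      show l _ = l _ * l _
      rw [show (⟨mc ((t * t' : T) : G), hmc _⟩ : M) = ⟨mc (t : G), hmc _⟩ * z from Subtype.ext h2,
        map_mul]
      congr 1
      exact Units.ext (mem_fixer_dual.1 hk ⟨mc t', hmc _⟩))
    have hext : ∀ m : M, ξ ⟨m, hMT m.2⟩ = l m := fun m => by
      show l _ = l m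
      congr 1
      exact Subtype.ext (huniq (hmc (m : G)) (hkc _) m.2 K.one_mem
        ((hdec (m : G)).symm.trans (mul_one _).symm))
    let πT : T →* fixer σ l := (π.comp T.subtype).codRestrict _ fun t => t.2
    obtain ⟨h1, h2⟩ := not_dvd_over M T hMT (θ := fun m => (l m : ℂ))
      (Char.isIrrCharacter_monoidHom l) (fun g => mem_fixer_dual)
      (ξ := fun t => (ξ t : ℂ)) (Char.isIrrCharacter_monoidHom ξ)
      (fun m => congrArg Units.val (hext m)) (ℓ := ℓ) (fun χ hχ => by
        rcases hℓ with rfl | rfl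
        · exact B.not_q χ (exists_ne_of_over M hl χ hχ)
        · exact B.symm.not_q χ (exists_ne_of_over M hl χ hχ))
      πT (fun x => by
        obtain ⟨g, hg⟩ := hπs x.1
        exact ⟨⟨g, show dualAct M g l = l by rw [← hσ, hg]; exact x.2⟩, Subtype.ext hg⟩)
      (fun m => Subtype.ext ((QuotientGroup.eq_one_iff _).2 m.2))
    refine ⟨fun h => h1 (h.trans (dvd_of_eq ?_)), h2⟩
    rw [show T = (fixer σ l).comap π from rfl, Subgroup.index_comap_of_surjective _ hπs]
  -- normal subgroups of prime index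
  have hp_card : p ∣ Nat.card (G ⧸ M) := by
    obtain ⟨χ, hχ⟩ := B.degp
    refine (B.hp.dvd_mul.1 (M.card_eq_card_quotient_mul_card_subgroup ▸
      hχ.trans (BlkChar.irr_charDegree_dvd_card χ))).resolve_right fun h => ?_
    obtain ⟨n, hn⟩ := IsPGroup.iff_card.1 B.isPGroup
    rw [hn] at h
    exact hsp ((Nat.prime_dvd_prime_iff_eq B.hp B.hs).1 (B.hp.dvd_of_dvd_pow h)).symm
  have hq_card : ∀ ℓ : ℕ, (ℓ = q ∨ ℓ = r) → ℓ ∣ Nat.card (G ⧸ M) := by
    intro ℓ hℓ
    obtain ⟨χ, hχ⟩ : ∃ χ : IrrCharacter G, ℓ ∣ charDegree (χ : G → ℂ) := by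
      rcases hℓ with rfl | rfl
      exacts [B.degq, B.degr]
    have hℓp : ℓ.Prime := by rcases hℓ with rfl | rfl; exacts [B.hq, B.hr]
    have hℓχ : ∀ m ∈ M, (χ : G → ℂ) m = (χ : G → ℂ) 1 := by
      by_contra h
      push Not at h
      rcases hℓ with rfl | rfl
      exacts [B.not_q χ h hχ, B.symm.not_q χ h hχ]
    obtain ⟨β, hβi, hβ⟩ := Char.irr_exists_descend χ.2 M hℓχ
    refine hχ.trans ?_
    have h1 : charDegree (χ : G → ℂ) = charDegree β := by
      rw [charDegree, charDegree, show (χ : G → ℂ) 1 = β 1 from hβ 1]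
    exact h1 ▸ BlkChar.irr_charDegree_dvd_card ⟨β, hβi⟩
  have hmax₀ : ∀ N : Subgroup (G ⧸ M), N.Normal → N.index.Prime →
      (N.index = p ∨ N.index = q ∨ N.index = r) ∧ ¬ N.index ∣ Nat.card N := by
    intro N hN hNp
    set N' := N.comap π with hN'
    haveI : N'.Normal := hN.comap π
    have hne : N' ≠ ⊤ := fun h => hNp.ne_one (by
      rw [← Subgroup.index_comap_of_surjective N hπs, ← hN', h, Subgroup.index_top])
    obtain ⟨ℓ, hℓ, hd⟩ := B.drop N' inferInstance hne
    have hℓp : ℓ.Prime := by rcases hℓ with rfl | rfl | rfl; exacts [B.hp, B.hq, B.hr]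
    haveI := Fact.mk hℓp
    obtain ⟨L, hLn, hLN, hLℓ, hLc, hLi⟩ := exists_drop hd
    have hLM : L ≤ M := by
      rcases eq_or_ne L ⊥ with rfl | hL
      · exact bot_le
      · exact fun x hx => hcent x fun m hm => hLc x hx m (B.unique L hLn hL hm)
    have hMN : M ≤ N' := QuotientGroup.le_comap_mk' M N
    have h1 : M.relIndex N' = Nat.card N := by
      have h2 := Subgroup.relIndex_mul_relIndex (⊥ : Subgroup G) M N' bot_le hMN
      rw [Subgroup.relIndex_bot_left, Subgroup.relIndex_bot_left, Cores.card_comap_mk_eq] at h2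
      exact Nat.eq_of_mul_eq_mul_left Nat.card_pos h2
    have hnd : ¬ ℓ ∣ Nat.card N := fun h => hLi (h.trans (h1 ▸
      Subgroup.relIndex_dvd_of_le_left N' hLM))
    have hdH : ℓ ∣ Nat.card (G ⧸ M) := by
      rcases hℓ with rfl | rfl | rfl
      exacts [hp_card, hq_card _ (Or.inl rfl), hq_card _ (Or.inr rfl)]
    have h3 : N.index = ℓ := ((Nat.prime_dvd_prime_iff_eq hℓp hNp).1
      ((hℓp.dvd_mul.1 (N.card_mul_index.symm ▸ hdH)).resolve_left hnd)).symm
    exact ⟨h3 ▸ hℓ, h3 ▸ hnd⟩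
  exact false_of_faithful (V := M →* ℂˣ) σ hfaith B.hs B.pow_dual B.hp B.hq B.hr B.npq B.npr B.nqr
    hcore (hq_card q (Or.inl rfl)) (hq_card r (Or.inr rfl)) hfix hmax₀
    (fun P => (sylow_normal_of_not_dvd hM P).1) (B.qr_quotient M)

end Cfsg.Agent.CharGraph.Palfy
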