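import Cfsg.Agent.CharGraph.Palfy.Structure
import Cfsg.Agent.OddPre.Stability

/-!
# A minimal noncentral normal subgroup gives a contradiction
-/

set_option linter.unusedSectionVars false
set_option linter.style.haveILetI false

namespace Cfsg.Agent.CharGraph.Palfy

open Subgroup

variable {Γ V : Type*} [Group Γ] [Finite Γ] [CommGroup V] [Finite V]
  {ρ : Γ →* MulAut V} {s : ℕ} {Y : Subgroup Γ} {a b : Γ}

/-- The part of `T` that is central in `Y`. -/
def zc (Y T : Subgroup Γ) : Subgroup Γ := T ⊓ Subgroup.centralizer (Y : Set Γ)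

theorem mem_zc {T : Subgroup Γ} {z : Γ} :
    z ∈ zc Y T ↔ z ∈ T ∧ ∀ y ∈ Y, Commute y z :=
  Subgroup.mem_inf.trans (and_congr_right fun _ => mem_centralizer_iff')

/-- A normal subgroup of `T` is normal. -/
theorem zc_normal {T : Subgroup Γ} (hY : Y.Normal) (hT : T.Normal) : (zc Y T).Normal := by
  haveI := hY; haveI := hT
  refine ⟨fun z hz g => ?_⟩
  rw [mem_zc] at hz ⊢
  refine ⟨Subgroup.Normal.conj_mem inferInstance z hz.1 g, fun y hy => ?_⟩
  have h := (hz.2 (g⁻¹ * y * g) (by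
    simpa using Subgroup.Normal.conj_mem inferInstance y hy g⁻¹)).eq
  show y * (g * z * g⁻¹) = g * z * g⁻¹ * y
  have h2 : g * (g⁻¹ * y * g * z) * g⁻¹ = g * (z * (g⁻¹ * y * g)) * g⁻¹ := by rw [h]
  simpa [mul_assoc] using h2

namespace MinNC

variable {T : Subgroup Γ}

theorem zc_le (M : MinNC Y T) : zc Y T ≤ Y := inf_le_left.trans M.le

theorem commutator_mem [Group.IsSolvable Y] (M : MinNC Y T) {x y : Γ} (hx : x ∈ T) (hy : y ∈ T) :
    x * y * x⁻¹ * y⁻¹ ∈ zc Y T :=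
  Subgroup.mem_inf.2 ⟨T.mul_mem (T.mul_mem (T.mul_mem hx hy) (T.inv_mem hx)) (T.inv_mem hy),
    M.commutator_le (Subgroup.commutator_mem_commutator hx hy)⟩

variable {t : ℕ} [ht : Fact t.Prime]

theorem commutator_pow [Group.IsSolvable Y] (M : MinNC Y T) (hT : IsPGroup t T) {x y : Γ}
    (hx : x ∈ T) (hy : y ∈ T) : (x * y * x⁻¹ * y⁻¹) ^ t = 1 := by
  set c := x * y * x⁻¹ * y⁻¹ with hc
  have hcz := mem_zc.1 (M.commutator_mem hx hy)
  have hcx : Commute x c := hcz.2 x (M.le hx)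
  have key : ∀ n : ℕ, x ^ n * y * (x ^ n)⁻¹ = c ^ n * y := by
    intro n
    induction n with
    | zero => simp
    | succ n ih =>
      calc x ^ (n + 1) * y * (x ^ (n + 1))⁻¹ = x * (x ^ n * y * (x ^ n)⁻¹) * x⁻¹ := by
            rw [pow_succ']; group
        _ = x * c ^ n * x⁻¹ * (x * y * x⁻¹) := by rw [ih]; group
        _ = c ^ n * (c * y) := by
            rw [(hcx.pow_right n).eq, mul_inv_cancel_right]
            congr 1
            rw [hc]; group
        _ = c ^ (n + 1) * y := by rw [← mul_assoc, ← pow_succ]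
  have h := key t
  have h1 := (mem_centralizer_iff'.1 (M.frattini_central hT hx) y (M.le hy)).eq
  rw [← h1, mul_inv_cancel_right] at h
  exact mul_eq_right.1 h.symm

/-- Either `t`-th powers split over the central part, or `t = 2` and the central part has order
two. -/
theorem omega_split [Group.IsSolvable Y] (M : MinNC Y T) (hT : IsPGroup t T)
    (hY : Y.Normal) (hcyc : IsCyclic (zc Y T))
    (hna : ¬ ∀ x ∈ T, ∀ y ∈ T, Commute x y) :
    (∀ d ∈ T, ∃ z ∈ zc Y T, (d * z) ^ t = 1) ∨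
      (t = 2 ∧ ∃ c ∈ zc Y T, c ≠ 1 ∧ c * c = 1 ∧ ∀ z ∈ zc Y T, z = 1 ∨ z = c) := by
  classical
  set Z := zc Y T with hZ
  obtain ⟨⟨g, hg⟩, hgen⟩ := hcyc.exists_generator
  have hgpow : ∀ z ∈ Z, ∃ i : ℕ, g ^ i = z := by
    intro z hz
    obtain ⟨i, hi⟩ := (mem_powers_iff_mem_zpowers).2 (hgen ⟨z, hz⟩)
    exact ⟨i, by simpa using congrArg Subtype.val hi⟩
  by_cases hgood : t = 2 → ∀ c ∈ Z, c ^ 2 = 1 → ∃ z ∈ Z, z ^ 2 = c
  swap
  · right
    push Not at hgood
    obtain ⟨ht2, c, hc, hc2, hno⟩ := hgood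
    subst ht2
    obtain ⟨k, hk⟩ := hgpow c hc
    have hkodd : ¬ 2 ∣ k := fun ⟨m, hm⟩ => hno (g ^ m) (pow_mem hg m) (by
      rw [← pow_mul, mul_comm, ← hm, hk])
    obtain ⟨e, he⟩ := hT ⟨g, (mem_zc.1 hg).1⟩
    have he' : g ^ 2 ^ e = 1 := congrArg Subtype.val he
    have hg2 : g ^ 2 = 1 := by
      have h1 : g ^ (k * 2) = 1 := by rw [pow_mul, hk, hc2]
      have h2 : orderOf g ∣ 2 ^ e := orderOf_dvd_of_pow_eq_one he'
      have h3 : (orderOf g).Coprime k := Nat.Coprime.coprime_dvd_left h2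
        ((Nat.prime_two.coprime_iff_not_dvd.2 hkodd).pow_left e)
      exact orderOf_dvd_iff_pow_eq_one.1 (h3.dvd_of_dvd_mul_left (orderOf_dvd_of_pow_eq_one h1))
    have hgc : g = c := by
      obtain ⟨m, hm⟩ : Odd k := Nat.odd_iff.2 (by omega)
      rw [← hk, hm, pow_succ, pow_mul, hg2, one_pow, one_mul]
    refine ⟨rfl, c, hc, fun h => hno 1 (one_mem _) (by rw [one_pow, h]), by rw [← pow_two, hc2],
      fun z hz => ?_⟩
    obtain ⟨i, rfl⟩ := hgpow z hz
    rcases Nat.even_or_odd' i with ⟨m, rfl | rfl⟩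
    · exact Or.inl (by rw [pow_mul, hg2, one_pow])
    · exact Or.inr (by rw [pow_succ, pow_mul, hg2, one_pow, one_mul, hgc])
  left
  -- the product formula
  have hprod : ∀ d ∈ T, ∀ e ∈ T, ∃ z ∈ Z, (d * e) ^ t = d ^ t * e ^ t * z ^ t := by
    intro d hd e he
    have hc := M.commutator_mem (inv_mem he) (inv_mem hd)
    rw [inv_inv, inv_inv] at hc
    have hcc := mem_zc.1 hc
    have hct : (e⁻¹ * d⁻¹ * e * d) ^ t = 1 := by
      have := M.commutator_pow hT (inv_mem he) (inv_mem hd)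
      rwa [inv_inv, inv_inv] at this
    rw [OddPre.mul_pow_of_commutator_central d e (hcc.2 d (M.le hd)).symm
      (hcc.2 e (M.le he)).symm t]
    by_cases h2 : t = 2
    · obtain ⟨z, hz, hz2⟩ := hgood h2 _ hc (h2 ▸ hct)
      exact ⟨z, hz, by subst h2; rw [hz2, Nat.choose_self, pow_one]⟩
    · obtain ⟨k, hk⟩ := ht.out.dvd_choose_self (k := 2) two_ne_zero
        (lt_of_le_of_ne ht.out.two_le (Ne.symm h2))
      exact ⟨1, one_mem _, by rw [hk, pow_mul, hct, one_pow, one_pow]⟩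
  have hZc : ∀ z ∈ Z, ∀ d ∈ T, Commute d z := fun z hz d hd => (mem_zc.1 hz).2 d (M.le hd)
  let S : Subgroup Γ :=
    { carrier := {d | d ∈ T ∧ ∃ z ∈ Z, (d * z) ^ t = 1}
      one_mem' := ⟨one_mem _, 1, one_mem _, by rw [one_mul, one_pow]⟩
      mul_mem' := by
        rintro d e ⟨hd, z, hz, hdz⟩ ⟨he, w, hw, hew⟩
        obtain ⟨u, hu, hde⟩ := hprod d hd e he
        refine ⟨mul_mem hd he, z * w * u⁻¹, mul_mem (mul_mem hz hw) (inv_mem hu), ?_⟩
        have hdz' : d ^ t = (z ^ t)⁻¹ :=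
          eq_inv_of_mul_eq_one_left ((hZc z hz d hd).mul_pow t ▸ hdz)
        have hew' : e ^ t = (w ^ t)⁻¹ :=
          eq_inv_of_mul_eq_one_left ((hZc w hw e he).mul_pow t ▸ hew)
        have hzw : Commute z w := hZc w hw z (mem_zc.1 hz).1
        have hzu : Commute (z * w) u⁻¹ := hZc _ (inv_mem hu) _ (mul_mem (mem_zc.1 hz).1 (mem_zc.1 hw).1)
        rw [(hZc _ (mul_mem (mul_mem hz hw) (inv_mem hu)) _ (mul_mem hd he)).mul_pow, hde, hdz',
          hew', hzu.mul_pow, hzw.mul_pow, inv_pow]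
        have hc1 : Commute (u ^ t) (z ^ t * w ^ t) :=
          hZc _ (mul_mem (pow_mem hz t) (pow_mem hw t)) _ (mem_zc.1 (pow_mem hu t)).1
        rw [show (z ^ t)⁻¹ * (w ^ t)⁻¹ * u ^ t * (z ^ t * w ^ t * (u ^ t)⁻¹) =
          (z ^ t)⁻¹ * (w ^ t)⁻¹ * (u ^ t * (z ^ t * w ^ t)) * (u ^ t)⁻¹ by group, hc1.eq]
        have hc2 : Commute (z ^ t) (w ^ t) := hzw.pow_pow t t
        rw [hc2.eq]
        group
      inv_mem' := by
        rintro d ⟨hd, z, hz, hdz⟩
        refine ⟨inv_mem hd, z⁻¹, inv_mem hz, ?_⟩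
        rw [← mul_inv_rev, inv_pow, ← (hZc z hz d hd).eq, hdz, inv_one] }
  haveI hTn := M.normal
  haveI hZn : Z.Normal := zc_normal hY M.normal
  have hSn : S.Normal := ⟨by
    rintro d ⟨hd, z, hz, hdz⟩ h
    refine ⟨Subgroup.Normal.conj_mem inferInstance d hd h, h * z * h⁻¹,
      Subgroup.Normal.conj_mem inferInstance z hz h, ?_⟩
    rw [show h * d * h⁻¹ * (h * z * h⁻¹) = h * (d * z) * h⁻¹ by group, conj_pow, hdz, mul_one,
      mul_inv_cancel]⟩
  by_cases hST : S = T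
  · intro d hd
    exact (hST.ge hd : d ∈ S).2
  exfalso
  have hSZ : ∀ d ∈ S, d ∈ Z := fun d hd =>
    ⟨hd.1, M.min S hSn (fun x hx => hx.1) hST hd⟩
  apply hna
  intro d hd e he
  by_cases hdZ : d ∈ Z
  · exact (hZc d hdZ e he).symm
  by_cases heZ : e ∈ Z
  · exact hZc e heZ d hd
  have hpow : ∀ x ∈ T, ∃ i : ℕ, g ^ i = x ^ t := fun x hx =>
    hgpow _ ⟨pow_mem hx t, M.frattini_central hT hx⟩
  obtain ⟨i, hi⟩ := hpow d hd
  obtain ⟨j, hj⟩ := hpow e he
  have hti : ¬ t ∣ i := by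
    rintro ⟨m, rfl⟩
    refine hdZ (hSZ d ⟨hd, (g ^ m)⁻¹, inv_mem (pow_mem hg m), ?_⟩)
    rw [(hZc _ (inv_mem (pow_mem hg m)) d hd).mul_pow, ← hi, inv_pow, ← pow_mul, mul_comm m t,
      mul_inv_cancel]
  obtain ⟨k, hk⟩ := Nat.exists_mul_mod_eq_one_of_coprime
    ((ht.out.coprime_iff_not_dvd.2 hti).symm) ht.out.one_lt
  obtain ⟨n, hn⟩ : ∃ n : ℕ, i * (k * (t - 1) * j) + j = t * n := by
    refine ⟨(i * k / t) * (t - 1) * j + j, ?_⟩
    have h1 := Nat.div_add_mod (i * k) t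
    rw [hk.2] at h1
    obtain ⟨t', ht'⟩ : ∃ t', t = t' + 1 := ⟨t - 1, (Nat.sub_add_cancel ht.out.pos).symm⟩
    rw [show i * (k * (t - 1) * j) = i * k * ((t - 1) * j) by ring]
    generalize i * k / t = q at h1 ⊢
    rw [← h1]
    subst ht'
    rw [Nat.add_sub_cancel]
    ring
  set m := k * (t - 1) * j with hm
  obtain ⟨u, hu, hde⟩ := hprod (d ^ m) (pow_mem hd m) e he
  have hdm : (d ^ m) ^ t * e ^ t = (g ^ n) ^ t := by
    rw [← pow_mul d m t, mul_comm m t, pow_mul d t m, ← hi, ← hj, ← pow_mul g i m, ← pow_add, hn,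
      mul_comm t n, pow_mul]
  rw [hdm] at hde
  have hmem : d ^ m * e ∈ S := by
    refine ⟨mul_mem (pow_mem hd m) he, (g ^ n * u)⁻¹, inv_mem (mul_mem (pow_mem hg n) hu), ?_⟩
    rw [(hZc _ (inv_mem (mul_mem (pow_mem hg n) hu)) _ (mul_mem (pow_mem hd m) he)).mul_pow, hde,
      inv_pow, (hZc u hu (g ^ n) (mem_zc.1 (pow_mem hg n)).1).mul_pow, mul_inv_cancel]
  have h3 := hZc _ (hSZ _ hmem) d hd
  have h4 : Commute d ((d ^ m)⁻¹ * (d ^ m * e)) :=
    ((Commute.refl d).pow_right m).inv_right.mul_right h3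
  rwa [inv_mul_cancel_left] at h4

end MinNC

/-- Coprime stability for a power. -/
theorem Elem.stability_pow {x : Γ} (E : Elem ρ Y x) {u c : Γ} {m : ℕ}
    (hm : m.Coprime (orderOf x)) (hc : c ∈ Y)
    (h : x ^ m * u * (x ^ m)⁻¹ = u * c) (hxc : Commute x c) : Commute x u := by
  have key : ∀ n : ℕ, x ^ (m * n) * u * (x ^ (m * n))⁻¹ = u * c ^ n := by
    intro n
    induction n with
    | zero => simp
    | succ n ih =>
      have h1 : x ^ m * c ^ n * (x ^ m)⁻¹ = c ^ n := by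
        rw [(hxc.pow_pow m n).eq, mul_inv_cancel_right]
      calc x ^ (m * (n + 1)) * u * (x ^ (m * (n + 1)))⁻¹ =
            x ^ m * (x ^ (m * n) * u * (x ^ (m * n))⁻¹) * (x ^ m)⁻¹ := by
            rw [show m * (n + 1) = m + m * n by ring, pow_add]; group
        _ = (x ^ m * u * (x ^ m)⁻¹) * (x ^ m * c ^ n * (x ^ m)⁻¹) := by rw [ih]; group
        _ = u * c ^ (n + 1) := by rw [h, h1, pow_succ', mul_assoc]
  have h1 := key (orderOf x)
  rw [mul_comm m, pow_mul, pow_orderOf_eq_one, one_pow, one_mul, inv_one, mul_one,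
    left_eq_mul] at h1
  have hc1 : c = 1 :=
    E.comm_of_coprime hc (by rw [hxc.mul_pow, pow_orderOf_eq_one, one_mul, h1]) hxc.symm
  rw [hc1, mul_one, mul_inv_eq_iff_eq_mul] at h
  obtain ⟨k, hk⟩ := Nat.exists_mul_mod_eq_one_of_coprime hm E.prime.one_lt
  have h2 : (x ^ m) ^ k = x := by
    rw [← pow_mul, ← pow_mod_orderOf, hk.2, pow_one]
  exact h2 ▸ (show Commute (x ^ m) u from h).pow_left k

/-- A set of commuting elements generates an abelian subgroup. -/
theorem commute_of_mem_closure {S : Set Γ} (hS : ∀ p ∈ S, ∀ q ∈ S, Commute p q) {p q : Γ}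
    (hp : p ∈ Subgroup.closure S) (hq : q ∈ Subgroup.closure S) : Commute p q := by
  have h1 : Subgroup.closure S ≤ Subgroup.centralizer S :=
    (Subgroup.closure_le _).2 fun p hp => Subgroup.mem_centralizer_iff.2 fun q hq => hS q hq p hp
  have h2 : Subgroup.closure S ≤ Subgroup.centralizer (Subgroup.closure S : Set Γ) :=
    (Subgroup.closure_le _).2 fun p hp => Subgroup.mem_centralizer_iff.2 fun q hq =>
      (Subgroup.mem_centralizer_iff.1 (h1 hq) p hp).symm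
  exact Subgroup.mem_centralizer_iff.1 (h2 hq) p hp

namespace Dat

variable {T : Subgroup Γ} {t : ℕ} [ht : Fact t.Prime] [Group.IsSolvable Y]
  (D : Dat ρ s Y a b)
include D

theorem not_abelian (M : MinNC Y T) (hT : IsPGroup t T) : ¬ ∀ x ∈ T, ∀ y ∈ T, Commute x y :=
  fun h => M.noncentral (D.abelian_central M.normal M.le h hT)

theorem zc_cyclic (M : MinNC Y T) (hT : IsPGroup t T) : IsCyclic (zc Y T) :=
  D.cyclic (zc_normal D.normalY M.normal) M.zc_le
    (fun _ hx y hy => ((mem_zc.1 hy).2 _ (M.zc_le hx)))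
    (hT.to_le (fun _ h => (mem_zc.1 h).1))

theorem exists_commutator (M : MinNC Y T) (hT : IsPGroup t T) :
    ∃ i ∈ T, ∃ j ∈ T, i * j * i⁻¹ * j⁻¹ ∈ zc Y T ∧ i * j * i⁻¹ * j⁻¹ ≠ 1 := by
  by_contra h
  push Not at h
  refine D.not_abelian M hT fun i hi j hj => ?_
  have h1 := h i hi j hj (M.commutator_mem hi hj)
  rwa [mul_inv_eq_one, mul_inv_eq_iff_eq_mul] at h1

/-- `T` is not centralised. -/
theorem not_centralized (M : MinNC Y T) (hT : IsPGroup t T) {x : Γ} (E : Elem ρ Y x)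
    (hall : ∀ u ∈ T, Commute x u) : False := by
  classical
  haveI := M.normal
  have hne : T ≠ ⊥ := fun h => M.noncentral (h ▸ bot_le)
  have hts := D.prime_of_subgroup M.normal M.le hT hne
  have hxT : ∀ u ∈ T, ∀ y ∈ Y, Commute (y * x * y⁻¹) u := by
    intro u hu y _
    have h1 := hall _ (Subgroup.Normal.conj_mem inferInstance u hu y⁻¹)
    rw [inv_inv] at h1
    have h2 := (h1.map (MulAut.conj y).toMonoidHom)
    simpa [mul_assoc] using h2
  obtain ⟨i, hi, j, hj, hcz, hc1⟩ := D.exists_commutator M hT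
  set c := i * j * i⁻¹ * j⁻¹ with hc
  have hct : c ^ t = 1 := M.commutator_pow hT hi hj
  have noω : ∀ ω ∈ T, ω ^ t = 1 → ω ∈ zc Y T := by
    intro ω hω hωt
    have hS : ∀ p ∈ ({c, ω} : Set Γ), ∀ q ∈ ({c, ω} : Set Γ), Commute p q := by
      have h1 : Commute ω c := (mem_zc.1 hcz).2 ω (M.le hω)
      rintro p (rfl | rfl) q (rfl | rfl)
      exacts [Commute.refl _, h1.symm, h1, Commute.refl _]
    have hle : Subgroup.closure ({c, ω} : Set Γ) ≤ T := (Subgroup.closure_le _).2 (by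
      rintro p (rfl | rfl)
      exacts [(mem_zc.1 hcz).1, hω])
    obtain ⟨n, hn⟩ := E.omega_of_centralized D.exp hts (hle.trans M.le)
      (fun p hp q hq => commute_of_mem_closure hS hp hq)
      (fun p hp y hy => hxT p (hle hp) y hy)
      (u := c) (w := ω) (Subgroup.subset_closure (by simp)) (Subgroup.subset_closure (by simp))
      hct hωt hc1
    rw [eq_inv_of_mul_eq_one_left hn]
    exact inv_mem (pow_mem hcz n)
  rcases M.omega_split hT D.normalY (D.zc_cyclic M hT) (D.not_abelian M hT) with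
    hgood | ⟨rfl, c', hc', hc'1, hc'2, hZ⟩
  · refine M.noncentral fun d hd => ?_
    obtain ⟨z, hz, hdz⟩ := hgood d hd
    have h1 := noω _ (mul_mem hd (mem_zc.1 hz).1) hdz
    have h2 : d * z * z⁻¹ ∈ zc Y T := mul_mem h1 (inv_mem hz)
    rw [mul_inv_cancel_right] at h2
    exact h2.2
  have hsq : ∀ d ∈ T, d ∉ zc Y T → d * d = c' := by
    intro d hd hdz
    rcases hZ (d ^ 2) ⟨pow_mem hd 2, M.frattini_central hT hd⟩ with h | h
    · exact absurd (noω d hd h) hdz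
    · rwa [pow_two] at h
  have hcc : c = c' := (hZ c hcz).resolve_left hc1
  haveI := Fact.mk D.prime
  refine E.not_quaternion (s := s) ?_ D.exp (M.le hi) (hsq i hi fun h => hc1 ?_)
    (hsq j hj fun h => hc1 ?_) hc'2 hc'1 ?_ (hxT i hi) (hxT j hj)
  · rintro rfl
    exact absurd hts (by norm_num)
  · rw [hc, ((mem_zc.1 h).2 j (M.le hj)).symm.eq, mul_inv_cancel_right, mul_inv_cancel]
  · rw [hc, ((mem_zc.1 h).2 i (M.le hi)).eq, mul_inv_cancel_right, mul_inv_cancel]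
  · rw [← hcc, hc]; group

/-- There is no minimal noncentral normal subgroup. -/
theorem not_minNC (M : MinNC Y T) (hT : IsPGroup t T) : False := by
  classical
  haveI := M.normal
  haveI := D.normalY
  set Z := zc Y T with hZdef
  haveI : Z.Normal := zc_normal D.normalY M.normal
  have hne : T ≠ ⊥ := fun h => M.noncentral (h ▸ bot_le)
  have hts := D.prime_of_subgroup M.normal M.le hT hne
  have hZc : ∀ z ∈ Z, ∀ d ∈ T, Commute d z := fun z hz d hd => (mem_zc.1 hz).2 d (M.le hd)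
  -- a maximal abelian subgroup
  obtain ⟨A, hZA, hA⟩ := Finite.exists_le_maximal
    (p := fun K : Subgroup Γ => K ≤ T ∧ ∀ p ∈ K, ∀ q ∈ K, Commute p q) (a := Z)
    ⟨fun z hz => (mem_zc.1 hz).1, fun p hp q hq => hZc q hq p (mem_zc.1 hp).1⟩
  have hAT := hA.prop.1
  have hAc := hA.prop.2
  have hAmax : ∀ g ∈ T, (∀ p ∈ A, Commute p g) → g ∈ A := by
    intro g hg hgc
    have hS : ∀ p ∈ insert g (A : Set Γ), ∀ q ∈ insert g (A : Set Γ), Commute p q := by
      rintro p (rfl | hp) q (rfl | hq)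
      exacts [Commute.refl _, (hgc q hq).symm, hgc p hp, hAc p hp q hq]
    have h1 : A ≤ Subgroup.closure (insert g (A : Set Γ)) := fun p hp =>
      Subgroup.subset_closure (Set.mem_insert_of_mem _ hp)
    exact hA.le_of_ge ⟨(Subgroup.closure_le _).2 (Set.insert_subset hg hAT),
      fun p hp q hq => commute_of_mem_closure hS hp hq⟩ h1
      (Subgroup.subset_closure (Set.mem_insert _ _))
  -- a vector
  obtain ⟨v₀, hv₀⟩ := D.ea.exists_ne_one
  obtain ⟨v, -, hv, hprop⟩ := exists_max ρ D.exp hts A hAc ⊤ (fun _ _ _ _ => Subgroup.mem_top _)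
    (fun h => hv₀ (by simpa [h] using Subgroup.mem_top v₀))
  obtain ⟨y, hy, hva, hvb⟩ := D.orbit v hv
  set v' := ρ y v with hv'
  have hv'1 : v' ≠ 1 := fun h => hv ((ρ y).injective (h.trans (map_one _).symm))
  set A' := A.map (MulAut.conj y).toMonoidHom with hA'
  have hA'T : A' ≤ T := by
    rintro _ ⟨p, hp, rfl⟩
    exact Subgroup.Normal.conj_mem inferInstance p (hAT hp) y
  have hA'c : ∀ p ∈ A', ∀ q ∈ A', Commute p q := by
    rintro _ ⟨p, hp, rfl⟩ _ ⟨q, hq, rfl⟩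
    exact (hAc p hp q hq).map _
  have hA'max : ∀ g ∈ T, (∀ p ∈ A', Commute p g) → g ∈ A' := by
    intro g hg hgc
    refine ⟨y⁻¹ * g * y, hAmax _ (by
      simpa using Subgroup.Normal.conj_mem (H := T) inferInstance g hg y⁻¹) fun p hp => ?_, by
      show y * (y⁻¹ * g * y) * y⁻¹ = g
      group⟩
    have h1 := (hgc _ ⟨p, hp, rfl⟩).map (MulAut.conj y⁻¹).toMonoidHom
    simpa [mul_assoc] using h1
  have hfixiff : ∀ g, ρ (y * g * y⁻¹) v' = v' ↔ ρ g v = v := fun g => by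
    rw [hv', ← act_mul, inv_mul_cancel_right, act_mul]
    exact (ρ y).injective.eq_iff
  have hprop' : ∀ p ∈ A', ∀ q ∈ A', p ^ t = 1 → q ^ t = 1 → ρ p v' ≠ v' →
      ∃ n : ℕ, ρ (q * p ^ n) v' = v' := by
    rintro _ ⟨p, hp, rfl⟩ _ ⟨q, hq, rfl⟩ hpt hqt hpv
    obtain ⟨n, hn⟩ := hprop p hp q hq
      (by rw [(MulAut.conj y).injective ((map_pow _ p t).trans (hpt.trans (map_one _).symm)),
        act_one])
      (by rw [(MulAut.conj y).injective ((map_pow _ q t).trans (hqt.trans (map_one _).symm)),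
        act_one])
      (fun h => hpv ((hfixiff p).2 h))
    refine ⟨n, ?_⟩
    rw [← map_pow, ← map_mul]
    exact (hfixiff _).2 hn
  have hZA' : Z ≤ A' := fun z hz => hA'max z (mem_zc.1 hz).1 fun p hp => hZc z hz p (hA'T hp)
  -- the subgroup `B`
  set B := Subgroup.closure (((A' ⊓ fixer ρ v' : Subgroup Γ) : Set Γ) ∪ (Z : Set Γ)) with hB
  have hBA : B ≤ A' := (Subgroup.closure_le _).2
    (Set.union_subset (fun _ h => (Subgroup.mem_inf.1 h).1) hZA')
  have homega : ∀ ω ∈ A', ω ^ t = 1 → ω ∈ B := by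
    intro ω hω hωt
    obtain ⟨z₁, hz₁, hz₁t, hz₁v⟩ : ∃ z ∈ Z, z ^ t = 1 ∧ ρ z v' ≠ v' := by
      by_contra hno
      push Not at hno
      let Ω : Subgroup Γ :=
        { carrier := {z | z ∈ Z ∧ z ^ t = 1}
          one_mem' := ⟨one_mem _, one_pow t⟩
          mul_mem' := fun {p q} hp hq => ⟨mul_mem hp.1 hq.1, by
            rw [(hZc q hq.1 p (mem_zc.1 hp.1).1).mul_pow, hp.2, hq.2, one_mul]⟩
          inv_mem' := fun {p} hp => ⟨inv_mem hp.1, by rw [inv_pow, hp.2, inv_one]⟩ }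
      haveI : Ω.Normal := ⟨fun z hz g => ⟨Subgroup.Normal.conj_mem inferInstance z hz.1 g, by
        rw [conj_pow, hz.2, mul_one, mul_inv_cancel]⟩⟩
      obtain ⟨i, hi, j, hj, hcz, hc1⟩ := D.exists_commutator M hT
      refine hv'1 (D.ea.fix_eq_one D.exp (H := Ω) (fun z hz => M.zc_le hz.1) (fun h => hc1 ?_) ?_
        (fun y _ h => ⟨fun hh => Subgroup.Normal.conj_mem inferInstance h hh _, fun hh => ?_⟩)
        (fun z hz => hno z hz.1 hz.2))
      · exact Subgroup.mem_bot.1 (h ▸ (show _ ∈ Ω from ⟨hcz, M.commutator_pow hT hi hj⟩))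
      · have hp : IsPGroup t Ω := hT.to_le fun z hz => (mem_zc.1 hz.1).1
        obtain ⟨n, hn⟩ := IsPGroup.iff_card.1 hp
        rw [hn]
        exact Nat.Coprime.pow_left n hts
      · have h3 := Subgroup.Normal.conj_mem (H := Ω) inferInstance _ hh (y * a * y⁻¹)⁻¹
        simpa [mul_assoc] using h3
    obtain ⟨n, hn⟩ := hprop' z₁ (hZA' hz₁) ω hω hz₁t hωt hz₁v
    have h1 : ω * z₁ ^ n ∈ B := Subgroup.subset_closure
      (Or.inl ⟨mul_mem hω (pow_mem (hZA' hz₁) n), hn⟩)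
    have h2 : ω * z₁ ^ n * (z₁ ^ n)⁻¹ ∈ B :=
      mul_mem h1 (inv_mem (Subgroup.subset_closure (Or.inr (pow_mem hz₁ n))))
    rwa [mul_inv_cancel_right] at h2
  -- reduce to the centraliser of `B`
  suffices key : ∃ x, Elem ρ Y x ∧ (∀ p ∈ B, Commute x p) ∧
      ∀ u ∈ T, (∀ p ∈ B, Commute p u) → Commute x u by
    obtain ⟨x, E, hxB, hxU⟩ := key
    refine D.not_centralized M hT E fun u hu => ?_
    set c₀ := u⁻¹ * (x * u * x⁻¹) with hc₀
    have hc₀T : c₀ ∈ T := mul_mem (inv_mem hu) (Subgroup.Normal.conj_mem inferInstance u hu x)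
    have hcomm : ∀ p ∈ B, Commute p c₀ := by
      intro p hp
      set k := u * p * u⁻¹ * p⁻¹ with hk
      have hkz : k ∈ Z := M.commutator_mem hu (hA'T (hBA hp))
      have hxk : Commute x k := hxB k (Subgroup.subset_closure (Or.inr hkz))
      have h1 : u * p * u⁻¹ = k * p := by rw [hk]; group
      have h2 : x * u * x⁻¹ * p * (x * u * x⁻¹)⁻¹ = k * p := by
        calc x * u * x⁻¹ * p * (x * u * x⁻¹)⁻¹ = x * (u * (x⁻¹ * p * x) * u⁻¹) * x⁻¹ := by group
          _ = x * (k * p) * x⁻¹ := by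
            rw [show x⁻¹ * p * x = p by rw [mul_assoc, ← (hxB p hp).eq, inv_mul_cancel_left], h1]
          _ = k * p := by rw [(hxk.mul_right (hxB p hp)).eq, mul_inv_cancel_right]
      have h3 : c₀ * p * c₀⁻¹ = p := by
        calc c₀ * p * c₀⁻¹ = u⁻¹ * (x * u * x⁻¹ * p * (x * u * x⁻¹)⁻¹) * u := by
              rw [hc₀]; group
          _ = u⁻¹ * (u * p * u⁻¹) * u := by rw [h2, h1]
          _ = p := by group
      exact (mul_inv_eq_iff_eq_mul.1 h3).symm
    have hxu : x * u * x⁻¹ = u * c₀ := by rw [hc₀, mul_inv_cancel_left]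
    have h4 := E.stability (M.le hc₀T) hxu (hxU c₀ hc₀T hcomm)
    rw [h4, mul_one, mul_inv_eq_iff_eq_mul] at hxu
    exact hxu
  have hfixB : ∀ {x : Γ}, Elem ρ Y x → ρ x v' = v' → (∀ z ∈ Z, Commute x z) →
      ∀ p ∈ B, Commute x p := by
    intro x E hxv hxZ p hp
    have hle : B ≤ Subgroup.centralizer ({x} : Set Γ) := (Subgroup.closure_le _).2
      (Set.union_subset (fun q hq => Subgroup.mem_centralizer_singleton_iff.2
        (E.stab v' hv'1 hxv q (M.le (hA'T (Subgroup.mem_inf.1 hq).1)) (Subgroup.mem_inf.1 hq).2))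
        fun z hz => Subgroup.mem_centralizer_singleton_iff.2 (hxZ z hz).symm.eq)
    exact (Subgroup.mem_centralizer_singleton_iff.1 (hle hp)).symm
  rcases M.omega_split hT D.normalY (D.zc_cyclic M hT) (D.not_abelian M hT) with
    hgood | ⟨rfl, c, hc, hc1, hc2, hZ⟩
  · have hAB : ∀ d ∈ A', d ∈ B := by
      intro d hd
      obtain ⟨z, hz, hdz⟩ := hgood d (hA'T hd)
      have h1 : d * z * z⁻¹ ∈ B := mul_mem (homega _ (mul_mem hd (hZA' hz)) hdz)
        (inv_mem (Subgroup.subset_closure (Or.inr hz)))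
      rwa [mul_inv_cancel_right] at h1
    have hU : ∀ u ∈ T, (∀ p ∈ B, Commute p u) → u ∈ B := fun u hu h =>
      hAB u (hA'max u hu fun p hp => h p (hAB p hp))
    rcases D.centre Z inferInstance M.zc_le (D.zc_cyclic M hT)
      (fun z hz => (mem_zc.1 hz).2) with h | h
    · exact ⟨a, D.ea, hfixB D.ea hva h, fun u hu hu' => hfixB D.ea hva h u (hU u hu hu')⟩
    · exact ⟨b, D.eb, hfixB D.eb hvb h, fun u hu hu' => hfixB D.eb hvb h u (hU u hu hu')⟩
  -- the central part has order two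
  have hTd : (2 : ℕ) ∣ Nat.card Y := by
    have h1 := Subgroup.card_dvd_of_le (show T ≤ Y from M.le)
    obtain ⟨n, hn⟩ := IsPGroup.iff_card.1 hT
    have hn0 : n ≠ 0 := fun h => hne (Subgroup.card_eq_one.1 (by rw [hn, h, pow_zero]))
    exact (dvd_pow_self 2 hn0).trans (hn ▸ h1)
  obtain ⟨x, E, hxv, hx5⟩ : ∃ x, Elem ρ Y x ∧ ρ x v' = v' ∧ 5 ≤ orderOf x := by
    have h5 : ∀ {x : Γ}, Elem ρ Y x → orderOf x ≠ 3 → 5 ≤ orderOf x := by
      intro x E h3
      by_contra h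
      have h2 := E.prime.two_le
      have : orderOf x = 2 ∨ orderOf x = 4 := by omega
      rcases this with h' | h'
      · exact E.coprime (h' ▸ hTd)
      · exact absurd (h' ▸ E.prime) (by norm_num)
    by_cases h : orderOf a = 3
    · exact ⟨b, D.eb, hvb, h5 D.eb fun h' => D.ne (h.trans h'.symm)⟩
    · exact ⟨a, D.ea, hva, h5 D.ea h⟩
  have hxZ : ∀ z ∈ Z, Commute x z := by
    intro z hz
    rcases hZ z hz with rfl | rfl
    · exact Commute.one_right x
    rcases hZ _ (Subgroup.Normal.conj_mem (H := Z) inferInstance z hz x) with h | h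
    · exact absurd ((mul_inv_eq_one.1 h).symm) (by simpa using hc1)
    · exact mul_inv_eq_iff_eq_mul.1 h
  have hxB := hfixB E hxv hxZ
  refine ⟨x, E, hxB, fun u hu huB => ?_⟩
  have hsq : ∀ d ∈ T, d * d = 1 ∨ d * d = c := fun d hd => by
    simpa [pow_two] using hZ (d ^ 2) ⟨pow_mem hd 2, M.frattini_central hT hd⟩
  obtain ⟨w, hw, hAw⟩ : ∃ w ∈ A', ∀ d ∈ A', d ∈ B ∨ w⁻¹ * d ∈ B := by
    by_cases h : ∀ d ∈ A', d ∈ B
    · exact ⟨1, one_mem _, fun d hd => Or.inl (h d hd)⟩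
    push Not at h
    obtain ⟨w, hw, hwB⟩ := h
    refine ⟨w, hw, fun d hd => ?_⟩
    by_cases hdB : d ∈ B
    · exact Or.inl hdB
    right
    have hsqc : ∀ p ∈ A', p ∉ B → p * p = c := fun p hp hpB =>
      (hsq p (hA'T hp)).resolve_left fun h => hpB (homega p hp (by rw [pow_two, h]))
    refine homega _ (mul_mem (inv_mem hw) hd) ?_
    rw [(hA'c _ (inv_mem hw) _ hd).mul_pow, pow_two, pow_two, hsqc d hd hdB, ← mul_inv_rev,
      hsqc w hw hwB, inv_mul_cancel]
  have hcomA : ∀ g ∈ T, (∀ p ∈ B, Commute p g) → Commute w g → g ∈ B ∨ w⁻¹ * g ∈ B := by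
    intro g hg hgB hgw
    refine hAw g (hA'max g hg fun p hp => ?_)
    rcases hAw p hp with h | h
    · exact hgB p h
    · have h1 := hgw.mul_left (hgB _ h)
      rwa [mul_inv_cancel_left] at h1
  obtain ⟨r, hr⟩ : ∃ r : Fin 4 → Γ, ∀ g ∈ T, (∀ p ∈ B, Commute p g) →
      ∃ i, (r i)⁻¹ * g ∈ B := by
    by_cases hall : ∀ g ∈ T, (∀ p ∈ B, Commute p g) → Commute w g
    · refine ⟨![1, w, 1, 1], fun g hg hgB => ?_⟩
      rcases hcomA g hg hgB (hall g hg hgB) with h | h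
      · exact ⟨0, by simpa using h⟩
      · exact ⟨1, by simpa using h⟩
    push Not at hall
    obtain ⟨u₀, hu₀, hu₀B, hu₀w⟩ := hall
    refine ⟨![1, w, u₀, u₀ * w], fun g hg hgB => ?_⟩
    by_cases hgw : Commute w g
    · rcases hcomA g hg hgB hgw with h | h
      · exact ⟨0, by simpa using h⟩
      · exact ⟨1, by simpa using h⟩
    have hconj : ∀ g ∈ T, ¬ Commute w g → w * g * w⁻¹ = c * g := by
      intro g hg hgw
      rcases hZ _ (M.commutator_mem (hA'T hw) hg) with h | h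
      · rw [mul_inv_eq_one, mul_inv_eq_iff_eq_mul] at h
        exact absurd h hgw
      · rw [← h]; group
    have hwd : Commute w (u₀⁻¹ * g) := by
      show w * (u₀⁻¹ * g) = u₀⁻¹ * g * w
      rw [← mul_inv_eq_iff_eq_mul, show w * (u₀⁻¹ * g) * w⁻¹ =
        (w * u₀ * w⁻¹)⁻¹ * (w * g * w⁻¹) by group, hconj u₀ hu₀ hu₀w, hconj g hg hgw]
      group
    rcases hcomA _ (mul_mem (inv_mem hu₀) hg)
      (fun p hp => ((hu₀B p hp).inv_right.mul_right (hgB p hp))) hwd with h | h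
    · exact ⟨2, by simpa using h⟩
    · exact ⟨3, by simpa [mul_assoc] using h⟩
  have hiter : ∀ k : ℕ, x ^ k * u * (x ^ k)⁻¹ ∈ T ∧ ∀ p ∈ B, Commute p (x ^ k * u * (x ^ k)⁻¹) := by
    intro k
    refine ⟨Subgroup.Normal.conj_mem inferInstance u hu _, fun p hp => ?_⟩
    have h1 : Commute p (x ^ k) := ((hxB p hp).pow_left k).symm
    exact (h1.mul_right (huB p hp)).mul_right h1.inv_right
  choose f hf using fun k : Fin 5 => hr _ (hiter k).1 (hiter k).2
  obtain ⟨k, l, hkl, hfkl⟩ := Fintype.exists_ne_map_eq_of_card_lt f (by simp)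
  wlog hlt : (k : ℕ) < l generalizing k l
  · exact this l k hkl.symm hfkl.symm
      (lt_of_le_of_ne (not_lt.1 hlt) fun h => hkl (Fin.ext h.symm))
  obtain ⟨m, hm⟩ : ∃ m, (l : ℕ) = k + m := ⟨_, (Nat.add_sub_cancel' hlt.le).symm⟩
  have hm0 : 0 < m ∧ m < 5 := by omega
  set e := u⁻¹ * (x ^ m * u * (x ^ m)⁻¹) with he
  have heB : e ∈ B := by
    have h1 : ((r (f k))⁻¹ * (x ^ (k : ℕ) * u * (x ^ (k : ℕ))⁻¹))⁻¹ *
        ((r (f k))⁻¹ * (x ^ (l : ℕ) * u * (x ^ (l : ℕ))⁻¹)) = x ^ (k : ℕ) * e * (x ^ (k : ℕ))⁻¹ := by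
      rw [hm, pow_add, he]; group
    have h2 : x ^ (k : ℕ) * e * (x ^ (k : ℕ))⁻¹ ∈ B := h1 ▸ mul_mem (inv_mem (hf k)) (hfkl ▸ hf l)
    have h3 := ((hxB _ h2).pow_left (k : ℕ)).eq
    rw [inv_mul_cancel_right] at h3
    rwa [mul_left_cancel h3] at h2
  refine E.stability_pow ?_ (M.le (hA'T (hBA heB))) (by rw [he, mul_inv_cancel_left]) (hxB e heB)
  exact ((E.prime.coprime_iff_not_dvd).2 fun h =>
    (Nat.le_of_dvd hm0.1 h).not_gt (by omega)).symm

end Dat

/-- Two partitioning elements cannot exist. -/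
theorem Dat.false [Group.IsSolvable Y] (D : Dat ρ s Y a b)
    (hlin : ∀ f : Y →* ℂˣ, (∀ y z : Y, (z : Γ) = a * y * a⁻¹ → f z = f y) ∨
      ∀ y z : Y, (z : Γ) = b * y * b⁻¹ → f z = f y) : False := by
  classical
  by_cases hY : ∀ x ∈ Y, ∀ y ∈ Y, Commute x y
  · letI : CommGroup Y :=
      { (inferInstance : Group Y) with mul_comm := fun p q => Subtype.ext (hY p p.2 q q.2) }
    haveI := D.normalY
    have sep : ∀ {x : Γ}, Elem ρ Y x →
        ∃ f : Y →* ℂˣ, ¬ ∀ y z : Y, (z : Γ) = x * y * x⁻¹ → f z = f y := by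
      intro x E
      obtain ⟨y, hy, hyx⟩ := E.moves
      set d : Y := ⟨x * y * x⁻¹, Subgroup.Normal.conj_mem inferInstance y hy x⟩ * ⟨y, hy⟩⁻¹
      have hd : d ≠ 1 := fun h => hyx (by
        have h1 := congrArg Subtype.val (mul_inv_eq_one.1 h)
        exact (mul_inv_eq_iff_eq_mul.1 h1).symm)
      obtain ⟨f, hf⟩ := CommGroup.exists_apply_ne_one_of_hasEnoughRootsOfUnity Y ℂ hd
      refine ⟨f, fun h => hf ?_⟩
      rw [map_mul, map_inv, h ⟨y, hy⟩ ⟨_, _⟩ rfl, mul_inv_cancel]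
    obtain ⟨f, hf⟩ := sep D.ea
    obtain ⟨g, hg⟩ := sep D.eb
    have hfb := (hlin f).resolve_left hf
    have hga := (hlin g).resolve_right hg
    rcases hlin (f * g) with h | h
    · refine hf fun y z hz => ?_
      have h1 := h y z hz
      rw [MonoidHom.mul_apply, MonoidHom.mul_apply, hga y z hz] at h1
      exact mul_right_cancel h1
    · refine hg fun y z hz => ?_
      have h1 := h y z hz
      rw [MonoidHom.mul_apply, MonoidHom.mul_apply, hfb y z hz] at h1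
      exact mul_left_cancel h1
  · obtain ⟨T, M⟩ := D.exists_minNC hY
    obtain ⟨t, ht, hT⟩ := M.exists_prime
    haveI := Fact.mk ht
    exact D.not_minNC M hT

end Cfsg.Agent.CharGraph.Palfy
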