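import Cfsg.Agent.CharGraph.Palfy.Core
import Cfsg.Agent.CharGraph.Palfy.Degree

/-!
# Two elements with the properties forced by the degrees act trivially
-/

set_option linter.unusedSectionVars false
set_option linter.style.haveILetI false

namespace Cfsg.Agent.CharGraph.Palfy

open Cfsg Subgroup

universe u

/-- A proper normal subgroup of a solvable group is in a normal subgroup of prime index. -/
theorem exists_prime_index {H : Type*} [Group H] [Finite H] [Group.IsSolvable H] (N : Subgroup H)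
    [hN : N.Normal] (hne : N ≠ ⊤) : ∃ K : Subgroup H, K.Normal ∧ N ≤ K ∧ K.index.Prime := by
  obtain ⟨K, hNK, hK⟩ := Finite.exists_le_maximal (p := fun K : Subgroup H => K.Normal ∧ K ≠ ⊤)
    (a := N) ⟨hN, hne⟩
  obtain ⟨hKn, hKt⟩ := hK.prop
  haveI := hKn
  refine ⟨K, hKn, hNK, ?_⟩
  have hnt : Nontrivial (H ⧸ K) := QuotientGroup.nontrivial_iff.2 hKt
  have hmax : ∀ L : Subgroup (H ⧸ K), L.Normal → L = ⊥ ∨ L = ⊤ := by
    intro L hL
    by_cases h : L = ⊤
    · exact Or.inr h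
    left
    have h1 := hK.le_of_ge (y := L.comap (QuotientGroup.mk' K)) ⟨hL.comap _, fun ht => h (by
      rw [← Subgroup.map_comap_eq_self_of_surjective (QuotientGroup.mk'_surjective K) L, ht,
        Subgroup.map_top_of_surjective _ (QuotientGroup.mk'_surjective K)])⟩
      (QuotientGroup.le_comap_mk' K L)
    rw [← le_bot_iff, ← Subgroup.map_comap_eq_self_of_surjective (QuotientGroup.mk'_surjective K) L]
    exact (Subgroup.map_mono h1).trans (QuotientGroup.map_mk'_self K).le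
  haveI : IsSimpleGroup (H ⧸ K) := ⟨fun L hL => hmax L hL⟩
  letI : CommGroup (H ⧸ K) :=
    { (inferInstance : Group (H ⧸ K)) with
      mul_comm := by
        have h : commutator (H ⧸ K) = ⊥ := (hmax _ inferInstance).resolve_right
          (Group.IsSolvable.commutator_lt_top_of_nontrivial (G := H ⧸ K)).ne
        intro x y
        exact commutatorElement_eq_one_iff_mul_comm.1 (Subgroup.mem_bot.1
          (h ▸ Subgroup.commutator_mem_commutator (Subgroup.mem_top x) (Subgroup.mem_top y))) }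
  exact IsSimpleGroup.prime_card

variable {H : Type u} [Group H] [Finite H]

/-- `Y` is a normal `{q, r}'`-subgroup with complement generated by commuting `a` and `b`. -/
structure Hall (Y : Subgroup H) (a b : H) (q r : ℕ) : Prop where
  hq : q.Prime
  hr : r.Prime
  ne : q ≠ r
  oa : orderOf a = q
  ob : orderOf b = r
  comm : Commute a b
  cop_q : ¬ q ∣ Nat.card Y
  cop_r : ¬ r ∣ Nat.card Y
  normal : Y.Normal
  cover : ∀ h : H, ∃ y ∈ Y, ∃ i j : ℕ, h = y * a ^ i * b ^ j

namespace Hall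

variable {Y : Subgroup H} {a b : H} {q r : ℕ} (D : Hall Y a b q r)
include D

theorem symm : Hall Y b a r q :=
  ⟨D.hr, D.hq, D.ne.symm, D.ob, D.oa, D.comm.symm, D.cop_r, D.cop_q, D.normal, fun h => by
    obtain ⟨y, hy, i, j, rfl⟩ := D.cover h
    exact ⟨y, hy, j, i, by rw [mul_assoc, mul_assoc, (D.comm.pow_pow i j).eq]⟩⟩

theorem eq_one {d : H} (hd : d ∈ Y) (h : d ^ (q * r) = 1) : d = 1 := by
  have h2 : d ^ Nat.card Y = 1 := congrArg Subtype.val (pow_card_eq_one' (x := (⟨d, hd⟩ : Y)))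
  have h3 := pow_gcd_eq_one.2 ⟨h, h2⟩
  rwa [Nat.Coprime.gcd_eq_one (Nat.Coprime.mul_left (D.hq.coprime_iff_not_dvd.2 D.cop_q)
    (D.hr.coprime_iff_not_dvd.2 D.cop_r)), pow_one] at h3

theorem pow_qr (i j : ℕ) : (a ^ i * b ^ j) ^ (q * r) = 1 := by
  rw [(D.comm.pow_pow i j).mul_pow, ← pow_mul, ← pow_mul, orderOf_dvd_iff_pow_eq_one.1
    (D.oa ▸ (Dvd.intro r rfl : q ∣ q * r).mul_left i), orderOf_dvd_iff_pow_eq_one.1
    (D.ob ▸ (Dvd.intro_left q rfl : r ∣ q * r).mul_left j), one_mul]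

/-- The component in `Y` is unique. -/
theorem unique {y y' : H} (hy : y ∈ Y) (hy' : y' ∈ Y) {i j i' j' : ℕ}
    (h : y * a ^ i * b ^ j = y' * a ^ i' * b ^ j') : y = y' := by
  have h1 : (a ^ i * b ^ j) * (a ^ i' * b ^ j')⁻¹ = y⁻¹ * y' := by
    rw [mul_inv_eq_iff_eq_mul, ← mul_right_inj y]
    calc y * (a ^ i * b ^ j) = y' * a ^ i' * b ^ j' := by rw [← mul_assoc, h]
      _ = y * (y⁻¹ * y' * (a ^ i' * b ^ j')) := by group
  have hc : Commute (a ^ i * b ^ j) (a ^ i' * b ^ j')⁻¹ :=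
    ((((Commute.refl a).pow_pow i i').mul_right (D.comm.pow_pow i j')).mul_left
      ((D.comm.symm.pow_pow j i').mul_right ((Commute.refl b).pow_pow j j'))).inv_right
  have h2 := D.eq_one (mul_mem (inv_mem hy) hy') (by
    rw [← h1, hc.mul_pow, inv_pow, D.pow_qr, D.pow_qr, one_mul, inv_one])
  exact inv_mul_eq_one.1 h2

/-- An element of order `q` has no `b`-component. -/
theorem exists_pow_mem {I : Subgroup H} (hYI : Y ≤ I) {x : H} (hx : x ∈ I) (hxo : orderOf x = q) :
    a ∈ I := by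
  haveI := D.normal
  obtain ⟨y, hy, i, j, rfl⟩ := D.cover x
  have hπy : (QuotientGroup.mk y : H ⧸ Y) = 1 := (QuotientGroup.eq_one_iff y).2 hy
  have hbY : b ^ (j * q) ∈ Y := by
    have h1 : (QuotientGroup.mk ((y * a ^ i * b ^ j) ^ q) : H ⧸ Y) = 1 := by
      rw [← hxo, pow_orderOf_eq_one]; rfl
    rw [QuotientGroup.mk_pow, QuotientGroup.mk_mul, QuotientGroup.mk_mul, hπy, one_mul,
      ← QuotientGroup.mk_mul, ← QuotientGroup.mk_pow, QuotientGroup.eq_one_iff,
      (D.comm.pow_pow i j).mul_pow, ← pow_mul, ← pow_mul, orderOf_dvd_iff_pow_eq_one.1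
      (D.oa ▸ Dvd.intro_left i rfl), one_mul] at h1
    exact h1
  have hb1 : b ^ (j * q) = 1 := D.eq_one hbY (by
    simpa using D.pow_qr 0 (j * q))
  have hbj : b ^ j = 1 := orderOf_dvd_iff_pow_eq_one.1 ((D.ob ▸
    ((Nat.coprime_primes D.hr D.hq).2 D.ne.symm)).dvd_of_dvd_mul_right
      (orderOf_dvd_of_pow_eq_one hb1))
  rw [hbj, mul_one] at hx hxo
  have hai : a ^ i ∈ I := (Subgroup.mul_mem_cancel_left I (hYI hy)).1 hx
  have hqi : ¬ q ∣ i := fun h => by
    rw [orderOf_dvd_iff_pow_eq_one.1 (D.oa ▸ h), mul_one] at hxo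
    exact D.cop_q (hxo ▸ Subgroup.orderOf_dvd_natCard Y hy)
  obtain ⟨k, hk⟩ := Nat.exists_mul_mod_eq_one_of_coprime
    ((D.hq.coprime_iff_not_dvd.2 hqi).symm) D.hq.one_lt
  have h3 : (a ^ i) ^ k = a := by rw [← pow_mul, ← pow_mod_orderOf, D.oa, hk.2, pow_one]
  exact h3 ▸ pow_mem hai k

/-- Without a degree divisible by `q * r`, a linear character of a normal subgroup fixed by `Y` is
fixed by `a` or by `b`. -/
theorem fixed_of_no_degree (hdeg : ∀ χ : IrrCharacter H, ¬ q * r ∣ charDegree (χ : H → ℂ))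
    (N : Subgroup H) [hN : N.Normal] (ζ : N →* ℂˣ)
    (hY : ∀ y ∈ Y, ∀ n : N, ζ ⟨y * n * y⁻¹, hN.conj_mem (n : H) n.2 y⟩ = ζ n) :
    (∀ n : N, ζ ⟨a * n * a⁻¹, hN.conj_mem (n : H) n.2 a⟩ = ζ n) ∨
      ∀ n : N, ζ ⟨b * n * b⁻¹, hN.conj_mem (n : H) n.2 b⟩ = ζ n := by
  classical
  letI := Fintype.ofFinite N
  have hθ : IsIrrCharacter N (fun n => (ζ n : ℂ)) := Char.isIrrCharacter_monoidHom ζ
  set I := CharExt.inertia N (fun n => (ζ n : ℂ)) with hI
  have hmem : ∀ g, g ∈ I ↔ ∀ n : N, ζ ⟨g * n * g⁻¹, hN.conj_mem (n : H) n.2 g⟩ = ζ n :=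
    fun g => ⟨fun h n => Units.ext (congrFun h n), fun h => funext fun n => congrArg Units.val (h n)⟩
  have hYI : Y ≤ I := fun y hy => (hmem y).2 (hY y hy)
  obtain ⟨χ, hχ⟩ := exists_irr_over N ⟨_, hθ⟩
  have hdvd := index_dvd_degree N hθ χ (by convert hχ)
  have key : ∀ {a b : H} {q r : ℕ}, Hall Y a b q r → a ∉ I → q ∣ I.index := by
    intro a b q r D ha
    by_contra hq
    haveI := Fact.mk D.hq
    have hqH : q ∣ Nat.card I * I.index :=
      (Subgroup.card_mul_index I).symm ▸ D.oa ▸ orderOf_dvd_natCard a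
    obtain ⟨x, hx⟩ := exists_prime_orderOf_dvd_card' q ((D.hq.dvd_mul.1 hqH).resolve_right hq)
    exact ha (D.exists_pow_mem hYI x.2 (by rw [← hx, Subgroup.orderOf_coe]))
  by_contra hno
  push Not at hno
  obtain ⟨⟨n, hn⟩, ⟨m, hm⟩⟩ := hno
  exact hdeg χ ((((Nat.coprime_primes D.hq D.hr).2 D.ne).mul_dvd_of_dvd_of_dvd
    (key D fun h => hn ((hmem a).1 h n)) (key D.symm fun h => hm ((hmem b).1 h m))).trans hdvd)

/-- A homomorphism of `Y` to an abelian group invariant under `a` and `b` is trivial when `a` and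
`b` lie in no normal subgroup of prime index. -/
theorem hom_trivial [Group.IsSolvable H]
    (hgen : ∀ N : Subgroup H, N.Normal → N.index.Prime → ¬ (a ∈ N ∧ b ∈ N))
    {A : Type*} [CommGroup A] (f : Y →* A)
    (ha : ∀ y z : Y, (z : H) = a * y * a⁻¹ → f z = f y)
    (hb : ∀ y z : Y, (z : H) = b * y * b⁻¹ → f z = f y) : f = 1 := by
  classical
  haveI := D.normal
  have hc : ∀ (i j : ℕ) (y z : Y), (z : H) = a ^ i * b ^ j * y * (a ^ i * b ^ j)⁻¹ → f z = f y := by
    intro i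
    induction i with
    | zero =>
      intro j
      induction j with
      | zero => intro y z h; rw [show z = y from Subtype.ext (by simpa using h)]
      | succ j ih =>
        intro y z h
        let w : Y := ⟨b ^ j * y * (b ^ j)⁻¹, Subgroup.Normal.conj_mem inferInstance (y : H) y.2 _⟩
        rw [hb w z (by rw [h, pow_succ']; simp [w, mul_assoc]), ih y w (by simp [w])]
    | succ i ih =>
      intro j y z h
      let w : Y := ⟨a ^ i * b ^ j * y * (a ^ i * b ^ j)⁻¹,
        Subgroup.Normal.conj_mem inferInstance (y : H) y.2 _⟩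
      rw [ha w z (by rw [h, pow_succ']; simp [w, mul_assoc]), ih j y w rfl]
  choose yc hyc ic jc hcov using D.cover
  let F : H →* A := MonoidHom.mk' (fun h => f ⟨yc h, hyc h⟩) (by
    intro h h'
    set c := a ^ ic h * b ^ jc h with hc'
    let z : Y := ⟨c * yc h' * c⁻¹, Subgroup.Normal.conj_mem inferInstance (yc h') (hyc h') c⟩
    have h1 : h * h' = (yc h * z) * a ^ (ic h + ic h') * b ^ (jc h + jc h') := by
      calc h * h' = (yc h * a ^ ic h * b ^ jc h) * (yc h' * a ^ ic h' * b ^ jc h') := by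
            rw [← hcov, ← hcov]
        _ = yc h * (c * yc h' * c⁻¹) * (a ^ ic h * (b ^ jc h * a ^ ic h')) * b ^ jc h' := by
            rw [hc']; group
        _ = (yc h * z) * a ^ (ic h + ic h') * b ^ (jc h + jc h') := by
            rw [((D.comm.symm).pow_pow _ _).eq, pow_add, pow_add]; simp [z, mul_assoc]
    have h2 := D.unique (hyc (h * h')) (mul_mem (hyc h) z.2) ((hcov (h * h')).symm.trans h1)
    show f _ = f _ * f _
    rw [show (⟨yc (h * h'), hyc (h * h')⟩ : Y) = ⟨yc h, hyc h⟩ * z from Subtype.ext h2, map_mul,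
      hc (ic h) (jc h) ⟨yc h', hyc h'⟩ z rfl])
  have hF : ∀ y : Y, F y = f y := fun y => by
    show f _ = f y
    congr 1
    exact Subtype.ext (D.unique (hyc (y : H)) y.2 (i' := 0) (j' := 0)
      ((hcov (y : H)).symm.trans (by simp)))
  have hFa : a ∈ F.ker := by
    show f _ = 1
    rw [show (⟨yc a, hyc a⟩ : Y) = 1 from Subtype.ext (D.unique (hyc a) Y.one_mem (i' := 1)
      (j' := 0) ((hcov a).symm.trans (by simp))), map_one]
  have hFb : b ∈ F.ker := by
    show f _ = 1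
    rw [show (⟨yc b, hyc b⟩ : Y) = 1 from Subtype.ext (D.unique (hyc b) Y.one_mem (i' := 0)
      (j' := 1) ((hcov b).symm.trans (by simp))), map_one]
  have htop : F.ker = ⊤ := by
    by_contra hne
    obtain ⟨K, hK, hle, hKp⟩ := exists_prime_index F.ker hne
    exact hgen K hK hKp ⟨hle hFa, hle hFb⟩
  exact MonoidHom.ext fun y => (hF y).symm.trans (htop ▸ Subgroup.mem_top (y : H) : (y : H) ∈ F.ker)

end Hall

/-- The properties forced by the degrees are impossible for two elements that both act. -/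
theorem machine [Group.IsSolvable H] {V : Type*} [CommGroup V] [Finite V] (ρ : H →* MulAut V)
    {s : ℕ} (hs : s.Prime) (hexp : ∀ v : V, v ^ s = 1) {Y : Subgroup H} {a b : H} {q r : ℕ}
    (D : Hall Y a b q r) (Pa : Part ρ Y a) (Pb : Part ρ Y b)
    (horb : ∀ v : V, v ≠ 1 → ∃ y ∈ Y, ρ a (ρ y v) = ρ y v ∧ ρ b (ρ y v) = ρ y v)
    (hav : ∃ v, ρ a v ≠ v) (hbv : ∃ v, ρ b v ≠ v)
    (hgen : ∀ N : Subgroup H, N.Normal → N.index.Prime → ¬ (a ∈ N ∧ b ∈ N))
    (hdeg : ∀ χ : IrrCharacter H, ¬ q * r ∣ charDegree (χ : H → ℂ))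
    (hcore : ¬ s ∣ Nat.card H ∨
      (Function.Injective ρ ∧ ∀ T : Subgroup H, T.Normal → IsPGroup s T → T = ⊥)) : False := by
  classical
  haveI := D.normal
  set C := Y ⊓ ρ.ker with hC
  haveI : C.Normal := inferInstance
  set π : H →* H ⧸ C := QuotientGroup.mk' C
  have hπs : Function.Surjective π := QuotientGroup.mk'_surjective C
  let σ : H ⧸ C →* MulAut V := QuotientGroup.lift C ρ inf_le_right
  have hσ : ∀ h, σ (π h) = ρ h := fun h => rfl
  set Y' := Y.map π with hY'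
  haveI : Y'.Normal := Subgroup.Normal.map inferInstance π hπs
  have hmem : ∀ h, π h ∈ Y' → h ∈ Y := by
    rintro h ⟨y, hy, he⟩
    have h1 : y⁻¹ * h ∈ C := QuotientGroup.eq.1 he
    have h2 := mul_mem hy h1.1
    rwa [mul_inv_cancel_left] at h2
  have hord : ∀ {a b : H} {q r : ℕ}, Hall Y a b q r → orderOf (π a) = q := by
    intro a b q r D
    refine ((Nat.dvd_prime D.hq).1 (D.oa ▸ orderOf_map_dvd π a)).resolve_left fun h => ?_
    have haY : a ∈ Y := hmem a (by rw [orderOf_eq_one_iff.1 h]; exact one_mem _)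
    exact D.cop_q (D.oa ▸ Subgroup.orderOf_dvd_natCard Y haY)
  have D' : Hall Y' (π a) (π b) q r :=
    ⟨D.hq, D.hr, D.ne, hord D, hord D.symm, D.comm.map π,
      fun h => D.cop_q (h.trans (Subgroup.card_map_dvd Y π)),
      fun h => D.cop_r (h.trans (Subgroup.card_map_dvd Y π)), inferInstance, fun h => by
      obtain ⟨h, rfl⟩ := hπs h
      obtain ⟨y, hy, i, j, rfl⟩ := D.cover h
      exact ⟨π y, ⟨y, hy, rfl⟩, i, j, by rw [map_mul, map_mul, map_pow, map_pow]⟩⟩
  have elem : ∀ {a b : H} {q r : ℕ}, Hall Y a b q r → Part ρ Y a → (∃ v, ρ a v ≠ v) →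
      Elem σ Y' (π a) := by
    intro a b q r D E hav
    refine ⟨⟨hord D ▸ D.hq, fun h => D.cop_q ((hord D ▸ h).trans (Subgroup.card_map_dvd Y π)),
      inferInstance, ?_, ?_⟩, ?_, ?_⟩
    · rintro v hv hxv _ ⟨y, hy, rfl⟩ hyv
      exact (E.stab v hv hxv y hy hyv).map π
    · intro v hv
      obtain ⟨y, hy, h⟩ := E.orbit v hv
      exact ⟨π y, ⟨y, hy, rfl⟩, h⟩
    · rintro _ ⟨y, hy, rfl⟩ h
      exact (QuotientGroup.eq_one_iff y).2 ⟨hy, MulEquiv.ext fun v => h v⟩
    · by_contra hno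
      push Not at hno
      obtain ⟨v, hv⟩ := hav
      apply hv
      by_cases hv1 : v = 1
      · rw [hv1, map_one]
      obtain ⟨y, hy, h⟩ := E.orbit v hv1
      have h1 : ρ (y * a) v = ρ (a * y) v := by
        rw [← hσ, ← hσ, map_mul π, map_mul π, (hno (π y) ⟨y, hy, rfl⟩).eq]
      rw [act_mul, act_mul, h] at h1
      exact (ρ y).injective h1
  have hdeg' : ∀ χ : IrrCharacter (H ⧸ C), ¬ q * r ∣ charDegree (χ : H ⧸ C → ℂ) := fun χ h =>
    hdeg (inflate C χ) (by rwa [charDegree_inflate])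
  haveI : Group.IsSolvable (H ⧸ C) := inferInstance
  have hD : Dat σ s Y' (π a) (π b) := by
    refine ⟨hs, hexp, elem D Pa hav, elem D.symm Pb hbv, by rw [hord D, hord D.symm]; exact D.ne,
      fun v hv => ?_, ?_, ?_, ?_⟩
    · obtain ⟨y, hy, h1, h2⟩ := horb v hv
      exact ⟨π y, ⟨y, hy, rfl⟩, h1, h2⟩
    · intro Z hZ hZY hcyc hZc
      haveI := hZ
      obtain ⟨ζ, hζ⟩ : ∃ ζ : Z →* ℂˣ, Function.Injective ζ := by
        haveI := hcyc
        haveI : NeZero (Nat.card Z) := ⟨Nat.card_pos.ne'⟩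
        have hc : Nat.card Z = Nat.card (rootsOfUnity (Nat.card Z) ℂ) := by
          rw [Complex.card_rootsOfUnity]
        exact ⟨(rootsOfUnity (Nat.card Z) ℂ).subtype.comp (mulEquivOfCyclicCardEq hc).toMonoidHom,
          Subtype.val_injective.comp (MulEquiv.injective _)⟩
      have hcomm : ∀ {g : H ⧸ C}, (∀ n : Z, ζ ⟨g * n * g⁻¹, hZ.conj_mem (n : H ⧸ C) n.2 g⟩ = ζ n) →
          ∀ z ∈ Z, Commute g z := fun h z hz =>
        mul_inv_eq_iff_eq_mul.1 (congrArg Subtype.val (hζ (h ⟨z, hz⟩)))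
      refine (D'.fixed_of_no_degree hdeg' Z ζ fun y hy n => congrArg ζ (Subtype.ext ?_)).imp
        hcomm hcomm
      show y * (n : H ⧸ C) * y⁻¹ = n
      rw [(hZc (n : H ⧸ C) n.2 y hy).eq, mul_inv_cancel_right]
    · intro n f ha hb
      have h1 := D.hom_trivial hgen
        (f.comp (π.subgroupMap Y))
        (fun y z h => ha _ _ (by
          show π (z : H) = π a * π (y : H) * (π a)⁻¹
          rw [h, map_mul, map_mul, map_inv]))
        (fun y z h => hb _ _ (by
          show π (z : H) = π b * π (y : H) * (π b)⁻¹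
          rw [h, map_mul, map_mul, map_inv]))
      refine MonoidHom.ext fun y => ?_
      obtain ⟨x, rfl⟩ := π.subgroupMap_surjective Y y
      exact DFunLike.congr_fun h1 x
    · intro T hT hTY hTs
      haveI := Fact.mk hs
      rcases hcore with h | ⟨hinj, h⟩
      · obtain ⟨n, hn⟩ := IsPGroup.iff_card.1 hTs
        refine Subgroup.eq_bot_of_card_eq T ?_
        rcases n.eq_zero_or_pos with rfl | hn0
        · exact hn
        · exact absurd (((dvd_pow_self s hn0.ne').trans (hn ▸ T.card_subgroup_dvd_card)).trans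
            (C.card_quotient_dvd_card)) h
      · have hC1 : C = ⊥ := by
          rw [hC, (MonoidHom.ker_eq_bot_iff ρ).2 hinj, inf_bot_eq]
        have hπi : Function.Injective π := by
          rw [← MonoidHom.ker_eq_bot_iff, QuotientGroup.ker_mk', hC1]
        have h2 := h (T.comap π) (hT.comap π) (hTs.comap_of_injective π hπi)
        rw [← Subgroup.map_comap_eq_self_of_surjective hπs T, h2, Subgroup.map_bot]
  refine hD.false fun f => ?_
  have hinner : ∀ y ∈ Y', ∀ n : Y', f ⟨y * n * y⁻¹,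
      Subgroup.Normal.conj_mem inferInstance (n : H ⧸ C) n.2 y⟩ = f n := by
    intro y hy n
    rw [show (⟨y * n * y⁻¹, Subgroup.Normal.conj_mem inferInstance (n : H ⧸ C) n.2 y⟩ : Y') =
      ⟨y, hy⟩ * n * ⟨y, hy⟩⁻¹ from rfl, map_mul, map_mul, map_inv, mul_inv_cancel_comm]
  rcases D'.fixed_of_no_degree hdeg' Y' f hinner with h | h
  · exact Or.inl fun y z hz => (congrArg f (Subtype.ext hz)).trans (h y)
  · exact Or.inr fun y z hz => (congrArg f (Subtype.ext hz)).trans (h y)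

end Cfsg.Agent.CharGraph.Palfy
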