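import Mathlib
import Cfsg.Agent.PGroup.Basic

/-!
# Elements whose fixed vectors partition a module

`ρ` is an action of a finite group `Γ` on a finite abelian group `V`.  An element `x` of prime
order outside the coprime normal subgroup `Y` is *partitioning* when each orbit of `Y` has an
`x`-fixed vector and `x` centralises the stabiliser in `Y` of each vector it fixes.  Then abelian
subgroups centralised by all conjugates of `x`, and abelian normal subgroups if the order of `x` is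
odd, have at most one subgroup of each prime order.
-/

set_option linter.unusedSectionVars false
set_option linter.style.haveILetI false

namespace Cfsg.Agent.CharGraph.Palfy

open Subgroup

variable {Γ V : Type*} [Group Γ] [Finite Γ] [CommGroup V] [Finite V] (ρ : Γ →* MulAut V)

theorem act_mul (g h : Γ) (v : V) : ρ (g * h) v = ρ g (ρ h v) := by
  rw [map_mul, MulAut.mul_apply]

theorem act_one (v : V) : ρ 1 v = v := by
  rw [map_one, MulAut.one_apply]

theorem act_inv_of_fix {g : Γ} {v : V} (h : ρ g v = v) : ρ g⁻¹ v = v := by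
  conv_lhs => rw [← h, ← act_mul, inv_mul_cancel, act_one]

/-- The subgroup fixing a vector. -/
def fixer (v : V) : Subgroup Γ where
  carrier := {g | ρ g v = v}
  one_mem' := act_one ρ v
  mul_mem' {g h} hg hh := by
    show ρ (g * h) v = v
    rw [act_mul, hh, hg]
  inv_mem' := act_inv_of_fix ρ

theorem mem_fixer {g : Γ} {v : V} : g ∈ fixer ρ v ↔ ρ g v = v := Iff.rfl

/-- The product of the translates of a vector under a subgroup. -/
noncomputable def norm (H : Subgroup Γ) (v : V) : V :=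
  letI := Fintype.ofFinite H
  ∏ h : H, ρ (h : Γ) v

theorem norm_mem (H : Subgroup Γ) {W : Subgroup V} (hW : ∀ h ∈ H, ∀ w ∈ W, ρ h w ∈ W) {v : V}
    (hv : v ∈ W) : norm ρ H v ∈ W := by
  unfold norm
  exact prod_mem fun h _ => hW h h.2 v hv

theorem fix_norm {H : Subgroup Γ} {h : Γ} (hh : h ∈ H) (v : V) :
    ρ h (norm ρ H v) = norm ρ H v := by
  letI := Fintype.ofFinite H
  unfold norm
  rw [map_prod]
  simp only [← act_mul]
  exact Fintype.prod_equiv (Equiv.mulLeft (⟨h, hh⟩ : H)) _ _ fun _ => rfl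

theorem norm_of_fixed {H : Subgroup Γ} {v : V} (h : ∀ g ∈ H, ρ g v = v) :
    norm ρ H v = v ^ Nat.card H := by
  letI := Fintype.ofFinite H
  unfold norm
  rw [Finset.prod_congr rfl fun (g : H) _ => h (g : Γ) g.2, Finset.prod_const, Finset.card_univ,
    Nat.card_eq_fintype_card]

theorem norm_mul (H : Subgroup Γ) (v w : V) : norm ρ H (v * w) = norm ρ H v * norm ρ H w := by
  unfold norm
  rw [← Finset.prod_mul_distrib]
  simp only [map_mul]

/-- The norm map as a homomorphism. -/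
noncomputable def normHom (H : Subgroup Γ) : V →* V :=
  MonoidHom.mk' (norm ρ H) (norm_mul ρ H)

/-- An element normalising `H` commutes with the norm. -/
theorem act_norm {H K : Subgroup Γ} {g : Γ} (h : ∀ k, k ∈ H ↔ g * k * g⁻¹ ∈ K) (v : V) :
    ρ g (norm ρ H v) = norm ρ K (ρ g v) := by
  letI := Fintype.ofFinite H
  letI := Fintype.ofFinite K
  unfold norm
  rw [map_prod]
  let e : H ≃ K :=
    { toFun := fun k => ⟨g * k * g⁻¹, (h k).1 k.2⟩
      invFun := fun k => ⟨g⁻¹ * k * g, (h _).2 (by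
        rw [show g * (g⁻¹ * k * g) * g⁻¹ = (k : Γ) by group]; exact k.2)⟩
      left_inv := fun k => Subtype.ext (by simp [mul_assoc])
      right_inv := fun k => Subtype.ext (by simp [mul_assoc]) }
  refine Fintype.prod_equiv e _ _ fun k => ?_
  show _ = ρ (g * k * g⁻¹) (ρ g v)
  rw [← act_mul, ← act_mul, show g * (k : Γ) * g⁻¹ * g = g * k by group]

variable {s : ℕ}

theorem eq_one_of_pow_eq_one (hV : ∀ v : V, v ^ s = 1) {n : ℕ} (hn : n.Coprime s) {v : V}
    (h : v ^ n = 1) : v = 1 := by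
  have := pow_gcd_eq_one.2 ⟨h, hV v⟩
  rwa [hn.gcd_eq_one, pow_one] at this

/-- A vector whose stabiliser in the abelian `t`-group `A` has cyclic quotient. -/
theorem exists_max (hV : ∀ v : V, v ^ s = 1) {t : ℕ} [ht : Fact t.Prime] (hts : t.Coprime s)
    (A : Subgroup Γ) (hA : ∀ a ∈ A, ∀ b ∈ A, Commute a b) (W : Subgroup V)
    (hW : ∀ a ∈ A, ∀ w ∈ W, ρ a w ∈ W) (hne : W ≠ ⊥) :
    ∃ v ∈ W, v ≠ 1 ∧ ∀ u ∈ A, ∀ w ∈ A, ρ (u ^ t) v = v → ρ (w ^ t) v = v → ρ u v ≠ v →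
      ∃ i : ℕ, ρ (w * u ^ i) v = v := by
  classical
  obtain ⟨⟨v₀, hv₀⟩, hv₀1⟩ := Subgroup.ne_bot_iff_exists_ne_one.1 hne
  haveI := Fintype.ofFinite V
  obtain ⟨v, hv, hmax⟩ := Finset.exists_max_image
    (Finset.univ.filter fun v : V => v ∈ W ∧ v ≠ 1) (fun v => Nat.card ↥(A ⊓ fixer ρ v))
    ⟨v₀, by simp [hv₀, show v₀ ≠ 1 from fun h => hv₀1 (Subtype.ext h)]⟩
  simp only [Finset.mem_filter, Finset.mem_univ, true_and] at hv hmax
  -- the averages vanish
  have hzero : ∀ x ∈ A, ρ (x ^ t) v = v → ρ x v ≠ v →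
      ∏ i ∈ Finset.range t, ρ (x ^ i) v = 1 := by
    intro x hx hxt hxv
    by_contra hne1
    set e := ∏ i ∈ Finset.range t, ρ (x ^ i) v with he
    have hxe : ρ x e = e := by
      rw [he, map_prod]
      simp only [← act_mul, ← pow_succ']
      have h1 := Finset.prod_range_succ' (fun i => ρ (x ^ i) v) t
      have h2 := Finset.prod_range_succ (fun i => ρ (x ^ i) v) t
      rw [h1, hxt, pow_zero, act_one] at h2
      exact mul_right_cancel h2
    have hlt : A ⊓ fixer ρ v < A ⊓ fixer ρ e := by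
      refine lt_of_le_of_ne (fun h hh => ⟨hh.1, ?_⟩) fun heq => hxv ?_
      · show ρ h e = e
        rw [he, map_prod]
        refine Finset.prod_congr rfl fun i _ => ?_
        rw [← act_mul, ((hA x hx h hh.1).pow_left i).symm.eq, act_mul, hh.2]
      · exact (heq ▸ (show x ∈ A ⊓ fixer ρ e from ⟨hx, hxe⟩)).2
    have hmem : e ∈ W := prod_mem fun i _ => hW _ (pow_mem hx i) v hv.1
    refine (hmax e ⟨hmem, hne1⟩).not_gt ?_
    exact Set.ncard_lt_ncard (s := ((A ⊓ fixer ρ v : Subgroup Γ) : Set Γ))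
      (t := ((A ⊓ fixer ρ e : Subgroup Γ) : Set Γ)) hlt (Set.toFinite _)
  refine ⟨v, hv.1, hv.2, fun u hu w hw hut hwt huv => ?_⟩
  by_contra hno
  push Not at hno
  have hcomm : Commute w u := hA w hw u hu
  have h1 : ∀ j ∈ Finset.range t, ∏ i ∈ Finset.range t, ρ ((w * u ^ j) ^ i) v = 1 := fun j _ => by
    refine hzero _ (mul_mem hw (pow_mem hu j)) ?_ (hno j)
    rw [(hcomm.pow_right j).mul_pow, act_mul, ← pow_mul, mul_comm, pow_mul]
    have : ∀ k : ℕ, ρ ((u ^ t) ^ k) v = v := fun k =>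
      (pow_mem (show u ^ t ∈ fixer ρ v from hut) k :)
    rw [this, hwt]
  have h2 : ∏ j ∈ Finset.range t, ∏ i ∈ Finset.range t, ρ ((w * u ^ j) ^ i) v = 1 :=
    Finset.prod_eq_one h1
  rw [Finset.prod_comm] at h2
  have h3 : ∀ i ∈ Finset.range t, i ≠ 0 → ∏ j ∈ Finset.range t, ρ ((w * u ^ j) ^ i) v = 1 := by
    intro i hi hi0
    have h4 : ∀ j, ρ ((w * u ^ j) ^ i) v = ρ (w ^ i) (ρ ((u ^ i) ^ j) v) := fun j => by
      rw [(hcomm.pow_right j).mul_pow, act_mul, ← pow_mul u j i, ← pow_mul u i j, mul_comm]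
    simp only [h4, ← map_prod]
    rw [hzero _ (pow_mem hu i) ?_ ?_, map_one]
    · rw [← pow_mul, mul_comm, pow_mul]
      exact (pow_mem (show u ^ t ∈ fixer ρ v from hut) i :)
    · intro hfix
      have hcop : i.Coprime t := (ht.out.coprime_iff_not_dvd.2 fun hd =>
        (Nat.le_of_dvd (Nat.pos_of_ne_zero hi0) hd).not_gt (Finset.mem_range.1 hi)).symm
      obtain ⟨m, hm⟩ := Nat.exists_mul_mod_eq_one_of_coprime hcop ht.out.one_lt
      apply huv
      have h5 : u = (u ^ i) ^ m * ((u ^ t) ^ (i * m / t))⁻¹ := by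
        rw [← pow_mul, ← pow_mul, eq_mul_inv_iff_mul_eq, ← pow_succ']
        congr 1
        have := Nat.div_add_mod (i * m) t
        omega
      rw [h5]
      exact mul_mem (pow_mem (show u ^ i ∈ fixer ρ v from hfix) m)
        (inv_mem (pow_mem (show u ^ t ∈ fixer ρ v from hut) _))
  rw [Finset.prod_eq_single 0 h3 (fun h => absurd (Finset.mem_range.2 ht.out.pos) h)] at h2
  simp only [pow_zero, act_one, Finset.prod_const, Finset.card_range] at h2
  exact hv.2 (eq_one_of_pow_eq_one hV hts h2)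

/-- An element whose fixed vectors meet each orbit and which centralises their stabilisers. -/
structure Part (Y : Subgroup Γ) (x : Γ) : Prop where
  prime : (orderOf x).Prime
  coprime : ¬ orderOf x ∣ Nat.card Y
  normal : Y.Normal
  stab : ∀ v, v ≠ 1 → ρ x v = v → ∀ y ∈ Y, ρ y v = v → Commute y x
  orbit : ∀ v, v ≠ 1 → ∃ y ∈ Y, ρ x (ρ y v) = ρ y v

/-- A partitioning element. -/
structure Elem (Y : Subgroup Γ) (x : Γ) : Prop extends Part ρ Y x where
  faith : ∀ y ∈ Y, (∀ v, ρ y v = v) → y = 1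
  moves : ∃ y ∈ Y, ¬ Commute y x

namespace Part

variable {ρ} {Y : Subgroup Γ} {x : Γ} (E : Part ρ Y x)
include E

theorem comm_of_coprime {y : Γ} (hy : y ∈ Y) (h : (x * y) ^ orderOf x = 1) (hc : Commute y x) :
    y = 1 := by
  rw [hc.symm.mul_pow, pow_orderOf_eq_one, one_mul] at h
  have h2 : y ^ Nat.card Y = 1 := congrArg Subtype.val (pow_card_eq_one' (x := (⟨y, hy⟩ : Y)))
  have := pow_gcd_eq_one.2 ⟨h, h2⟩
  rwa [(E.prime.coprime_iff_not_dvd.2 E.coprime).gcd_eq_one, pow_one] at this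

/-- A vector is fixed by only one conjugate. -/
theorem unique {y z : Γ} (hy : y ∈ Y) (hz : z ∈ Y) {v : V} (hv : v ≠ 1)
    (h1 : ρ (y * x * y⁻¹) v = v) (h2 : ρ (z * x * z⁻¹) v = v) :
    y * x * y⁻¹ = z * x * z⁻¹ := by
  haveI := E.normal
  set v' := ρ y⁻¹ v with hv'
  set u := y⁻¹ * z with hu
  have hv1 : v' ≠ 1 := fun h => hv (by
    rw [← act_one ρ v, ← mul_inv_cancel y, act_mul, ← hv', h, map_one])
  have hx : ρ x v' = v' := by
    rw [hv', ← act_mul, show x * y⁻¹ = y⁻¹ * (y * x * y⁻¹) by group, act_mul, h1]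
  have hux : ρ (u * x * u⁻¹) v' = v' := by
    rw [hv', ← act_mul, show u * x * u⁻¹ * y⁻¹ = y⁻¹ * (z * x * z⁻¹) by rw [hu]; group,
      act_mul, h2]
  set w := x⁻¹ * (u * x * u⁻¹) with hw
  have huY : u ∈ Y := mul_mem (inv_mem hy) hz
  have hwY : w ∈ Y := by
    rw [hw, show x⁻¹ * (u * x * u⁻¹) = (x⁻¹ * u * (x⁻¹)⁻¹) * u⁻¹ by group]
    exact mul_mem (Subgroup.Normal.conj_mem inferInstance u huY x⁻¹) (inv_mem huY)
  have hwv : ρ w v' = v' := by
    rw [hw, act_mul, hux, act_inv_of_fix ρ hx]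
  have hxw : x * w = u * x * u⁻¹ := by rw [hw]; group
  have h3 := E.comm_of_coprime hwY (by
    rw [hxw, conj_pow, pow_orderOf_eq_one, mul_one, mul_inv_cancel]) (E.stab v' hv1 hx w hwY hwv)
  rw [h3, mul_one] at hxw
  calc y * x * y⁻¹ = y * (u * x * u⁻¹) * y⁻¹ := by rw [← hxw]
    _ = z * x * z⁻¹ := by rw [hu]; group

open Classical in
/-- The nontrivial vectors are partitioned by the fixed vectors of the conjugates. -/
theorem card_eq :
    Nat.card {v : V // v ≠ 1} =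
      Nat.card {z : Γ // ∃ y ∈ Y, y * x * y⁻¹ = z} * Nat.card {v : V // v ≠ 1 ∧ ρ x v = v} := by
  rw [← Nat.card_prod]
  have hz : ∀ v : {v : V // v ≠ 1}, ∃ y ∈ Y, ρ x (ρ y v.1) = ρ y v.1 := fun v => E.orbit _ v.2
  choose c hc using fun z : {z : Γ // ∃ y ∈ Y, y * x * y⁻¹ = z} => z.2
  refine (Nat.card_congr (Equiv.ofBijective (fun p => (⟨ρ (c p.1) p.2.1, fun h =>
    p.2.2.1 ((ρ (c p.1)).injective (h.trans (map_one _).symm))⟩ : {v : V // v ≠ 1})) ⟨?_, ?_⟩)).symm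
  · rintro ⟨z, v, hv, hxv⟩ ⟨z', v', hv', hxv'⟩ h
    have h0 : ρ (c z) v = ρ (c z') v' := congrArg Subtype.val h
    have hfix : ∀ y : Γ, ∀ w : V, ρ x w = w → ρ (y * x * y⁻¹) (ρ y w) = ρ y w := fun y w hw => by
      rw [← act_mul, inv_mul_cancel_right, act_mul, hw]
    have h1 := E.unique (hc z).1 (hc z').1 (v := ρ (c z) v)
      (fun h => hv ((ρ (c z)).injective (h.trans (map_one _).symm))) (hfix _ _ hxv)
      (h0 ▸ hfix _ _ hxv')
    rw [(hc z).2, (hc z').2] at h1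
    obtain rfl : z = z' := Subtype.ext h1
    obtain rfl : v = v' := (ρ (c z)).injective h0
    rfl
  · rintro ⟨v, hv⟩
    obtain ⟨y, hy, hfix⟩ := E.orbit v hv
    let z : {z : Γ // ∃ y ∈ Y, y * x * y⁻¹ = z} := ⟨y⁻¹ * x * y⁻¹⁻¹, y⁻¹, inv_mem hy, rfl⟩
    have hzv : ρ (z : Γ) v = v := by
      show ρ (y⁻¹ * x * y⁻¹⁻¹) v = v
      rw [inv_inv, act_mul, act_mul, hfix, ← act_mul, inv_mul_cancel, act_one]
    refine ⟨⟨z, ρ (c z)⁻¹ v, fun h => hv ((ρ (c z)⁻¹).injective (h.trans (map_one _).symm)), ?_⟩,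
      Subtype.ext ?_⟩
    · rw [← act_mul, show x * (c z)⁻¹ = (c z)⁻¹ * (c z * x * (c z)⁻¹) by group, (hc z).2, act_mul,
        hzv]
    · show ρ (c z) (ρ (c z)⁻¹ v) = v
      rw [← act_mul, mul_inv_cancel, act_one]

end Part

namespace Elem

variable {ρ} {Y : Subgroup Γ} {x : Γ} (E : Elem ρ Y x)
include E

theorem exists_ne_one : ∃ v : V, v ≠ 1 := by
  obtain ⟨y, hy, hyx⟩ := E.moves
  by_contra h
  push Not at h
  exact hyx (by rw [E.faith y hy fun v => by rw [h v, map_one]]; exact Commute.one_left x)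

theorem comm_of_coprime {y : Γ} (hy : y ∈ Y) (h : (x * y) ^ orderOf x = 1) (hc : Commute y x) :
    y = 1 := E.toPart.comm_of_coprime hy h hc

theorem unique {y z : Γ} (hy : y ∈ Y) (hz : z ∈ Y) {v : V} (hv : v ≠ 1)
    (h1 : ρ (y * x * y⁻¹) v = v) (h2 : ρ (z * x * z⁻¹) v = v) :
    y * x * y⁻¹ = z * x * z⁻¹ := E.toPart.unique hy hz hv h1 h2

theorem exists_fixed : ∃ v : V, v ≠ 1 ∧ ρ x v = v := by
  obtain ⟨v, hv⟩ := E.exists_ne_one
  obtain ⟨y, -, hy⟩ := E.orbit v hv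
  exact ⟨ρ y v, fun h => hv ((ρ y).injective (h.trans (map_one _).symm)), hy⟩

/-- The module is no product of two subgroups invariant under all conjugates. -/
theorem not_decomp {W W' : Subgroup V} (hW : W ≠ ⊥) (hW' : W' ≠ ⊥)
    (hd : ∀ v ∈ W, v ∈ W' → v = 1) (htop : ∀ v, ∃ w ∈ W, ∃ w' ∈ W', v = w * w')
    (hinv : ∀ y ∈ Y, ∀ w ∈ W, ρ (y * x * y⁻¹) w ∈ W)
    (hinv' : ∀ y ∈ Y, ∀ w ∈ W', ρ (y * x * y⁻¹) w ∈ W') : False := by
  have pair : ∀ w ∈ W, ∀ w' ∈ W', w ≠ 1 →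
      ∃ y ∈ Y, ρ (y * x * y⁻¹) w = w ∧ ρ (y * x * y⁻¹) w' = w' := by
    intro w hw w' hw' hw1
    have hne : w * w' ≠ 1 := fun h => hw1 (hd w hw (by
      rw [eq_inv_of_mul_eq_one_left h]; exact inv_mem hw'))
    obtain ⟨y, hy, hfix⟩ := E.orbit _ hne
    refine ⟨y⁻¹, inv_mem hy, ?_⟩
    have h1 : ρ (y⁻¹ * x * y⁻¹⁻¹) (w * w') = w * w' := by
      rw [inv_inv, act_mul, act_mul, hfix, ← act_mul, inv_mul_cancel, act_one]
    rw [map_mul] at h1
    set a := ρ (y⁻¹ * x * y⁻¹⁻¹) w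
    set b := ρ (y⁻¹ * x * y⁻¹⁻¹) w'
    have h2 : a / w = w' / b := by rw [div_eq_div_iff_mul_eq_mul, h1, mul_comm]
    have h3 : a / w = 1 := hd _ (div_mem (hinv _ (inv_mem hy) w hw) hw) (h2 ▸
      div_mem hw' (hinv' _ (inv_mem hy) w' hw'))
    refine ⟨div_eq_one.1 h3, ?_⟩
    rw [h3] at h2
    exact (div_eq_one.1 h2.symm).symm
  obtain ⟨⟨w₀, hw₀⟩, hw₀1⟩ := Subgroup.ne_bot_iff_exists_ne_one.1 hW
  obtain ⟨⟨w₁, hw₁⟩, hw₁1⟩ := Subgroup.ne_bot_iff_exists_ne_one.1 hW'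
  have hw₀1 : w₀ ≠ 1 := fun h => hw₀1 (Subtype.ext h)
  have hw₁1 : w₁ ≠ 1 := fun h => hw₁1 (Subtype.ext h)
  obtain ⟨y₀, hy₀, h0, h1⟩ := pair w₀ hw₀ w₁ hw₁ hw₀1
  have hW'fix : ∀ w' ∈ W', ρ (y₀ * x * y₀⁻¹) w' = w' := by
    intro w' hw'
    obtain ⟨y, hy, ha, hb⟩ := pair w₀ hw₀ w' hw' hw₀1
    rwa [E.unique hy hy₀ hw₀1 ha h0] at hb
  have hWfix : ∀ w ∈ W, ρ (y₀ * x * y₀⁻¹) w = w := by
    intro w hw
    by_cases hw1 : w = 1
    · rw [hw1, map_one]
    obtain ⟨y, hy, ha, hb⟩ := pair w hw w₁ hw₁ hw1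
    rwa [E.unique hy hy₀ hw₁1 hb h1] at ha
  have hall : ∀ v, ρ (y₀ * x * y₀⁻¹) v = v := fun v => by
    obtain ⟨w, hw, w', hw', rfl⟩ := htop v
    rw [map_mul, hWfix w hw, hW'fix w' hw']
  have hone : ∀ y ∈ Y, y * x * y⁻¹ = y₀ * x * y₀⁻¹ := by
    intro y hy
    obtain ⟨v, hv, hxv⟩ := E.exists_fixed
    refine E.unique hy hy₀ (v := ρ y v)
      (fun h => hv ((ρ y).injective (h.trans (map_one _).symm))) ?_ (hall _)
    rw [← act_mul, inv_mul_cancel_right, act_mul, hxv]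
  obtain ⟨y, hy, hyx⟩ := E.moves
  apply hyx
  have := (hone y hy).trans (hone 1 Y.one_mem).symm
  rw [one_mul, inv_one, mul_one, mul_inv_eq_iff_eq_mul] at this
  exact this

/-- Nontrivial elements of an abelian subgroup centralised by all conjugates fix nothing. -/
theorem fix_eq_one (hV : ∀ v : V, v ^ s = 1) {H : Subgroup Γ} (hHY : H ≤ Y) (hne : H ≠ ⊥)
    (hH : (Nat.card H).Coprime s) (hx : ∀ y ∈ Y, ∀ h, h ∈ H ↔ (y * x * y⁻¹) * h * (y * x * y⁻¹)⁻¹ ∈ H)
    {v : V} (hv : ∀ h ∈ H, ρ h v = v) : v = 1 := by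
  classical
  by_contra hv1
  let W : Subgroup V :=
    { carrier := {w | ∀ h ∈ H, ρ h w = w}
      one_mem' := fun h _ => map_one _
      mul_mem' := fun {a b} ha hb h hh => by rw [map_mul, ha h hh, hb h hh]
      inv_mem' := fun {a} ha h hh => by rw [map_inv, ha h hh] }
  let W' : Subgroup V := (normHom ρ H).ker
  obtain ⟨k, hk⟩ : ∃ k : ℕ, ∀ w : V, (w ^ Nat.card H) ^ k = w := by
    rcases Nat.lt_or_ge 1 s with hs | hs
    · obtain ⟨k, hk⟩ := Nat.exists_mul_mod_eq_one_of_coprime hH hs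
      refine ⟨k, fun w => ?_⟩
      rw [← pow_mul, ← Nat.div_add_mod (Nat.card H * k) s, hk.2, pow_add, pow_mul, hV, one_pow,
        one_mul, pow_one]
    · exfalso
      obtain ⟨w, hw⟩ := E.exists_ne_one
      rcases Nat.le_one_iff_eq_zero_or_eq_one.1 hs with rfl | rfl
      · exact hne (Subgroup.eq_bot_of_card_eq H (Nat.coprime_zero_right _ |>.1 hH))
      · exact hw ((pow_one w).symm.trans (hV w))
  refine E.not_decomp (W := W) (W' := W') (fun h => hv1 (by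
      have : v ∈ W := hv
      rwa [h, Subgroup.mem_bot] at this)) ?_ ?_ ?_ ?_ ?_
  · intro h
    refine hne ((Subgroup.eq_bot_iff_forall _).2 fun a ha => E.faith a (hHY ha) fun w => ?_)
    have hmem : w ^ Nat.card H / norm ρ H w ∈ W' := by
      show norm ρ H _ = 1
      have h2 : norm ρ H (norm ρ H w) = norm ρ H w ^ Nat.card H :=
        norm_of_fixed ρ fun g hg => fix_norm ρ hg w
      show normHom ρ H _ = 1
      rw [map_div, map_pow]
      show norm ρ H w ^ _ / norm ρ H (norm ρ H w) = 1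
      rw [h2, div_self']
    rw [h, Subgroup.mem_bot, div_eq_one] at hmem
    rw [← hk w, hmem, map_pow, fix_norm ρ ha]
  · intro w hw hw'
    have h1 : norm ρ H w = 1 := hw'
    rw [norm_of_fixed ρ hw] at h1
    exact eq_one_of_pow_eq_one hV hH h1
  · intro w
    refine ⟨norm ρ H w ^ k, pow_mem (show norm ρ H w ∈ W from fun g hg => fix_norm ρ hg w) k,
      (w ^ Nat.card H / norm ρ H w) ^ k, pow_mem ?_ k, ?_⟩
    · show normHom ρ H _ = 1
      rw [map_div, map_pow]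
      show norm ρ H w ^ _ / norm ρ H (norm ρ H w) = 1
      rw [norm_of_fixed ρ fun g hg => fix_norm ρ hg w, div_self']
    · rw [← mul_pow, mul_div_cancel, hk]
  · intro y hy w hw h hh
    set g := y * x * y⁻¹
    have h1 : g⁻¹ * h * g ∈ H := (hx y hy _).2 (by
      rw [show g * (g⁻¹ * h * g) * g⁻¹ = h by group]; exact hh)
    conv_rhs => rw [← hw _ h1]
    rw [← act_mul, ← act_mul]
    congr 2
    group
  · intro y hy w hw
    show norm ρ H _ = 1
    have h1 : norm ρ H w = 1 := hw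
    rw [← act_norm ρ (hx y hy), h1, map_one]

/-- An abelian subgroup centralised by all conjugates has one subgroup of order `t` at most. -/
theorem omega_of_centralized (hV : ∀ v : V, v ^ s = 1) {t : ℕ} [ht : Fact t.Prime]
    (hts : t.Coprime s) {A : Subgroup Γ} (hAY : A ≤ Y) (hA : ∀ a ∈ A, ∀ b ∈ A, Commute a b)
    (hx : ∀ a ∈ A, ∀ y ∈ Y, Commute (y * x * y⁻¹) a) {u w : Γ} (hu : u ∈ A) (hw : w ∈ A)
    (hut : u ^ t = 1) (hwt : w ^ t = 1) (hu1 : u ≠ 1) : ∃ i : ℕ, w * u ^ i = 1 := by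
  classical
  obtain ⟨v₀, hv₀⟩ := E.exists_ne_one
  obtain ⟨v, -, hv, hprop⟩ := exists_max ρ hV hts A hA ⊤ (fun _ _ _ _ => Subgroup.mem_top _)
    (fun h => hv₀ (by simpa [h] using Subgroup.mem_top v₀))
  have key : ∀ g ∈ A, g ^ t = 1 → ρ g v = v → g = 1 := by
    intro g hg hgt hfix
    by_contra hg1
    refine hv (E.fix_eq_one hV (H := Subgroup.zpowers g) (Subgroup.zpowers_le.2 (hAY hg))
      (fun h => hg1 (Subgroup.zpowers_eq_bot.1 h)) ?_ ?_ (v := v) ?_)
    · rw [Nat.card_zpowers]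
      exact Nat.Coprime.coprime_dvd_left (orderOf_dvd_of_pow_eq_one hgt) hts
    · intro y hy h
      have hcomm : ∀ k ∈ Subgroup.zpowers g, Commute (y * x * y⁻¹) k := by
        rintro k ⟨i, rfl⟩
        exact (hx g hg y hy).zpow_right i
      constructor
      · intro hh
        rwa [(hcomm h hh).eq, mul_inv_cancel_right]
      · intro hh
        have := (hcomm _ hh).eq
        rw [inv_mul_cancel_right] at this
        rwa [← mul_left_cancel this]
    · intro h hh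
      have : h ∈ fixer ρ v := (Subgroup.zpowers_le.2 (show g ∈ fixer ρ v from hfix)) hh
      exact this
  obtain ⟨i, hi⟩ := hprop u hu w hw (by rw [hut, act_one]) (by rw [hwt, act_one])
    fun h => hu1 (key u hu hut h)
  exact ⟨i, key _ (mul_mem hw (pow_mem hu i))
    (by rw [(hA w hw u hu |>.pow_right i).mul_pow, hwt, one_mul, ← pow_mul, mul_comm, pow_mul,
      hut, one_pow]) hi⟩

set_option maxHeartbeats 1000000 in
/-- For `x` of odd order the same holds in an abelian normal subgroup. -/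
theorem omega_of_normal (hodd : Odd (orderOf x)) (hV : ∀ v : V, v ^ s = 1) {t : ℕ}
    [ht : Fact t.Prime] (hts : t.Coprime s) {A : Subgroup Γ} [A.Normal] (hAY : A ≤ Y)
    (hA : ∀ a ∈ A, ∀ b ∈ A, Commute a b) {u w : Γ} (hu : u ∈ A) (hw : w ∈ A)
    (hut : u ^ t = 1) (hwt : w ^ t = 1) (hu1 : u ≠ 1) : ∃ i : ℕ, w * u ^ i = 1 := by
  classical
  haveI := E.normal
  let B : Subgroup Γ :=
    { carrier := {a | a ∈ A ∧ a ^ t = 1}
      one_mem' := ⟨A.one_mem, one_pow t⟩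
      mul_mem' := fun {a b} ha hb => ⟨mul_mem ha.1 hb.1, by
        rw [(hA a ha.1 b hb.1).mul_pow, ha.2, hb.2, one_mul]⟩
      inv_mem' := fun {a} ha => ⟨inv_mem ha.1, by rw [inv_pow, ha.2, inv_one]⟩ }
  have hB : ∀ g : Γ, ∀ a ∈ B, g * a * g⁻¹ ∈ B := fun g a ha =>
    ⟨Subgroup.Normal.conj_mem inferInstance a ha.1 g, by rw [conj_pow, ha.2, mul_one,
      mul_inv_cancel]⟩
  have hBY : B ≤ Y := fun a ha => hAY ha.1
  have hBc : ∀ a ∈ B, ∀ b ∈ B, Commute a b := fun a ha b hb => hA a ha.1 b hb.1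
  by_cases hcent : ∀ a ∈ B, Commute x a
  · refine E.omega_of_centralized hV hts hBY hBc (fun a ha y hy => ?_)
      (show u ∈ B from ⟨hu, hut⟩) (show w ∈ B from ⟨hw, hwt⟩) hut hwt hu1
    have h1 := hcent _ (by simpa using hB y⁻¹ a ha)
    have h2 : y * (x * (y⁻¹ * a * y)) * y⁻¹ = y * (y⁻¹ * a * y * x) * y⁻¹ := by
      rw [show x * (y⁻¹ * a * y) = y⁻¹ * a * y * x by simpa [mul_assoc] using h1.eq]
    show y * x * y⁻¹ * a = a * (y * x * y⁻¹)
    simpa [mul_assoc] using h2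
  push Not at hcent
  obtain ⟨b₀, hb₀, hb₀x⟩ := hcent
  -- nothing is fixed by all of `B`
  have hfree : ∀ v : V, (∀ a ∈ B, ρ a v = v) → v = 1 := by
    intro v hv
    by_contra hv1
    obtain ⟨y, hy, hfix⟩ := E.orbit v hv1
    refine hb₀x (E.stab _ (fun h => hv1 ((ρ y).injective (h.trans (map_one _).symm))) hfix b₀
      (hBY hb₀) ?_).symm
    rw [← act_mul, show b₀ * y = y * (y⁻¹ * b₀ * y) by group, act_mul,
      hv _ (by simpa using hB y⁻¹ b₀ hb₀)]
  let K : V → Subgroup Γ := fun v => B ⊓ fixer ρ v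
  let IsMax : Subgroup Γ → Prop := fun H => H ≤ B ∧ (∃ a ∈ B, a ∉ H) ∧
    ∀ a ∈ B, a ∉ H → ∀ H' : Subgroup Γ, H ≤ H' → a ∈ H' → B ≤ H'
  have hmk : ∀ W : Subgroup V, (∀ a ∈ B, ∀ v ∈ W, ρ a v ∈ W) → W ≠ ⊥ →
      ∃ v ∈ W, v ≠ 1 ∧ IsMax (K v) := by
    intro W hW hne
    obtain ⟨v, hvW, hv, hprop⟩ := exists_max ρ hV hts B hBc W hW hne
    refine ⟨v, hvW, hv, inf_le_left, ?_, fun a ha haK H' hH' haH' b hb => ?_⟩
    · by_contra h
      push Not at h
      exact hv (hfree v fun a ha => (h a ha).2)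
    · obtain ⟨i, hi⟩ := hprop a ha b hb (by rw [ha.2, act_one]) (by rw [hb.2, act_one])
        fun h => haK ⟨ha, h⟩
      have : b * a ^ i ∈ H' := hH' ⟨mul_mem hb (pow_mem ha i), hi⟩
      exact (mul_mem_cancel_right (pow_mem haH' i)).1 this
  have hmax_eq : ∀ H₁ H₂, IsMax H₁ → IsMax H₂ → H₁ ≤ H₂ → H₁ = H₂ := by
    intro H₁ H₂ h₁ h₂ hle
    refine le_antisymm hle fun a ha => ?_
    by_contra hna
    obtain ⟨b, hb, hbn⟩ := h₂.2.1
    exact hbn (h₁.2.2 a (h₂.1 ha) hna H₂ hle ha hb)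
  have hmax_join : ∀ H₁ H₂, IsMax H₁ → IsMax H₂ → H₁ ≠ H₂ → ∀ v : V,
      (∀ a ∈ H₁, ρ a v = v) → (∀ a ∈ H₂, ρ a v = v) → v = 1 := by
    intro H₁ H₂ h₁ h₂ hne v hv₁ hv₂
    obtain ⟨a, ha, han⟩ := Set.not_subset.1 (fun h => hne (hmax_eq H₂ H₁ h₂ h₁ h).symm)
    exact hfree v (h₁.2.2 a (h₂.1 ha) han (fixer ρ v) hv₁ (hv₂ a ha))
  have hcop : ∀ H : Subgroup Γ, H ≤ B → (Nat.card H).Coprime s := fun H hH => by
    haveI := Fact.mk ht.out
    obtain ⟨k, hk⟩ := IsPGroup.iff_card.1 (show IsPGroup t H from fun a => ⟨1, Subtype.ext (by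
      rw [pow_one]; exact (hH a.2).2)⟩)
    rw [hk]; exact hts.pow_left k
  have hconj : ∀ H : Subgroup Γ, IsMax H → ∀ g : Γ,
      IsMax (H.map (MulAut.conj g).toMonoidHom) := by
    intro H hH g
    refine ⟨?_, ?_, ?_⟩
    · rintro _ ⟨a, ha, rfl⟩
      exact hB g a (hH.1 ha)
    · obtain ⟨a, ha, han⟩ := hH.2.1
      refine ⟨g * a * g⁻¹, hB g a ha, ?_⟩
      rintro ⟨b, hb, hbe⟩
      exact han ((MulAut.conj g).injective hbe ▸ hb)
    · intro a ha han H' hle haH' b hb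
      have h1 := hH.2.2 (g⁻¹ * a * g) (by simpa using hB g⁻¹ a ha)
        (fun h => han ⟨_, h, by simp [MulAut.conj_apply, mul_assoc]⟩)
        (H'.comap (MulAut.conj g).toMonoidHom) (fun c hc => hle ⟨c, hc, rfl⟩)
        (by simpa [Subgroup.mem_comap, MulAut.conj_apply, mul_assoc] using haH')
        (show g⁻¹ * b * g ∈ B by simpa using hB g⁻¹ b hb)
      simpa [Subgroup.mem_comap, MulAut.conj_apply, mul_assoc] using h1
  have hmapiff : ∀ (H : Subgroup Γ) (g k : Γ),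
      k ∈ H ↔ g * k * g⁻¹ ∈ H.map (MulAut.conj g).toMonoidHom := fun H g k =>
    (Subgroup.mem_map_iff_mem (f := (MulAut.conj g).toMonoidHom) (MulAut.conj g).injective).symm
  -- two maximal stabilisers
  obtain ⟨v₀, hv₀⟩ := E.exists_ne_one
  obtain ⟨v₁, -, hv₁, hH₁⟩ := hmk ⊤ (fun _ _ _ _ => Subgroup.mem_top _)
    (fun h => hv₀ (by simpa [h] using Subgroup.mem_top v₀))
  set H₁ := K v₁ with hH₁def
  by_cases hne1 : H₁ = ⊥
  · -- then `B` has order `t`
    obtain ⟨a, ha, han⟩ := hH₁.2.1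
    have hle : B ≤ Subgroup.zpowers a := hH₁.2.2 a ha han _ (by rw [hne1]; exact bot_le)
      (Subgroup.mem_zpowers a)
    have hu' := hle (show u ∈ B from ⟨hu, hut⟩)
    have hw' := hle (show w ∈ B from ⟨hw, hwt⟩)
    have hord : orderOf a = t := orderOf_eq_prime ha.2 fun h => han (h ▸ H₁.one_mem)
    have hzu : Subgroup.zpowers u = Subgroup.zpowers a := by
      refine Subgroup.eq_of_le_of_card_ge (Subgroup.zpowers_le.2 hu') ?_
      rw [Nat.card_zpowers, Nat.card_zpowers, hord, orderOf_eq_prime hut hu1]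
    rw [← hzu, ← Subgroup.inv_mem_iff, ← mem_powers_iff_mem_zpowers] at hw'
    obtain ⟨i, hi⟩ := hw'
    exact ⟨i, by rw [show u ^ i = w⁻¹ from hi, mul_inv_cancel]⟩
  exfalso
  let W : Subgroup V := (normHom ρ H₁).ker
  have hWne : W ≠ ⊥ := by
    intro hW
    refine hne1 ((Subgroup.eq_bot_iff_forall _).2 fun a ha => E.faith a (hBY ha.1) fun v => ?_)
    have h0 : normHom ρ H₁ (v ^ Nat.card H₁ / norm ρ H₁ v) = 1 := by
      rw [map_div, map_pow]
      show norm ρ H₁ v ^ _ / norm ρ H₁ (norm ρ H₁ v) = 1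
      rw [norm_of_fixed ρ fun g hg => fix_norm ρ hg v, div_self']
    have h1 : v ^ Nat.card H₁ / norm ρ H₁ v ∈ W := h0
    rw [hW, Subgroup.mem_bot, div_eq_one] at h1
    have h2 : ρ a (v ^ Nat.card H₁) = v ^ Nat.card H₁ := by rw [h1, fix_norm ρ ha]
    rw [map_pow] at h2
    refine div_eq_one.1 (eq_one_of_pow_eq_one hV (hcop _ hH₁.1) ?_)
    rw [div_pow, h2, div_self']
  obtain ⟨v₂, hv₂W, hv₂, hH₂⟩ := hmk W (fun a ha v hv => by
    show norm ρ H₁ _ = 1
    have h1 : norm ρ H₁ v = 1 := hv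
    rw [← act_norm ρ (H := H₁) (fun k => ?_), h1, map_one]
    constructor
    · intro hk
      rwa [(hBc a ha k (hH₁.1 hk)).eq, mul_inv_cancel_right]
    · intro hk
      have h3 := (hBc a ha _ (hH₁.1 hk)).eq
      rw [inv_mul_cancel_right] at h3
      rwa [← mul_left_cancel h3]) hWne
  set H₂ := K v₂ with hH₂def
  have hne : H₁ ≠ H₂ := fun h => hv₂ (eq_one_of_pow_eq_one hV (hcop _ hH₁.1) (by
    rw [← norm_of_fixed ρ (fun g hg => (h ▸ hg : g ∈ H₂).2)]
    exact hv₂W))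
  -- move the sum to a vector fixed by `x`
  have hne12 : v₁ * v₂ ≠ 1 := fun h => by
    refine hv₁ (hmax_join H₁ H₂ hH₁ hH₂ hne v₁ (fun a ha => ha.2) fun a ha => ?_)
    rw [eq_inv_of_mul_eq_one_left h, map_inv, ha.2]
  obtain ⟨y, hy, hfix⟩ := E.orbit _ hne12
  set L₁ := H₁.map (MulAut.conj y).toMonoidHom with hL₁def
  set L₂ := H₂.map (MulAut.conj y).toMonoidHom with hL₂def
  set z₁ := ρ y v₁ with hz₁def
  set z₂ := ρ y v₂ with hz₂def
  have hL₁ : IsMax L₁ := hconj H₁ hH₁ y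
  have hL₂ : IsMax L₂ := hconj H₂ hH₂ y
  have hLne : L₁ ≠ L₂ := fun h => hne (Subgroup.map_injective (MulAut.conj y).injective h)
  have hz : ∀ (H : Subgroup Γ) (v : V), (∀ a ∈ H, ρ a v = v) →
      ∀ a ∈ H.map (MulAut.conj y).toMonoidHom, ρ a (ρ y v) = ρ y v := by
    rintro H v hv _ ⟨a, ha, rfl⟩
    show ρ (y * a * y⁻¹) (ρ y v) = ρ y v
    rw [← act_mul, inv_mul_cancel_right, act_mul, hv a ha]
  have hz₁ := hz H₁ v₁ fun a ha => ha.2
  have hz₂ := hz H₂ v₂ fun a ha => ha.2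
  have hz₁1 : z₁ ≠ 1 := fun h => hv₁ ((ρ y).injective (h.trans (map_one _).symm))
  have hz₂1 : z₂ ≠ 1 := fun h => hv₂ ((ρ y).injective (h.trans (map_one _).symm))
  have hsum : ρ x (z₁ * z₂) = z₁ * z₂ := by rw [hz₁def, hz₂def, ← map_mul, hfix]
  have hnzero : ∀ (L L' : Subgroup Γ), IsMax L → IsMax L' → L ≠ L' → ∀ z : V,
      (∀ a ∈ L', ρ a z = z) → norm ρ L z = 1 := by
    intro L L' hL hL' hLL z hz
    refine hmax_join L L' hL hL' hLL _ (fun a ha => fix_norm ρ ha z) fun a ha => ?_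
    rw [act_norm ρ (K := L) (fun k => ?_), hz a ha]
    constructor
    · intro hk
      rwa [(hBc a (hL'.1 ha) k (hL.1 hk)).eq, mul_inv_cancel_right]
    · intro hk
      have h3 := (hBc a (hL'.1 ha) _ (hL.1 hk)).eq
      rw [inv_mul_cancel_right] at h3
      rwa [← mul_left_cancel h3]
  -- `x` permutes the two stabilisers
  have hperm : ∀ L z L' z', IsMax L → IsMax L' → L ≠ L' → (∀ a ∈ L, ρ a z = z) →
      (∀ a ∈ L', ρ a z' = z') → z ≠ 1 → ρ x (z * z') = z * z' →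
      (L.map (MulAut.conj x).toMonoidHom = L ∧ ρ x z = z) ∨
        L.map (MulAut.conj x).toMonoidHom = L' := by
    intro L z L' z' hL hL' hLL hzL hzL' hz0 hxz
    have key : ρ x (norm ρ L (z * z')) = norm ρ (L.map (MulAut.conj x).toMonoidHom) (z * z') := by
      rw [act_norm ρ (hmapiff L x), hxz]
    rw [norm_mul, norm_mul, norm_of_fixed ρ hzL, hnzero L L' hL hL' hLL z' hzL', mul_one,
      map_pow] at key
    set L'' := L.map (MulAut.conj x).toMonoidHom
    have hL'' : IsMax L'' := hconj L hL x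
    by_cases h1 : L'' = L
    · refine Or.inl ⟨h1, ?_⟩
      rw [h1, norm_of_fixed ρ hzL, hnzero L L' hL hL' hLL z' hzL', mul_one] at key
      exact div_eq_one.1 (eq_one_of_pow_eq_one hV (hcop _ hL.1) (by rw [div_pow, key, div_self']))
    by_cases h2 : L'' = L'
    · exact Or.inr h2
    exfalso
    rw [hnzero L'' L hL'' hL h1 z hzL, hnzero L'' L' hL'' hL' h2 z' hzL', mul_one] at key
    exact hz0 ((ρ x).injective (by
      rw [map_one]; exact eq_one_of_pow_eq_one hV (hcop _ hL.1) key))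
  have hfix₁ : L₁.map (MulAut.conj x).toMonoidHom = L₁ ∧ ρ x z₁ = z₁ := by
    refine (hperm L₁ z₁ L₂ z₂ hL₁ hL₂ hLne hz₁ hz₂ hz₁1 hsum).resolve_right fun h12 => ?_
    have h21 : L₂.map (MulAut.conj x).toMonoidHom = L₁ := by
      rcases hperm L₂ z₂ L₁ z₁ hL₂ hL₁ hLne.symm hz₂ hz₁ hz₂1 (by
        rwa [mul_comm]) with ⟨h, -⟩ | h
      · exact absurd (Subgroup.map_injective (MulAut.conj x).injective (h12.trans h.symm)) hLne
      · exact h
    have hiter : ∀ n : ℕ, L₁.map (MulAut.conj (x ^ n)).toMonoidHom =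
        if Even n then L₁ else L₂ := by
      intro n
      induction n with
      | zero =>
        rw [pow_zero, map_one, if_pos Even.zero]
        exact Subgroup.map_id L₁
      | succ n ih =>
        rw [pow_succ', map_mul, show (MulAut.conj x * MulAut.conj (x ^ n)).toMonoidHom =
            (MulAut.conj x).toMonoidHom.comp (MulAut.conj (x ^ n)).toMonoidHom from rfl,
          ← Subgroup.map_map, ih]
        by_cases hn : Even n
        · rw [if_pos hn, h12, if_neg (by simpa [Nat.even_add_one] using hn)]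
        · rw [if_neg hn, h21, if_pos (by simpa [Nat.even_add_one] using hn)]
    have h0 := hiter (orderOf x)
    rw [pow_orderOf_eq_one, map_one, if_neg (Nat.not_even_iff_odd.2 hodd)] at h0
    exact hLne ((Subgroup.map_id L₁).symm.trans h0)
  have hfix₂ : ρ x z₂ = z₂ := by
    rw [map_mul, hfix₁.2] at hsum
    exact mul_left_cancel hsum
  -- so `x` centralises both, hence `B`
  have hc₁ : ∀ a ∈ L₁, a ∈ Subgroup.centralizer ({x} : Set Γ) := fun a ha =>
    Subgroup.mem_centralizer_singleton_iff.2 (E.stab z₁ hz₁1 hfix₁.2 a (hBY (hL₁.1 ha)) (hz₁ a ha))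
  obtain ⟨a, ha, han⟩ := Set.not_subset.1 (fun h => hLne (hmax_eq L₂ L₁ hL₂ hL₁ h).symm)
  refine hb₀x (Subgroup.mem_centralizer_singleton_iff.1 (hL₁.2.2 a (hL₂.1 ha) han
    (Subgroup.centralizer ({x} : Set Γ)) hc₁ ?_ hb₀)).symm
  exact Subgroup.mem_centralizer_singleton_iff.2 (E.stab z₂ hz₂1 hfix₂ a (hBY (hL₂.1 ha)) (hz₂ a ha))

end Elem

end Cfsg.Agent.CharGraph.Palfy
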