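import Cfsg.Agent.CharGraph.Palfy.Base
import Cfsg.Agent.CharGraph.Palfy.Setting
import Cfsg.Agent.CharExt.InvCoprime

/-!
# Tools for a minimal normal `p`-subgroup
-/

set_option linter.unusedSectionVars false
set_option linter.style.haveILetI false

namespace Cfsg.Agent.CharGraph.Palfy

open Cfsg Subgroup
open Cfsg.Agent.Char (irr_charDegree_spec)

universe u

section Hall

variable {H : Type u} [Group H] [Finite H] {Y : Subgroup H} {a b : H} {q r : ℕ}

/-- A central element of order `q` lies in each subgroup of index prime to `q`. -/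
theorem Hall.mem_of_not_dvd (D : Hall Y a b q r) (hc : ∀ h, Commute h a) (F : Subgroup H)
    (hF : ¬ q ∣ F.index) : a ∈ F := by
  haveI := Fact.mk D.hq
  obtain ⟨x, hx⟩ := exists_prime_orderOf_dvd_card' q ((D.hq.dvd_mul.1
    (F.card_mul_index.symm ▸ D.oa ▸ orderOf_dvd_natCard a)).resolve_right hF)
  rw [← Subgroup.orderOf_coe] at hx
  obtain ⟨y, -, -, k, hk⟩ := D.exists_conj (Subgroup.mem_top a) (Subgroup.mem_top b)
    (Subgroup.mem_top (x : H)) hx
  rw [((hc y).pow_right k).eq, mul_inv_cancel_right] at hk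
  have hqk : ¬ q ∣ k := fun hd => by
    rw [hk, orderOf_dvd_iff_pow_eq_one.1 (D.oa ▸ hd), orderOf_one] at hx
    exact D.hq.ne_one hx.symm
  obtain ⟨m, hm⟩ := Nat.exists_mul_mod_eq_one_of_coprime
    ((D.hq.coprime_iff_not_dvd.2 hqk).symm) D.hq.one_lt
  have h3 : (a ^ k) ^ m = a := by rw [← pow_mul, ← pow_mod_orderOf, D.oa, hm.2, pow_one]
  exact h3 ▸ pow_mem (hk ▸ x.2 : a ^ k ∈ F) m

/-- An element acting trivially is central. -/
theorem Hall.central_of_fix (D : Hall Y a b q r)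
    (hgen : ∀ N : Subgroup H, N.Normal → N.index.Prime → ¬ (a ∈ N ∧ b ∈ N)) [Group.IsSolvable H]
    {V : Type*} [CommGroup V] [Finite V] [Nontrivial V] {σ : H →* MulAut V}
    (ha : ∀ v, σ a v = v) (Pa : Part σ Y a) (Pb : Part σ Y b) (h : H) : Commute h a := by
  classical
  haveI := D.normal
  obtain ⟨v, hv⟩ := exists_ne (1 : V)
  obtain ⟨y, -, hby⟩ := Pb.orbit v hv
  set v' := σ y v with hv'
  have hv'1 : v' ≠ 1 := fun h => hv ((σ y).injective (h.trans (map_one _).symm))
  have hconj : ∀ g : H, g * a * g⁻¹ ∈ Subgroup.zpowers a := by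
    intro g
    have hfix : σ (g * a * g⁻¹) v' = v' := by
      rw [act_mul, act_mul, ha, ← act_mul, mul_inv_cancel, act_one]
    have ho : orderOf (g * a * g⁻¹) = q :=
      ((SemiconjBy.conj_mk g a).orderOf_eq _).symm.trans D.oa
    obtain ⟨y', hy', hy'v, k, hk⟩ := D.exists_conj (K := fixer σ v') (ha v') hby
      (show g * a * g⁻¹ ∈ fixer σ v' from hfix) ho
    have hc := Pa.stab v' hv'1 (ha v') y' hy' hy'v
    rw [hk, (hc.pow_right k).eq, mul_inv_cancel_right]
    exact pow_mem (Subgroup.mem_zpowers a) k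
  haveI : (Subgroup.zpowers a).Normal := by
    refine ⟨fun x hx g => ?_⟩
    obtain ⟨i, rfl⟩ := hx
    show g * a ^ i * g⁻¹ ∈ Subgroup.zpowers a
    rw [← conj_zpow]
    exact Subgroup.zpow_mem _ (hconj g) i
  set C := Subgroup.centralizer ((Subgroup.zpowers a : Subgroup H) : Set H) with hC
  have hC' : ∀ z, Commute z a → z ∈ C := fun z hz => Subgroup.mem_centralizer_iff.2 fun x hx => by
    obtain ⟨i, rfl⟩ := hx
    exact (hz.zpow_right i).eq.symm
  have htop : C = ⊤ := by
    by_contra hne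
    obtain ⟨N, hN, hle, hNp⟩ := exists_prime_index C hne
    exact hgen N hN hNp ⟨hle (hC' a (Commute.refl a)), hle (hC' b D.comm.symm)⟩
  exact (Subgroup.mem_centralizer_iff.1 (htop ▸ Subgroup.mem_top h : h ∈ C) a
    (Subgroup.mem_zpowers a)).symm

end Hall

/-- The exponents in two equal partition counts. -/
theorem no_counts {p : ℕ} (hp : 2 ≤ p) {n m u d w : ℕ} (hu : 0 < u) (hum : u < m) (hwd : w < d)
    (hmd : m < d) (h1 : n * (p ^ u - 1) + 1 = p ^ m) (h2 : n * (p ^ w - 1) + 1 = p ^ d) :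
    False := by
  have hz : ∀ k, ((p ^ k - 1 : ℕ) : ℤ) = (p : ℤ) ^ k - 1 := fun k => by
    rw [Nat.cast_sub (Nat.one_le_pow _ _ (by omega))]; push_cast; ring
  have e1 : (n : ℤ) * ((p : ℤ) ^ u - 1) + 1 = (p : ℤ) ^ m := by rw [← hz]; exact_mod_cast h1
  have e2 : (n : ℤ) * ((p : ℤ) ^ w - 1) + 1 = (p : ℤ) ^ d := by rw [← hz]; exact_mod_cast h2
  have e3 : ((p : ℤ) ^ d - 1) * ((p : ℤ) ^ u - 1) = ((p : ℤ) ^ m - 1) * ((p : ℤ) ^ w - 1) := by
    rw [← e1, ← e2]; ring
  have hp' : (2 : ℤ) ≤ p := by exact_mod_cast hp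
  have hnd : ∀ k, ¬ (p : ℤ) ^ (k + 1) ∣ (p : ℤ) ^ k := by
    intro k h
    have h' : p ^ (k + 1) ∣ p ^ k := by exact_mod_cast h
    have := Nat.le_of_dvd (pow_pos (by omega) k) h'
    have := Nat.pow_lt_pow_right (by omega : 1 < p) (by omega : k < k + 1)
    omega
  have hd : ∀ {i j : ℕ}, i ≤ j → (p : ℤ) ^ i ∣ (p : ℤ) ^ j := fun h => pow_dvd_pow _ h
  rcases lt_trichotomy w u with hlt | rfl | hgt
  · refine hnd w ?_
    have e : (p : ℤ) ^ w =
        (p : ℤ) ^ d + (p : ℤ) ^ u + (p : ℤ) ^ m * (p : ℤ) ^ w - (p : ℤ) ^ d * (p : ℤ) ^ u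
          - (p : ℤ) ^ m := by nlinarith [e3]
    rw [e]
    refine dvd_sub (dvd_sub (dvd_add (dvd_add (hd (by omega)) (hd (by omega))) ?_) ?_) (hd (by omega))
    · exact dvd_mul_of_dvd_left (hd (by omega)) _
    · exact dvd_mul_of_dvd_left (hd (by omega)) _
  · have h3 : (p : ℤ) ^ w - 1 ≠ 0 := by
      have : (p : ℤ) ^ 1 ≤ (p : ℤ) ^ w := pow_le_pow_right₀ (by omega) hu
      rw [pow_one] at this
      omega
    have h4 := mul_right_cancel₀ h3 e3
    have h5 : p ^ d = p ^ m := by exact_mod_cast (by linarith : (p : ℤ) ^ d = (p : ℤ) ^ m)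
    have := Nat.pow_right_injective hp h5
    omega
  · refine hnd u ?_
    have e : (p : ℤ) ^ u =
        (p : ℤ) ^ d * (p : ℤ) ^ u + (p : ℤ) ^ m + (p : ℤ) ^ w - (p : ℤ) ^ m * (p : ℤ) ^ w
          - (p : ℤ) ^ d := by nlinarith [e3]
    rw [e]
    refine dvd_sub (dvd_sub (dvd_add (dvd_add ?_ (hd (by omega))) (hd (by omega))) ?_) (hd (by omega))
    · exact dvd_mul_of_dvd_left (hd (by omega)) _
    · exact dvd_mul_of_dvd_left (hd (by omega)) _

/-- Counting the nontrivial elements of a subgroup. -/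
theorem card_ne_one {V : Type*} [Group V] [Finite V] (W : Subgroup V) :
    Nat.card {v : V // v ≠ 1 ∧ v ∈ W} + 1 = Nat.card W := by
  classical
  rw [← Finite.card_option]
  refine Nat.card_congr
    { toFun := fun o => o.elim 1 fun v => ⟨v.1, v.2.2⟩
      invFun := fun w => if h : (w : V) = 1 then none else some ⟨w, h, w.2⟩
      left_inv := fun o => by
        cases o with
        | none => simp
        | some v => simp [v.2.1]
      right_inv := fun w => by
        by_cases h : (w : V) = 1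
        · simp [h]; exact (Subtype.ext h.symm)
        · simp [h] }

variable {G : Type u} [Group G] [Finite G]

/-- The image of the inertia group of a character of a normal Hall subgroup. -/
theorem hall_data (P : Subgroup G) [P.Normal] [Fintype P] (hcop : P.index.Coprime (Nat.card P))
    {θ : P → ℂ} (hθ : IsIrrCharacter P θ) {ℓ : ℕ}
    (h : ∀ χ : IrrCharacter G, classInner (fun n : P => (χ : G → ℂ) n) θ ≠ 0 →
      ¬ ℓ ∣ charDegree (χ : G → ℂ)) :
    ¬ ℓ ∣ ((CharExt.inertia P θ).map (QuotientGroup.mk' P)).index ∧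
      ∀ β : IrrCharacter ((CharExt.inertia P θ).map (QuotientGroup.mk' P)),
        ¬ ℓ ∣ charDegree (β : (CharExt.inertia P θ).map (QuotientGroup.mk' P) → ℂ) := by
  classical
  set T := CharExt.inertia P θ with hT
  have hPT : P ≤ T := CharExt.le_inertia P (Char.irr_isClassFunction hθ)
  haveI : (P.subgroupOf T).Normal := inferInstance
  let e := Subgroup.subgroupOfEquivOfLe hPT
  have hθ' : IsIrrCharacter (P.subgroupOf T) (fun x => θ (e x)) :=
    CharInd.irr_comp_surjective e.toMonoidHom e.surjective hθ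
  obtain ⟨ξ, hξ, hext⟩ := exists_extension_coprime (P.subgroupOf T) hθ'
    (fun g n => congrFun (CharExt.mem_inertia.1 g.2) (e n)) (by
      rw [Nat.card_congr e.toEquiv]
      exact hcop.coprime_dvd_left (Subgroup.relIndex_dvd_index_of_normal P T))
  obtain ⟨h1, h2⟩ := not_dvd_over P T hPT hθ
    (fun g => ⟨fun h n => congrFun h n, fun h => funext h⟩) hξ
    (fun n => hext ⟨⟨(n : G), hPT n.2⟩, n.2⟩) h
    ((QuotientGroup.mk' P).subgroupMap T) ((QuotientGroup.mk' P).subgroupMap_surjective T)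
    (fun n => Subtype.ext ((QuotientGroup.eq_one_iff (n : G)).2 n.2))
  refine ⟨fun hd => h1 ?_, h2⟩
  rwa [Subgroup.index_map_eq T (QuotientGroup.mk'_surjective P)
    (by rwa [QuotientGroup.ker_mk'])] at hd

/-- The fixer in a quotient is the image of the fixer. -/
theorem fixer_lift (P : Subgroup G) [P.Normal] {V : Type*} [CommGroup V] [Finite V]
    (φ : G →* MulAut V) (h : P ≤ φ.ker) (v : V) :
    fixer (QuotientGroup.lift P φ h) v = (fixer φ v).map (QuotientGroup.mk' P) := by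
  ext x
  constructor
  · intro hx
    obtain ⟨g, rfl⟩ := QuotientGroup.mk'_surjective P x
    exact ⟨g, hx, rfl⟩
  · rintro ⟨g, hg, rfl⟩
    exact hg

/-- The inertia group of a linear character is its fixer. -/
theorem inertia_eq_fixer (P : Subgroup G) [P.Normal] (l : P →* ℂˣ) :
    CharExt.inertia P (fun n => (l n : ℂ)) = fixer (dualAct P) l := by
  ext g
  rw [mem_fixer_dual]
  exact ⟨fun h n => congrFun h n, fun h => funext h⟩

/-- A normal `s`-subgroup meets the centraliser of any `s`-subgroup. -/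
theorem exists_fixed_of_pgroup {s : ℕ} [hs : Fact s.Prime] (M : Subgroup G) [M.Normal]
    (hM : IsPGroup s M) (hne : M ≠ ⊥) (T : Subgroup G) (hT : IsPGroup s T) :
    ∃ x ∈ M, x ≠ 1 ∧ ∀ t ∈ T, Commute t x := by
  letI : MulAction T M :=
    MulAction.compHom M ((MulAut.conjNormal : G →* MulAut M).comp T.subtype)
  have hd : s ∣ Nat.card M := by
    obtain ⟨n, hn⟩ := IsPGroup.iff_card.1 hM
    rcases n.eq_zero_or_pos with rfl | hn0
    · exact absurd (Subgroup.card_eq_one.1 (by simpa using hn)) hne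
    · rw [hn]; exact dvd_pow_self _ hn0.ne'
  obtain ⟨x, hx, hx1⟩ := hT.exists_fixed_point_of_prime_dvd_card_of_fixed_point M hd
    (a := (1 : M)) (fun t => map_one (MulAut.conjNormal ((t : T) : G) : MulAut M))
  exact ⟨x, x.2, fun h => hx1 (Subtype.ext h.symm),
    fun t ht => mul_inv_eq_iff_eq_mul.1 (congrArg Subtype.val (hx ⟨t, ht⟩))⟩

end Cfsg.Agent.CharGraph.Palfy
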