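import Cfsg.Agent.CharGraph.Palfy.Module

/-!
# A quaternion pair centralised by a partitioning element is impossible
-/

set_option linter.unusedSectionVars false

namespace Cfsg.Agent.CharGraph.Palfy

variable {Γ V : Type*} [Group Γ] [Finite Γ] [CommGroup V] [Finite V] {ρ : Γ →* MulAut V}
  {Y : Subgroup Γ} {x : Γ}

/-- Two elements with square `c` and commutator `c`, `c` an involution, are not both centralised by
all conjugates of a partitioning element. -/
theorem Elem.not_quaternion (E : Elem ρ Y x) {s : ℕ} [Fact s.Prime] (hs2 : s ≠ 2)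
    (hV : ∀ v : V, v ^ s = 1) {i j c : Γ} (hi : i ∈ Y) (hii : i * i = c) (hjj : j * j = c)
    (hc2 : c * c = 1) (hc1 : c ≠ 1) (hij : i * j = c * (j * i))
    (hxi : ∀ y ∈ Y, Commute (y * x * y⁻¹) i) (hxj : ∀ y ∈ Y, Commute (y * x * y⁻¹) j) : False := by
  classical
  have hs : s.Prime := Fact.out
  have hcY : c ∈ Y := hii ▸ mul_mem hi hi
  have hcop : (2 : ℕ).Coprime s := (Nat.coprime_primes Nat.prime_two hs).2 (Ne.symm hs2)
  -- `c` inverts
  have hinv : ∀ v : V, ρ c v = v⁻¹ := by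
    intro v
    have hord : orderOf c = 2 := orderOf_eq_prime (by rw [pow_two, hc2]) hc1
    have hcomm : ∀ y ∈ Y, Commute (y * x * y⁻¹) c := fun y hy =>
      hii ▸ (hxi y hy).mul_right (hxi y hy)
    refine eq_inv_of_mul_eq_one_left (E.fix_eq_one hV (H := Subgroup.zpowers c)
      (Subgroup.zpowers_le.2 hcY) (fun h => hc1 (Subgroup.zpowers_eq_bot.1 h))
      (by rw [Nat.card_zpowers, hord]; exact hcop) ?_ ?_)
    · intro y hy h
      have hk : ∀ k ∈ Subgroup.zpowers c, Commute (y * x * y⁻¹) k := by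
        rintro k ⟨n, rfl⟩
        exact (hcomm y hy).zpow_right n
      constructor
      · intro hh
        rwa [(hk h hh).eq, mul_inv_cancel_right]
      · intro hh
        have := (hk _ hh).eq
        rw [inv_mul_cancel_right] at this
        rwa [← mul_left_cancel this]
    · intro h hh
      refine (Subgroup.zpowers_le.2 (show c ∈ fixer ρ (ρ c v * v) from ?_) hh :)
      show ρ c (ρ c v * v) = _
      rw [map_mul, ← act_mul, hc2, act_one, mul_comm]
  obtain ⟨α, β, hαβ⟩ := Nat.sq_add_sq_modEq s (s - 1)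
  have hneg : ∀ v : V, (v⁻¹) ^ (α ^ 2 + β ^ 2) = v := fun v => by
    have h1 : (α ^ 2 + β ^ 2 + 1) % s = 0 := by
      rw [Nat.add_mod, hαβ.2.2, ← Nat.add_mod, Nat.sub_add_cancel hs.one_lt.le, Nat.mod_self]
    obtain ⟨k, hk⟩ := Nat.dvd_of_mod_eq_zero h1
    have h2 : v ^ (α ^ 2 + β ^ 2) * v = 1 := by rw [← pow_succ, hk, pow_mul, hV, one_pow]
    rw [inv_pow, inv_eq_iff_mul_eq_one.2]
    exact h2
  let n : V →* V :=
    { toFun := fun v => ρ i v ^ α * ρ j v ^ β
      map_one' := by simp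
      map_mul' := fun v w => by simp only [map_mul, mul_pow]; exact mul_mul_mul_comm _ _ _ _ }
  have hanti : ∀ v : V, ρ (i * j) v * ρ (j * i) v = 1 := fun v => by
    rw [hij, act_mul, hinv, inv_mul_cancel]
  have hn2 : ∀ v, n (n v) = v := by
    intro v
    show ρ i (ρ i v ^ α * ρ j v ^ β) ^ α * ρ j (ρ i v ^ α * ρ j v ^ β) ^ β = v
    simp only [map_mul (ρ i), map_mul (ρ j), map_pow, ← act_mul, hii, hjj, hinv]
    have h := hanti v
    set P := ρ (i * j) v with hP
    set Q := ρ (j * i) v with hQ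
    calc (v⁻¹ ^ α * P ^ β) ^ α * (Q ^ α * v⁻¹ ^ β) ^ β
        = v⁻¹ ^ (α ^ 2 + β ^ 2) * (P * Q) ^ (α * β) := by
          simp only [mul_pow, ← pow_mul, pow_add, sq]
          rw [mul_comm β α]
          ac_rfl
      _ = v := by rw [hneg, h, one_pow, mul_one]
  have hcommx : ∀ y ∈ Y, ∀ v, n (ρ (y * x * y⁻¹) v) = ρ (y * x * y⁻¹) (n v) := by
    intro y hy v
    show ρ i _ ^ α * ρ j _ ^ β = ρ _ (ρ i v ^ α * ρ j v ^ β)
    rw [← act_mul, ← act_mul, ← (hxi y hy).eq, ← (hxj y hy).eq, act_mul ρ (y * x * y⁻¹) i,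
      act_mul ρ (y * x * y⁻¹) j,
      map_mul (ρ (y * x * y⁻¹)), map_pow, map_pow]
  have hsdvd : ¬ (s ∣ α ∧ s ∣ β) := by
    rintro ⟨⟨a, rfl⟩, ⟨b, rfl⟩⟩
    have h1 := hαβ.2.2
    rw [Nat.ModEq] at h1
    rw [show (s * a) ^ 2 + (s * b) ^ 2 = s * (s * a ^ 2 + s * b ^ 2) by ring, Nat.mul_mod_right,
      Nat.mod_eq_of_lt (Nat.sub_lt hs.pos one_pos)] at h1
    have := hs.two_le
    omega
  have hnoscal : ∀ k : ℤ, ¬ (∀ v, n v = v ^ k) := by
    intro k hk
    -- `n` then commutes with `i` and `j`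
    have key : ∀ g : Γ, ∀ v, n (ρ g v) = ρ g (n v) := fun g v => by
      rw [hk, hk, map_zpow]
    obtain ⟨v, hv⟩ := E.exists_ne_one
    apply hv
    have hz : ∀ e : ℕ, ¬ s ∣ e → (ρ (i * j) v) ^ e = (ρ (j * i) v) ^ e → v = 1 := by
      intro e he heq
      have h1 : (ρ (i * j) v * ρ (i * j) v) ^ e = 1 := by
        rw [mul_pow]
        nth_rw 2 [heq]
        rw [← mul_pow, hanti, one_pow]
      have hcope : e.Coprime s := ((hs.coprime_iff_not_dvd).2 he).symm
      have h2 := eq_one_of_pow_eq_one hV hcope h1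
      rw [← pow_two] at h2
      have h3 := eq_one_of_pow_eq_one hV hcop h2
      exact (ρ (i * j)).injective (h3.trans (map_one _).symm)
    by_cases hβ : s ∣ β
    · have hα : ¬ s ∣ α := fun h => hsdvd ⟨h, hβ⟩
      have h := key j v
      change ρ i (ρ j v) ^ α * ρ j (ρ j v) ^ β = ρ j (ρ i v ^ α * ρ j v ^ β) at h
      rw [map_mul (ρ j), map_pow, map_pow, ← act_mul, ← act_mul, ← act_mul] at h
      exact hz α hα (mul_right_cancel h)
    · have h := key i v
      change ρ i (ρ i v) ^ α * ρ j (ρ i v) ^ β = ρ i (ρ i v ^ α * ρ j v ^ β) at h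
      rw [map_mul (ρ i), map_pow, map_pow, ← act_mul, ← act_mul, ← act_mul] at h
      exact hz β hβ (mul_left_cancel h).symm
  let W : Subgroup V :=
    { carrier := {v | n v = v}
      one_mem' := map_one n
      mul_mem' := fun {a b} (ha : n a = a) (hb : n b = b) => show n (a * b) = _ by
        rw [map_mul, ha, hb]
      inv_mem' := fun {a} (ha : n a = a) => show n a⁻¹ = _ by rw [map_inv, ha] }
  let W' : Subgroup V :=
    { carrier := {v | n v = v⁻¹}
      one_mem' := show n 1 = _ by rw [map_one, inv_one]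
      mul_mem' := fun {a b} (ha : n a = a⁻¹) (hb : n b = b⁻¹) => show n (a * b) = _ by
        rw [map_mul, ha, hb, mul_inv]
      inv_mem' := fun {a} (ha : n a = a⁻¹) => show n a⁻¹ = _ by rw [map_inv, ha] }
  obtain ⟨m, hm⟩ : ∃ m : ℕ, ∀ v : V, (v ^ 2) ^ m = v := by
    obtain ⟨m, hm⟩ := Nat.exists_mul_mod_eq_one_of_coprime hcop hs.one_lt
    refine ⟨m, fun v => ?_⟩
    rw [← pow_mul, ← Nat.div_add_mod (2 * m) s, hm.2, pow_add, pow_mul, hV, one_pow, one_mul,
      pow_one]
  have hmemW : ∀ v, v * n v ∈ W := fun v => show n (v * n v) = _ by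
    rw [map_mul, hn2, mul_comm]
  have hmemW' : ∀ v, v / n v ∈ W' := fun v => show n (v / n v) = _ by
    rw [map_div, hn2, inv_div]
  refine E.not_decomp (W := W) (W' := W') (fun h => hnoscal (-1) fun v => ?_)
    (fun h => hnoscal 1 fun v => ?_) ?_ ?_ ?_ ?_
  · have := hmemW v
    rw [h, Subgroup.mem_bot] at this
    rw [zpow_neg_one]
    exact (inv_eq_of_mul_eq_one_right this).symm
  · have := hmemW' v
    rw [h, Subgroup.mem_bot, div_eq_one] at this
    rw [zpow_one]
    exact this.symm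
  · intro v (hv : n v = v) (hv' : n v = v⁻¹)
    refine eq_one_of_pow_eq_one hV hcop ?_
    rw [pow_two]
    exact mul_eq_one_iff_eq_inv.2 (hv.symm.trans hv')
  · intro v
    refine ⟨(v * n v) ^ m, pow_mem (hmemW v) m, (v / n v) ^ m, pow_mem (hmemW' v) m, ?_⟩
    rw [← mul_pow, mul_mul_div_cancel, ← pow_two, hm]
  · intro y hy v (hv : n v = v)
    show n _ = _
    rw [hcommx y hy, hv]
  · intro y hy v (hv : n v = v⁻¹)
    show n _ = _
    rw [hcommx y hy, hv, map_inv]

end Cfsg.Agent.CharGraph.Palfy
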