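import Cfsg.Agent.CharGraph.Palfy.CaseOneMain
import Cfsg.Agent.CharGraph.Palfy.CaseTwo

/-!
# Pálfy's condition on three primes
-/

set_option linter.unusedSectionVars false
set_option linter.style.haveILetI false

namespace Cfsg.Agent.CharGraph.Palfy

open Cfsg Subgroup
open Cfsg.Agent.Char (irr_charDegree_spec)
open scoped commutatorElement

universe u

variable {G : Type u} [Group G] [Finite G] [Group.IsSolvable G]

/-- If `p` divides no degree modulo the minimal normal subgroup `M`, it divides every degree of a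
character nontrivial on `M`. -/
theorem dvd_of_drop (M : Subgroup G) [M.Normal] {p : ℕ} [Fact p.Prime]
    (hmin : ∀ N : Subgroup G, N.Normal → N ≤ M → N = ⊥ ∨ N = M)
    (hcomm : ∀ x ∈ M, ∀ y ∈ M, Commute x y)
    (hdrop : ∀ β : IrrCharacter (G ⧸ M), ¬ p ∣ charDegree (β : G ⧸ M → ℂ))
    (hdeg : ∃ χ : IrrCharacter G, p ∣ charDegree (χ : G → ℂ)) (χ : IrrCharacter G)
    (hχ : ∃ m ∈ M, (χ : G → ℂ) m ≠ (χ : G → ℂ) 1) : p ∣ charDegree (χ : G → ℂ) := by
  classical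
  letI := Fintype.ofFinite G
  obtain ⟨P⟩ : Nonempty (Sylow p G) := inferInstance
  set π := QuotientGroup.mk' M
  have hπs : Function.Surjective π := QuotientGroup.mk'_surjective M
  set S := P.mapSurjective hπs with hS
  obtain ⟨hSn, hSc⟩ := sylow_normal_of_not_dvd hdrop S
  set K := (S : Subgroup (G ⧸ M)).comap π with hK
  haveI : K.Normal := hSn.comap π
  have hPK : (P : Subgroup G) ≤ K := Subgroup.map_le_iff_le_comap.1 le_rfl
  have hMK : M ≤ K := QuotientGroup.le_comap_mk' M _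
  have hle : ⁅K, K⁆ ≤ M := Subgroup.commutator_le.2 fun x hx y hy => by
    rw [← QuotientGroup.eq_one_iff]
    show π ⁅x, y⁆ = 1
    rw [map_commutatorElement]
    exact commutatorElement_eq_one_iff_commute.2 (hSc _ hx _ hy)
  have hKM : ⁅K, K⁆ = M := (hmin _ inferInstance hle).resolve_left fun h => by
    obtain ⟨χ₀, hχ₀⟩ := hdeg
    refine P.not_dvd_index (hχ₀.trans ((degree_dvd_index K (fun x hx y hy => ?_) χ₀).trans
      (Subgroup.index_dvd_of_le hPK)))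
    exact (Subgroup.mem_centralizer_iff.1 ((Subgroup.commutator_eq_bot_iff_le_centralizer.1 h) hx)
      y hy).symm
  by_contra hd
  letI := Fintype.ofFinite K
  obtain ⟨ψ, hψd, hψ⟩ := BlkChar.exists_constituent_not_dvd (p := p)
    (Char.isCharacter_restrict (Char.isCharacter_of_irr χ.2) K) (by
      show ¬ p ∣ charDegree (fun k : K => (χ : G → ℂ) k)
      exact hd)
  -- the constituent is linear
  haveI : (M.subgroupOf K).Normal := inferInstance
  have hψ1 : (ψ : K → ℂ) 1 = 1 := by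
    have h1 := degree_dvd_index (M.subgroupOf K) (fun x hx y hy =>
      Subtype.ext (hcomm (x : G) (Subgroup.mem_subgroupOf.1 hx) y (Subgroup.mem_subgroupOf.1 hy)).eq) ψ
    have h2 : M.relIndex K = Nat.card S := by
      have h3 := Subgroup.relIndex_mul_relIndex (⊥ : Subgroup G) M K bot_le hMK
      rw [Subgroup.relIndex_bot_left, Subgroup.relIndex_bot_left, Cores.card_comap_mk_eq] at h3
      exact Nat.eq_of_mul_eq_mul_left Nat.card_pos h3
    obtain ⟨n, hn⟩ := IsPGroup.iff_card.1 S.2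
    rw [show (M.subgroupOf K).index = p ^ n from h2.trans hn] at h1
    obtain ⟨j, -, hj⟩ := (Nat.dvd_prime_pow (Fact.out : p.Prime)).1 h1
    rcases j.eq_zero_or_pos with rfl | hj0
    · rw [(irr_charDegree_spec ψ.2).2, hj, pow_zero, Nat.cast_one]
    · exact absurd (hj ▸ dvd_pow_self p hj0.ne') hψd
  have hψM : ∀ (k : K), (k : G) ∈ M → (ψ : K → ℂ) k = 1 := by
    intro k hk
    rw [← hKM, ← Subgroup.map_subtype_commutator] at hk
    obtain ⟨k', hk', e⟩ := hk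
    obtain rfl : k' = k := Subtype.ext e
    exact Char.linear_eq_one_of_mem_commutator (Char.isCharacter_of_irr ψ.2) hψ1 hk'
  obtain ⟨e, -, -, hres, hdeg'⟩ := CharExt.clifford_data K χ.2 ψ.2 hψ
  obtain ⟨m, hm, hmne⟩ := hχ
  apply hmne
  have h4 := congrFun hres ⟨m, hMK hm⟩
  simp only [Pi.smul_apply, Finset.sum_apply, smul_eq_mul] at h4
  rw [h4, hdeg', hψ1, mul_one, ← CharExt.card_conjClass]
  congr 1
  rw [Finset.sum_congr rfl (g := fun _ => (1 : ℂ)) fun φ hφ => show φ ⟨m, hMK hm⟩ = (1 : ℂ) by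
    obtain ⟨g, rfl⟩ := (CharInd.mem_conjClass K).1 hφ
    rw [CharInd.conjChar_apply]
    exact hψM _ (Subgroup.Normal.conj_mem inferInstance m hm g)]
  simp

/-- Some character is nontrivial on two normal subgroups with trivial intersection. -/
theorem exists_ne_on_both (M N : Subgroup G) [M.Normal] [N.Normal]
    (hM : M ≠ ⊥) (hN : N ≠ ⊥) (hMc : ∀ x ∈ M, ∀ y ∈ M, Commute x y)
    (hNc : ∀ x ∈ N, ∀ y ∈ N, Commute x y) (hd : M ⊓ N = ⊥) :
    ∃ χ : IrrCharacter G, (∃ m ∈ M, (χ : G → ℂ) m ≠ (χ : G → ℂ) 1) ∧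
      ∃ m ∈ N, (χ : G → ℂ) m ≠ (χ : G → ℂ) 1 := by
  classical
  letI := Fintype.ofFinite G
  set J := M ⊔ N with hJ
  have hMN : ∀ x ∈ M, ∀ y ∈ N, Commute x y := fun x hx y hy =>
    Subgroup.commute_of_normal_of_disjoint _ _ inferInstance inferInstance
      (disjoint_iff.2 hd) x y hx hy
  have hJc : ∀ x ∈ J, ∀ y ∈ J, Commute x y := by
    intro x hx y hy
    obtain ⟨a, ha, b, hb, rfl⟩ := Subgroup.mem_sup_of_normal_left.1 hx
    obtain ⟨c, hc, d, hd, rfl⟩ := Subgroup.mem_sup_of_normal_left.1 hy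
    exact ((hMc a ha c hc).mul_left (hMN c hc b hb).symm).mul_right
      ((hMN a ha d hd).mul_left (hNc b hb d hd))
  letI : CommGroup J :=
    { (inferInstance : Group J) with mul_comm := fun a b => Subtype.ext (hJc a a.2 b b.2) }
  have sep : ∀ {L : Subgroup G}, L ≠ ⊥ → L ≤ J → ∃ f : J →* ℂˣ, ∃ x : J, (x : G) ∈ L ∧ f x ≠ 1 := by
    intro L hL hle
    obtain ⟨⟨x, hx⟩, hx1⟩ := Subgroup.ne_bot_iff_exists_ne_one.1 hL
    obtain ⟨f, hf⟩ := CommGroup.exists_apply_ne_one_of_hasEnoughRootsOfUnity J ℂ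
      (a := ⟨x, hle hx⟩) (fun h => hx1 (Subtype.ext (congrArg (fun z : J => (z : G)) h)))
    exact ⟨f, _, hx, hf⟩
  obtain ⟨f, x, hx, hfx⟩ := sep hM le_sup_left
  obtain ⟨g, y, hy, hgy⟩ := sep hN le_sup_right
  obtain ⟨μ, ⟨a, ha, hμa⟩, b, hb, hμb⟩ : ∃ μ : J →* ℂˣ, (∃ a : J, (a : G) ∈ M ∧ μ a ≠ 1) ∧
      ∃ b : J, (b : G) ∈ N ∧ μ b ≠ 1 := by
    by_cases hf : ∃ b : J, (b : G) ∈ N ∧ f b ≠ 1
    · exact ⟨f, ⟨x, hx, hfx⟩, hf⟩
    by_cases hg : ∃ a : J, (a : G) ∈ M ∧ g a ≠ 1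
    · exact ⟨g, hg, y, hy, hgy⟩
    push Not at hf hg
    exact ⟨f * g, ⟨x, hx, by rw [MonoidHom.mul_apply, hg x hx, mul_one]; exact hfx⟩,
      y, hy, by rw [MonoidHom.mul_apply, hf y hy, one_mul]; exact hgy⟩
  letI := Fintype.ofFinite J
  obtain ⟨χ, hχ⟩ := exists_irr_over J ⟨_, Char.isIrrCharacter_monoidHom μ⟩
  have key : ∀ (L : Subgroup G) (hLJ : L ≤ J), (∃ a : J, (a : G) ∈ L ∧ μ a ≠ 1) →
      ∃ m ∈ L, (χ : G → ℂ) m ≠ (χ : G → ℂ) 1 := by
    rintro L hLJ ⟨a, ha, hμa⟩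
    letI := Fintype.ofFinite L
    refine exists_ne_of_over L (l := μ.comp (Subgroup.inclusion hLJ))
      (fun h => hμa ((congrArg μ (Subtype.ext rfl : a = Subgroup.inclusion hLJ ⟨a, ha⟩)).trans
        (DFunLike.congr_fun h (⟨(a : G), ha⟩ : L)))) χ ?_
    exact CharExt.inner_ne_zero_trans (Subgroup.inclusion hLJ)
      (Char.isCharacter_restrict (Char.isCharacter_of_irr χ.2) J)
      ⟨_, Char.isIrrCharacter_monoidHom μ⟩ ⟨_, Char.isIrrCharacter_monoidHom _⟩ (by convert hχ)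
      (fun h => one_ne_zero ((Char.classInner_irr_self
        (Char.isIrrCharacter_monoidHom (μ.comp (Subgroup.inclusion hLJ)))).symm.trans h))
  exact ⟨χ, key M le_sup_left ⟨a, ha, hμa⟩, key N le_sup_right ⟨b, hb, hμb⟩⟩

/-- If `p` divides no degree modulo two normal subgroups meeting trivially, none at all. -/
theorem not_dvd_of_two (M N : Subgroup G) [M.Normal] [N.Normal] (hd : M ⊓ N = ⊥) {p : ℕ}
    [Fact p.Prime] (hM : ∀ β : IrrCharacter (G ⧸ M), ¬ p ∣ charDegree (β : G ⧸ M → ℂ))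
    (hN : ∀ β : IrrCharacter (G ⧸ N), ¬ p ∣ charDegree (β : G ⧸ N → ℂ)) (χ : IrrCharacter G) :
    ¬ p ∣ charDegree (χ : G → ℂ) := by
  classical
  obtain ⟨P⟩ : Nonempty (Sylow p G) := inferInstance
  have hπM := QuotientGroup.mk'_surjective M
  have hπN := QuotientGroup.mk'_surjective N
  obtain ⟨hMn, hMc⟩ := sylow_normal_of_not_dvd hM (P.mapSurjective hπM)
  obtain ⟨hNn, hNc⟩ := sylow_normal_of_not_dvd hN (P.mapSurjective hπN)
  set J := ((P.mapSurjective hπM : Sylow p (G ⧸ M)) : Subgroup (G ⧸ M)).comap (QuotientGroup.mk' M) ⊓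
    ((P.mapSurjective hπN : Sylow p (G ⧸ N)) : Subgroup (G ⧸ N)).comap (QuotientGroup.mk' N) with hJ
  haveI : J.Normal := by
    haveI := hMn.comap (QuotientGroup.mk' M)
    haveI := hNn.comap (QuotientGroup.mk' N)
    exact inferInstance
  have hPJ : (P : Subgroup G) ≤ J :=
    le_inf (Subgroup.map_le_iff_le_comap.1 le_rfl) (Subgroup.map_le_iff_le_comap.1 le_rfl)
  have hone : ∀ g, (QuotientGroup.mk g : G ⧸ M) = 1 → (QuotientGroup.mk g : G ⧸ N) = 1 → g = 1 :=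
    fun g h h' => Subgroup.mem_bot.1
      (hd ▸ ⟨(QuotientGroup.eq_one_iff g).1 h, (QuotientGroup.eq_one_iff g).1 h'⟩)
  have hJp : IsPGroup p J := by
    intro g
    obtain ⟨j, hj⟩ := (P.mapSurjective hπM).2 ⟨_, g.2.1⟩
    obtain ⟨k, hk⟩ := (P.mapSurjective hπN).2 ⟨_, g.2.2⟩
    refine ⟨j + k, Subtype.ext (hone _ ?_ ?_)⟩
    · rw [Subgroup.coe_pow, QuotientGroup.mk_pow, pow_add, pow_mul,
        show (QuotientGroup.mk (g : G) : G ⧸ M) ^ p ^ j = 1 from congrArg Subtype.val hj, one_pow]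
    · rw [Subgroup.coe_pow, QuotientGroup.mk_pow, pow_add, mul_comm, pow_mul,
        show (QuotientGroup.mk (g : G) : G ⧸ N) ^ p ^ k = 1 from congrArg Subtype.val hk, one_pow]
  have hJP : J = (P : Subgroup G) := P.3 hJp hPJ
  intro hdvd
  refine P.not_dvd_index (hJP ▸ hdvd.trans (degree_dvd_index J (fun x hx y hy => ?_) χ))
  refine commutatorElement_eq_one_iff_commute.1 (hone _ ?_ ?_)
  · show QuotientGroup.mk' M ⁅x, y⁆ = 1
    rw [map_commutatorElement]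
    exact commutatorElement_eq_one_iff_commute.2 (hMc _ hx.1 _ hy.1)
  · show QuotientGroup.mk' N ⁅x, y⁆ = 1
    rw [map_commutatorElement]
    exact commutatorElement_eq_one_iff_commute.2 (hNc _ hx.2 _ hy.2)

/-- The case of `p` dividing no degree modulo `M`. -/
theorem false_of_drop (M : Subgroup G) [M.Normal] (hne : M ≠ ⊥)
    (hmin : ∀ N : Subgroup G, N.Normal → N ≤ M → N = ⊥ ∨ N = M)
    {p q r : ℕ} (hp : p.Prime) (hq : q.Prime) (hr : r.Prime) (npq : p ≠ q) (nqr : q ≠ r)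
    (npr : p ≠ r)
    (hdrop : ∀ β : IrrCharacter (G ⧸ M), ¬ p ∣ charDegree (β : G ⧸ M → ℂ))
    (hpd : ∃ χ : IrrCharacter G, p ∣ charDegree (χ : G → ℂ))
    (hqd : ∃ χ : IrrCharacter G, q ∣ charDegree (χ : G → ℂ))
    (hrd : ∃ χ : IrrCharacter G, r ∣ charDegree (χ : G → ℂ))
    (hpq : ∀ χ : IrrCharacter G, ¬ p * q ∣ charDegree (χ : G → ℂ))
    (hqr : ∀ χ : IrrCharacter G, ¬ q * r ∣ charDegree (χ : G → ℂ))
    (hpr : ∀ χ : IrrCharacter G, ¬ p * r ∣ charDegree (χ : G → ℂ))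
    (hnormal : ∀ N : Subgroup G, N.Normal → N ≠ ⊤ → ∃ ℓ, (ℓ = p ∨ ℓ = q ∨ ℓ = r) ∧
      ∀ ψ : IrrCharacter N, ¬ ℓ ∣ charDegree (ψ : N → ℂ))
    (hquot : ∀ (N : Subgroup G) [N.Normal], N ≠ ⊥ → ∃ ℓ, (ℓ = p ∨ ℓ = q ∨ ℓ = r) ∧
      ∀ β : IrrCharacter (G ⧸ N), ¬ ℓ ∣ charDegree (β : G ⧸ N → ℂ)) : False := by
  classical
  haveI := Fact.mk hp
  obtain ⟨hcomm, s, hs, hexp, -⟩ := MinNormal.elementary_abelian' M hne hmin
  have hMc : ∀ x ∈ M, ∀ y ∈ M, Commute x y := fun x hx y hy =>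
    congrArg Subtype.val (hcomm.1.comm ⟨x, hx⟩ ⟨y, hy⟩)
  have hover := dvd_of_drop M hmin hMc hdrop hpd
  have hunique : ∀ N : Subgroup G, N.Normal → N ≠ ⊥ → M ≤ N := by
    intro N hN hNne
    haveI := hN
    refine (MinNormal.le_or_inf_eq_bot M hmin N).resolve_right fun hMN => ?_
    obtain ⟨M₂, hM₂, hM₂ne, hM₂N, hM₂min⟩ := MinNormal.exists_minimal_normal_le N hNne
    haveI := hM₂
    have hd : M ⊓ M₂ = ⊥ := le_bot_iff.1 (hMN ▸ inf_le_inf_left M hM₂N)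
    obtain ⟨ℓ, hℓ, hℓd⟩ := hquot M₂ hM₂ne
    by_cases hℓp : ℓ = p
    · subst hℓp
      obtain ⟨χ, hχ⟩ := hpd
      exact not_dvd_of_two M M₂ hd hdrop hℓd χ hχ
    · obtain ⟨hc₂, -⟩ := MinNormal.elementary_abelian' M₂ hM₂ne hM₂min
      have hc₂' : ∀ x ∈ M₂, ∀ y ∈ M₂, Commute x y := fun x hx y hy =>
        congrArg Subtype.val (hc₂.1.comm ⟨x, hx⟩ ⟨y, hy⟩)
      obtain ⟨χ, hχ1, hχ2⟩ := exists_ne_on_both M M₂ hne hM₂ne hMc hc₂' hd
      rcases hℓ.resolve_left hℓp with rfl | rfl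
      · haveI := Fact.mk hq
        exact hpq χ (((Nat.coprime_primes hp hq).2 npq).mul_dvd_of_dvd_of_dvd (hover χ hχ1)
          (dvd_of_drop M₂ hM₂min hc₂' hℓd hqd χ hχ2))
      · haveI := Fact.mk hr
        exact hpr χ (((Nat.coprime_primes hp hr).2 npr).mul_dvd_of_dvd_of_dvd (hover χ hχ1)
          (dvd_of_drop M₂ hM₂min hc₂' hℓd hrd χ hχ2))
  have B : Base M s p q r := ⟨hs, hp, hq, hr, npq, nqr, npr, inferInstance, hne, hunique, hMc, hexp,
    hover, hpq, hqr, hpr, hpd, hqd, hrd, hnormal⟩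
  by_cases hsp : s = p
  · subst hsp
    exact B.case_one hdrop
  · exact B.case_two hsp hdrop

end Cfsg.Agent.CharGraph.Palfy

namespace Cfsg.Agent.CharGraph

open Cfsg
open Cfsg.Agent.Char (irr_charDegree_spec)

universe u

/-- **Pálfy's condition**: no three primes in the degrees of a solvable group are pairwise
non-adjacent. -/
theorem three_primes : ∀ {G : Type u} [Group G] [Finite G] [Group.IsSolvable G] {p q r : ℕ},
    p.Prime → q.Prime → r.Prime → p ≠ q → q ≠ r → p ≠ r →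
    (∃ χ : IrrCharacter G, p ∣ charDegree (χ : G → ℂ)) →
    (∃ χ : IrrCharacter G, q ∣ charDegree (χ : G → ℂ)) →
    (∃ χ : IrrCharacter G, r ∣ charDegree (χ : G → ℂ)) →
    (∀ χ : IrrCharacter G, ¬ p * q ∣ charDegree (χ : G → ℂ)) →
    (∀ χ : IrrCharacter G, ¬ q * r ∣ charDegree (χ : G → ℂ)) →
    (∀ χ : IrrCharacter G, ¬ p * r ∣ charDegree (χ : G → ℂ)) → False := by
  intro G _ _ _
  induction hn : Nat.card G using Nat.strong_induction_on generalizing G with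
  | _ n ih =>
  intro p q r hp hq hr npq nqr npr hpd hqd hrd hpq hqr hpr
  subst hn
  classical
  letI := Fintype.ofFinite G
  haveI : Nontrivial G := by
    obtain ⟨χ, hχ⟩ := hpd
    exact Finite.one_lt_card_iff_nontrivial.1 (hp.one_lt.trans_le
      (Nat.le_of_dvd Nat.card_pos (hχ.trans (BlkChar.irr_charDegree_dvd_card χ))))
  have hnormal : ∀ N : Subgroup G, N.Normal → N ≠ ⊤ → ∃ ℓ, (ℓ = p ∨ ℓ = q ∨ ℓ = r) ∧
      ∀ ψ : IrrCharacter N, ¬ ℓ ∣ charDegree (ψ : N → ℂ) := by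
    intro N hN hne
    by_contra hc
    push Not at hc
    haveI := hN
    letI := Fintype.ofFinite N
    have hlt : Nat.card N < Nat.card G := lt_of_le_of_ne (Subgroup.card_le_card_group N)
      fun h => hne (Subgroup.eq_top_of_card_eq N h)
    have hno : ∀ {d : ℕ}, (∀ χ : IrrCharacter G, ¬ d ∣ charDegree (χ : G → ℂ)) →
        ∀ ψ : IrrCharacter N, ¬ d ∣ charDegree (ψ : N → ℂ) := fun h ψ hd => by
      obtain ⟨χ, hχ⟩ := exists_irr_over N ψ
      exact h χ (hd.trans (CharDeep.degree_ratio_dvd_index N χ.2 ψ.2 hχ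
        (irr_charDegree_spec χ.2).2 (irr_charDegree_spec ψ.2).2).1)
    exact ih _ hlt rfl hp hq hr npq nqr npr (hc p (Or.inl rfl)) (hc q (Or.inr (Or.inl rfl)))
      (hc r (Or.inr (Or.inr rfl))) (hno hpq) (hno hqr) (hno hpr)
  have hquot : ∀ (N : Subgroup G) [N.Normal], N ≠ ⊥ → ∃ ℓ, (ℓ = p ∨ ℓ = q ∨ ℓ = r) ∧
      ∀ β : IrrCharacter (G ⧸ N), ¬ ℓ ∣ charDegree (β : G ⧸ N → ℂ) := by
    intro N _ hne
    by_contra hc
    push Not at hc
    have hlt : Nat.card (G ⧸ N) < Nat.card G := by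
      conv_rhs => rw [Subgroup.card_eq_card_quotient_mul_card_subgroup N]
      exact lt_mul_of_one_lt_right Nat.card_pos (N.one_lt_card_iff_ne_bot.2 hne)
    have hno : ∀ {d : ℕ}, (∀ χ : IrrCharacter G, ¬ d ∣ charDegree (χ : G → ℂ)) →
        ∀ β : IrrCharacter (G ⧸ N), ¬ d ∣ charDegree (β : G ⧸ N → ℂ) := fun h β hd =>
      h (inflate N β) (by rwa [charDegree_inflate])
    exact ih _ hlt rfl hp hq hr npq nqr npr (hc p (Or.inl rfl)) (hc q (Or.inr (Or.inl rfl)))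
      (hc r (Or.inr (Or.inr rfl))) (hno hpq) (hno hqr) (hno hpr)
  obtain ⟨M, hMn, hMne, hmin, -⟩ := MinNormal.exists_elementary_abelian (G := G)
  haveI := hMn
  obtain ⟨ℓ, hℓ, hd⟩ := hquot M hMne
  rcases hℓ with rfl | rfl | rfl
  · exact Palfy.false_of_drop M hMne hmin hp hq hr npq nqr npr hd hpd hqd hrd hpq hqr hpr hnormal
      hquot
  · exact Palfy.false_of_drop M hMne hmin hq hp hr npq.symm npr nqr hd hqd hpd hrd
      (fun χ h => hpq χ (by rwa [mul_comm] at h)) hpr hqr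
      (fun N hN hne => by obtain ⟨e, he, h⟩ := hnormal N hN hne; exact ⟨e, by tauto, h⟩)
      (fun N _ hne => by obtain ⟨e, he, h⟩ := hquot N hne; exact ⟨e, by tauto, h⟩)
  · exact Palfy.false_of_drop M hMne hmin hr hq hp nqr.symm npq.symm npr.symm hd hrd hqd hpd
      (fun χ h => hqr χ (by rwa [mul_comm] at h)) (fun χ h => hpq χ (by rwa [mul_comm] at h))
      (fun χ h => hpr χ (by rwa [mul_comm] at h))
      (fun N hN hne => by obtain ⟨e, he, h⟩ := hnormal N hN hne; exact ⟨e, by tauto, h⟩)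
      (fun N _ hne => by obtain ⟨e, he, h⟩ := hquot N hne; exact ⟨e, by tauto, h⟩)

end Cfsg.Agent.CharGraph
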