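import Cfsg.Agent.CharGraph.Palfy.Quaternion
import Cfsg.Agent.PGroup.Frattini
import Cfsg.Agent.Cores.Basic

/-!
# The structure forced by two partitioning elements

Normal abelian `t`-subgroups are cyclic and central, and a minimal noncentral normal subgroup is
centralised by one of the two elements, which is impossible.
-/

set_option linter.unusedSectionVars false
set_option linter.style.haveILetI false

namespace Cfsg.Agent.CharGraph.Palfy

open Subgroup
open scoped commutatorElement

variable {Γ V : Type*} [Group Γ] [Finite Γ] [CommGroup V] [Finite V]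

/-- Two commuting partitioning elements of different order with the side conditions. -/
structure Dat (ρ : Γ →* MulAut V) (s : ℕ) (Y : Subgroup Γ) (a b : Γ) : Prop where
  prime : s.Prime
  exp : ∀ v : V, v ^ s = 1
  ea : Elem ρ Y a
  eb : Elem ρ Y b
  ne : orderOf a ≠ orderOf b
  orbit : ∀ v : V, v ≠ 1 → ∃ y ∈ Y, ρ a (ρ y v) = ρ y v ∧ ρ b (ρ y v) = ρ y v
  /-- a cyclic central subgroup is centralised by one of them -/
  centre : ∀ Z : Subgroup Γ, Z.Normal → Z ≤ Y → IsCyclic Z → (∀ z ∈ Z, ∀ y ∈ Y, Commute y z) →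
    (∀ z ∈ Z, Commute a z) ∨ ∀ z ∈ Z, Commute b z
  /-- a homomorphism to units that both fix is trivial -/
  hom : ∀ (n : ℕ) (f : Y →* (ZMod n)ˣ),
    (∀ y z : Y, (z : Γ) = a * y * a⁻¹ → f z = f y) →
    (∀ y z : Y, (z : Γ) = b * y * b⁻¹ → f z = f y) → f = 1
  core : ∀ T : Subgroup Γ, T.Normal → T ≤ Y → IsPGroup s T → T = ⊥

variable {ρ : Γ →* MulAut V} {s : ℕ} {Y : Subgroup Γ} {a b : Γ}

/-- Coprime stability for one element. -/
theorem Elem.stability {x : Γ} (E : Elem ρ Y x) {u c : Γ} (hc : c ∈ Y)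
    (h : x * u * x⁻¹ = u * c) (hxc : Commute x c) : c = 1 := by
  have key : ∀ n : ℕ, x ^ n * u * (x ^ n)⁻¹ = u * c ^ n := by
    intro n
    induction n with
    | zero => simp
    | succ n ih =>
      have h1 : x * c ^ n * x⁻¹ = c ^ n := by rw [(hxc.pow_right n).eq, mul_inv_cancel_right]
      calc x ^ (n + 1) * u * (x ^ (n + 1))⁻¹ = x * (x ^ n * u * (x ^ n)⁻¹) * x⁻¹ := by
            rw [pow_succ']; group
        _ = (x * u * x⁻¹) * (x * c ^ n * x⁻¹) := by rw [ih]; group
        _ = u * c ^ (n + 1) := by rw [h, h1, pow_succ', mul_assoc]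
  have h1 := key (orderOf x)
  rw [pow_orderOf_eq_one, one_mul, inv_one, mul_one, left_eq_mul] at h1
  exact E.comm_of_coprime hc (by rw [hxc.mul_pow, pow_orderOf_eq_one, one_mul, h1]) hxc.symm

/-- `D` is a minimal noncentral normal subgroup inside `Y`. -/
structure MinNC (Y D : Subgroup Γ) : Prop where
  normal : D.Normal
  le : D ≤ Y
  noncentral : ¬ D ≤ Subgroup.centralizer (Y : Set Γ)
  min : ∀ K : Subgroup Γ, K.Normal → K ≤ D → K ≠ D → K ≤ Subgroup.centralizer (Y : Set Γ)

theorem mem_centralizer_iff' {z : Γ} :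
    z ∈ Subgroup.centralizer (Y : Set Γ) ↔ ∀ y ∈ Y, Commute y z :=
  Subgroup.mem_centralizer_iff.trans Iff.rfl

namespace Dat

variable (D : Dat ρ s Y a b)
include D

theorem normalY : Y.Normal := D.ea.normal

theorem odd_one : Odd (orderOf a) ∨ Odd (orderOf b) := by
  rcases D.ea.prime.eq_two_or_odd' with h | h
  · exact Or.inr (D.eb.prime.odd_of_ne_two fun h' => D.ne (h.trans h'.symm))
  · exact Or.inl h

theorem prime_of_subgroup {t : ℕ} [ht : Fact t.Prime] {T : Subgroup Γ} (hTn : T.Normal)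
    (hTY : T ≤ Y) (hT : IsPGroup t T) (hne : T ≠ ⊥) : t.Coprime s := by
  refine (Nat.coprime_primes ht.out D.prime).2 fun h => hne ?_
  subst h
  exact D.core T hTn hTY hT

/-- Normal abelian subgroups of prime power order are cyclic. -/
theorem cyclic {t : ℕ} [ht : Fact t.Prime] {A : Subgroup Γ} (hAn : A.Normal) (hAY : A ≤ Y)
    (hA : ∀ x ∈ A, ∀ y ∈ A, Commute x y) (hAp : IsPGroup t A) : IsCyclic A := by
  classical
  rcases eq_or_ne A ⊥ with rfl | hne
  · infer_instance
  haveI := hAn
  have hts := D.prime_of_subgroup hAn hAY hAp hne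
  refine PGroup.isCyclic_of_card_omega_le hAp ⟨⟨fun x y => Subtype.ext (hA x x.2 y y.2)⟩⟩ ?_
  by_cases h1 : ∀ u : A, u ^ t = 1 → u = 1
  · have : Subsingleton {x : A // x ^ t = 1} := ⟨fun x y => Subtype.ext ((h1 _ x.2).trans (h1 _ y.2).symm)⟩
    exact (Finite.card_le_one_iff_subsingleton.2 this).trans ht.out.one_lt.le
  push Not at h1
  obtain ⟨u, hut, hu1⟩ := h1
  have key : ∀ w : {x : A // x ^ t = 1}, ∃ i : Fin t, ((w : A) : Γ) * (u : Γ) ^ (i : ℕ) = 1 := by
    intro w
    have hut' : (u : Γ) ^ t = 1 := congrArg Subtype.val hut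
    have hwt' : ((w : A) : Γ) ^ t = 1 := congrArg Subtype.val w.2
    have hu1' : (u : Γ) ≠ 1 := fun h => hu1 (Subtype.ext h)
    obtain ⟨i, hi⟩ : ∃ i : ℕ, ((w : A) : Γ) * (u : Γ) ^ i = 1 := by
      rcases D.odd_one with ho | ho
      · exact D.ea.omega_of_normal ho D.exp hts hAY hA u.2 (w : A).2 hut' hwt' hu1'
      · exact D.eb.omega_of_normal ho D.exp hts hAY hA u.2 (w : A).2 hut' hwt' hu1'
    refine ⟨⟨i % t, Nat.mod_lt _ ht.out.pos⟩, ?_⟩
    show _ * (u : Γ) ^ (i % t) = 1
    rw [← Nat.mod_add_div i t, pow_add, pow_mul, hut', one_pow, mul_one] at hi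
    exact hi
  choose f hf using key
  refine (Nat.card_le_card_of_injective f fun x y h => ?_).trans (le_of_eq (Nat.card_fin t))
  have hx := hf x
  rw [h] at hx
  exact Subtype.ext (Subtype.ext (mul_right_cancel (hx.trans (hf y).symm)))

/-- Normal cyclic subgroups are central in `Y`. -/
theorem central {A : Subgroup Γ} (hAn : A.Normal) [IsCyclic A] :
    A ≤ Subgroup.centralizer (Y : Set Γ) := by
  obtain ⟨e⟩ : Nonempty (MulAut A ≃* (ZMod (Nat.card A))ˣ) := ⟨IsCyclic.mulAutMulEquiv A⟩
  haveI := hAn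
  let c : Γ →* MulAut A := MulAut.conjNormal
  let φ : Γ →* (ZMod (Nat.card A))ˣ := MonoidHom.comp (e : MulAut A →* (ZMod (Nat.card A))ˣ) c
  have hφ : ∀ g y : Γ, φ (g * y * g⁻¹) = φ y := fun g y => by
    rw [map_mul φ, map_mul φ, map_inv φ, mul_inv_cancel_comm]
  have hf := D.hom _ (φ.comp Y.subtype) (fun y z h => (congrArg φ h).trans (hφ a y))
    (fun y z h => (congrArg φ h).trans (hφ b y))
  intro z hz
  rw [mem_centralizer_iff']
  intro y hy
  have h1 : φ y = 1 := DFunLike.congr_fun hf ⟨y, hy⟩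
  have h2 : c y = 1 := e.injective (h1.trans (map_one e).symm)
  have h3 := congrArg Subtype.val (DFunLike.congr_fun h2 ⟨z, hz⟩)
  rw [MulAut.conjNormal_apply] at h3
  exact mul_inv_eq_iff_eq_mul.1 h3

theorem abelian_central {t : ℕ} [Fact t.Prime] {A : Subgroup Γ} (hAn : A.Normal) (hAY : A ≤ Y)
    (hA : ∀ x ∈ A, ∀ y ∈ A, Commute x y) (hAp : IsPGroup t A) :
    A ≤ Subgroup.centralizer (Y : Set Γ) := by
  haveI := D.cyclic hAn hAY hA hAp
  exact D.central hAn

theorem exists_minNC (hY : ¬ ∀ x ∈ Y, ∀ y ∈ Y, Commute x y) : ∃ T, MinNC Y T := by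
  obtain ⟨T, -, hT⟩ := Finite.exists_le_minimal
    (p := fun K : Subgroup Γ => K.Normal ∧ K ≤ Y ∧ ¬ K ≤ Subgroup.centralizer (Y : Set Γ))
    (a := Y) ⟨D.normalY, le_rfl, fun h => hY fun x hx y hy =>
      (mem_centralizer_iff'.1 (h hx) y hy).symm⟩
  refine ⟨T, hT.prop.1, hT.prop.2.1, hT.prop.2.2, fun K hK hle hne => ?_⟩
  by_contra h
  exact hne (le_antisymm hle (hT.le_of_le ⟨hK, hle.trans hT.prop.2.1, h⟩ hle))

end Dat

namespace MinNC

variable {T : Subgroup Γ} (M : MinNC Y T)
include M

theorem commutator_le [hs : Group.IsSolvable Y] : ⁅T, T⁆ ≤ Subgroup.centralizer (Y : Set Γ) := by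
  haveI := M.normal
  haveI : Group.IsSolvable T :=
    Group.isSolvable_of_isSolvable_injective (Subgroup.inclusion_injective M.le)
  refine M.min _ inferInstance (Subgroup.commutator_le_self T) fun he => ?_
  have hne : Nontrivial T := (Subgroup.nontrivial_iff_ne_bot T).2 fun h =>
    M.noncentral (h ▸ bot_le)
  refine (Group.IsSolvable.commutator_lt_top_of_nontrivial (G := T)).ne ?_
  refine (Subgroup.map_injective T.subtype_injective) ?_
  rw [Subgroup.map_subtype_commutator, he, ← MonoidHom.range_eq_map, Subgroup.range_subtype]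

theorem exists_prime [Group.IsSolvable Y] : ∃ t : ℕ, t.Prime ∧ IsPGroup t T := by
  classical
  haveI := M.normal
  have hcom : ∀ x y : T, ⁅x, y⁆ ∈ Subgroup.center T := by
    intro x y
    rw [Subgroup.mem_center_iff]
    intro z
    refine Subtype.ext ?_
    exact mem_centralizer_iff'.1
      (M.commutator_le (Subgroup.commutator_mem_commutator x.2 y.2)) z (M.le z.2)
  have hnil : Group.IsNilpotent T := by
    have hle : commutator T ≤ Subgroup.center T :=
      Subgroup.commutator_le.2 fun x _ y _ => hcom x y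
    refine Subgroup.isNilpotent_of_ker_le_center (Abelianization.of : T →* Abelianization T) ?_
    rwa [Abelianization.ker_of]
  by_contra hno
  push Not at hno
  apply M.noncentral
  set C := T ⊓ Subgroup.centralizer (Y : Set Γ) with hC
  suffices hT : C = T from fun x hx => (hT.ge hx).2
  refine Subgroup.eq_of_le_of_card_ge inf_le_left (Nat.le_of_dvd Nat.card_pos ?_)
  rw [← Nat.factorization_prime_le_iff_dvd Nat.card_pos.ne' Nat.card_pos.ne']
  intro p hp
  haveI := Fact.mk hp
  obtain ⟨P⟩ : Nonempty (Sylow p T) := inferInstance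
  have hall : ∀ (p : ℕ) (_ : Fact p.Prime) (P : Sylow p T), (P : Subgroup T).Normal :=
    ((Group.isNilpotent_of_finite_tfae (G := T)).out 0 3).1 hnil
  haveI : (P : Subgroup T).Normal := hall p inferInstance P
  haveI : (P : Subgroup T).Characteristic := P.characteristic_of_normal inferInstance
  set PT := (P : Subgroup T).map T.subtype with hPT
  have hne : PT ≠ T := fun h => hno p hp (h ▸ P.2.map T.subtype)
  have hle : PT ≤ C := le_inf (Subgroup.map_subtype_le _) (M.min PT
    (Cores.normal_map_subtype_of_characteristic _) (Subgroup.map_subtype_le _) hne)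
  have hcard : Nat.card PT = p ^ (Nat.card T).factorization p := by
    rw [hPT, Subgroup.card_map_of_injective T.subtype_injective, Sylow.card_eq_multiplicity]
  exact (Nat.Prime.pow_dvd_iff_le_factorization hp Nat.card_pos.ne').1
    (hcard ▸ Subgroup.card_dvd_of_le hle)

variable {t : ℕ} [ht : Fact t.Prime] (hT : IsPGroup t T)
include hT

theorem frattini_central {x : Γ} (hx : x ∈ T) : x ^ t ∈ Subgroup.centralizer (Y : Set Γ) := by
  haveI := M.normal
  set F := (frattini T).map T.subtype with hF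
  haveI : F.Normal := by
    haveI : (frattini T).Characteristic := frattini_characteristic
    exact Cores.normal_map_subtype_of_characteristic _
  have hne : F ≠ T := by
    intro h
    have htop : frattini T = ⊤ := Subgroup.map_injective T.subtype_injective (by
      rw [← MonoidHom.range_eq_map, Subgroup.range_subtype, ← hF, h])
    have h1 : (⊥ : Subgroup T) = ⊤ :=
      PGroup.eq_top_of_sup_frattini (H := (⊥ : Subgroup T)) (by rw [htop, sup_top_eq])
    refine M.noncentral fun y hy => ?_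
    have h2 : (⟨y, hy⟩ : T) = 1 := Subgroup.mem_bot.1 (h1 ▸ Subgroup.mem_top _)
    rw [show y = 1 from congrArg Subtype.val h2]
    exact one_mem _
  exact M.min F inferInstance (Subgroup.map_subtype_le _) hne
    ⟨(⟨x, hx⟩ : T) ^ t, PGroup.pow_mem_frattini hT _, rfl⟩

end MinNC

end Cfsg.Agent.CharGraph.Palfy
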